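import Cfsg.Agent.Alperin.Chain
import Cfsg.Agent.Transfer.Frobenius
import Cfsg.Agent.Transfer.NormalPComplement
import Cfsg.Agent.Coprime.Sylow
import Cfsg.Agent.Signalizer.Hyperplane
import Cfsg.Agent.Constrained.HallHigman

/-!
# Sylow 2-subgroups of class two under an operator group of odd order

Let `S` be a Sylow 2-subgroup of class at most two, invariant under operators of odd order, such that
no non-trivial invariant normal subgroup of `S` has its normalizer outside `S`.  Then there is a normal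
2-complement.  The proof: a radical subgroup can be taken of index two in `S`; two such subgroups either
centralise each other's `V = Ω₁(Z(D))` or are partners, and a subgroup has at most one partner, so an
operator of odd order never moves one to its partner; hence the intersection of an orbit is invariant
under the normalizer of each of its members.
-/

set_option autoImplicit false

open scoped Pointwise

namespace CfsgLib.OddCons.ClassTwoSylow

universe u

variable {K : Type u} [Group K]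

/-- The commutator, written out. -/
def cc (a b : K) : K := a * b * a⁻¹ * b⁻¹

theorem cc_eq_one_iff (a b : K) : cc a b = 1 ↔ a * b = b * a := by
  rw [cc, mul_inv_eq_one, mul_inv_eq_iff_eq_mul]

/-- `S` has class at most two. -/
def ClassTwo (S : Subgroup K) : Prop :=
  ∀ a ∈ S, ∀ b ∈ S, ∀ c ∈ S, cc a b * c = c * cc a b

theorem cc_mem {S : Subgroup K} {a b : K} (ha : a ∈ S) (hb : b ∈ S) : cc a b ∈ S :=
  mul_mem (mul_mem (mul_mem ha hb) (inv_mem ha)) (inv_mem hb)

theorem ClassTwo.cc_mul_left {S : Subgroup K} (h : ClassTwo S) {a b c : K} (ha : a ∈ S) (hb : b ∈ S)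
    (hc : c ∈ S) : cc (a * b) c = cc a c * cc b c := by
  have h1 := h b hb c hc a ha
  calc cc (a * b) c = a * cc b c * c * a⁻¹ * c⁻¹ := by simp only [cc]; group
    _ = cc b c * cc a c := by rw [← h1]; simp only [cc]; group
    _ = cc a c * cc b c := h b hb c hc _ (cc_mem ha hc)

theorem ClassTwo.cc_mul_right {S : Subgroup K} (h : ClassTwo S) {a b c : K} (ha : a ∈ S) (hb : b ∈ S)
    (hc : c ∈ S) : cc a (b * c) = cc a b * cc a c := by
  have h1 := h a ha c hc b hb
  calc cc a (b * c) = cc a b * (b * cc a c * b⁻¹) := by simp only [cc]; group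
    _ = cc a b * cc a c := by rw [← h1]; group

/-- `Ω₁(Z(D))`. -/
def omega (D : Subgroup K) : Subgroup K where
  carrier := {x | x ∈ D ∧ x * x = 1 ∧ ∀ d ∈ D, d * x = x * d}
  one_mem' := ⟨one_mem _, one_mul _, fun d _ => by rw [mul_one, one_mul]⟩
  mul_mem' := fun {x y} hx hy => ⟨mul_mem hx.1 hy.1, by
      rw [show x * y * (x * y) = x * (y * x) * y by group, hy.2.2 x hx.1 |>.symm,
        show x * (x * y) * y = x * x * (y * y) by group, hx.2.1, hy.2.1, one_mul],
    fun d hd => by rw [← mul_assoc, hx.2.2 d hd, mul_assoc, hy.2.2 d hd, mul_assoc]⟩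
  inv_mem' := fun {x} hx => by
    rw [show x⁻¹ = x from inv_eq_of_mul_eq_one_right hx.2.1]
    exact hx

theorem omega_le (D : Subgroup K) : omega D ≤ D := fun _ h => h.1

/-- A normaliser of `D` normalises `Ω₁(Z(D))`. -/
theorem conj_mem_omega {D : Subgroup K} {g x : K} (hg : g ∈ Subgroup.normalizer (D : Set K))
    (hx : x ∈ omega D) : g * x * g⁻¹ ∈ omega D := by
  refine ⟨(Subgroup.mem_normalizer_iff.1 hg x).1 hx.1, ?_, fun d hd => ?_⟩
  · rw [show g * x * g⁻¹ * (g * x * g⁻¹) = g * (x * x) * g⁻¹ by group, hx.2.1]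
    group
  · have h1 := hx.2.2 _ ((Subgroup.mem_normalizer_iff''.1 hg d).1 hd)
    calc d * (g * x * g⁻¹) = g * (g⁻¹ * d * g * x) * g⁻¹ := by group
      _ = g * (x * (g⁻¹ * d * g)) * g⁻¹ := by rw [h1]
      _ = g * x * g⁻¹ * d := by group

/-- The hypothesis: no invariant normal subgroup of `S` has normalizer outside `S`. -/
structure Setup (B : Type*) [Group B] [MulDistribMulAction B K] (S : Subgroup K) : Prop where
  cls : ClassTwo S
  smul_mem : ∀ b : B, ∀ s ∈ S, b • s ∈ S
  self : ∀ Q : Subgroup K, Q ≠ ⊥ → Q ≤ S → S ≤ Subgroup.normalizer (Q : Set K) →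
    (∀ b : B, ∀ q ∈ Q, b • q ∈ Q) → Subgroup.normalizer (Q : Set K) ≤ S

/-- A centric normal subgroup of `S` of index two with normalizer outside `S`. -/
structure Atom (S D : Subgroup K) : Prop where
  le : D ≤ S
  normal : S ≤ Subgroup.normalizer (D : Set K)
  two : ∀ s ∈ S, s ∉ D → ∀ t ∈ S, t ∉ D → s * t ∈ D
  out : ¬ Subgroup.normalizer (D : Set K) ≤ S
  cent : ∀ s ∈ S, (∀ v ∈ omega D, s * v = v * s) → s ∈ D

theorem Atom.center_le {S D : Subgroup K} (h : Atom S D) {z : K} (hz : z ∈ S)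
    (hc : ∀ s ∈ S, z * s = s * z) : z ∈ D :=
  h.cent z hz fun v hv => hc v (h.le (omega_le D hv))

theorem Atom.comm {S D : Subgroup K} {v d : K} (_h : Atom S D) (hv : v ∈ omega D) (hd : d ∈ D) :
    cc v d = 1 := (cc_eq_one_iff v d).2 (hv.2.2 d hd).symm

/-- `D` and `D'` are partners. -/
def Partner (D D' : Subgroup K) : Prop := ∃ v ∈ omega D, ∃ u ∈ omega D', cc v u ≠ 1

theorem partner_symm {D D' : Subgroup K} (h : Partner D D') : Partner D' D := by
  obtain ⟨v, hv, u, hu, h⟩ := h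
  exact ⟨u, hu, v, hv, fun e => h ((cc_eq_one_iff v u).2 ((cc_eq_one_iff u v).1 e).symm)⟩

theorem not_partner_self {S D : Subgroup K} (hD : Atom S D) : ¬ Partner D D :=
  fun ⟨_, hv, _, hu, h⟩ => h (hD.comm hv hu.1)

/-- If `v ∈ V` and `u ∈ V'` do not commute then every commutator of `V` with `S` is `1` or `[v,u]`. -/
theorem cc_cases {S D D' : Subgroup K} (hc : ClassTwo S) (hD : Atom S D) (hD' : Atom S D')
    {v u : K} (hv : v ∈ omega D) (hu : u ∈ omega D') (hvu : cc v u ≠ 1)
    {x : K} (hx : x ∈ omega D) {s : K} (hs : s ∈ S) : cc x s = 1 ∨ cc x s = cc v u := by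
  have huS : u ∈ S := hD'.le hu.1
  have hvS : v ∈ S := hD.le hv.1
  have hxS : x ∈ S := hD.le hx.1
  have huD : u ∉ D := fun h => hvu (hD.comm hv h)
  have hvD : v ∉ D' := fun h => hvu ((cc_eq_one_iff v u).2 (hu.2.2 v h))
  by_cases hsD : s ∈ D
  · exact Or.inl (hD.comm hx hsD)
  have e1 : cc x s = cc x u := by
    have h1 := hc.cc_mul_right hxS hs huS
    rw [hD.comm hx (hD.two s hs hsD u huS huD)] at h1
    have h2 : cc x u * cc x u = 1 := by
      rw [← hc.cc_mul_right hxS huS huS, hu.2.1]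
      simp [cc]
    exact mul_right_cancel (h1.symm.trans h2.symm)
  by_cases hxD : x ∈ D'
  · exact Or.inl (e1.trans ((cc_eq_one_iff x u).2 (hu.2.2 x hxD)))
  refine Or.inr (e1.trans ?_)
  have h1 := hc.cc_mul_left hxS hvS huS
  rw [(cc_eq_one_iff (x * v) u).2 (hu.2.2 _ (hD'.two x hxS hxD v hvS hvD))] at h1
  have h2 : cc v u * cc v u = 1 := by
    rw [← hc.cc_mul_left hvS hvS huS, hv.2.1]
    simp [cc]
  exact mul_right_cancel (h1.symm.trans h2.symm)

variable [Finite K] {B : Type*} [Group B] [MulDistribMulAction B K] {S : Sylow 2 K}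

theorem Setup.normalizer_sylow_le (h : Setup B (S : Subgroup K)) (hS : (S : Subgroup K) ≠ ⊥) :
    Subgroup.normalizer ((S : Subgroup K) : Set K) ≤ (S : Subgroup K) :=
  h.self _ hS le_rfl Subgroup.le_normalizer h.smul_mem

/-- A normal subgroup of a local group containing the Sylow subgroup `S` is the whole local group. -/
theorem Setup.mem_of_normal (h : Setup B (S : Subgroup K)) (hS : (S : Subgroup K) ≠ ⊥)
    {H : Subgroup K} (hSH : (S : Subgroup K) ≤ H) (N : Subgroup H) [N.Normal]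
    (hN : ∀ s : H, (s : K) ∈ (S : Subgroup K) → s ∈ N) (x : H) : x ∈ N := by
  haveI : Fact (Nat.Prime 2) := ⟨Nat.prime_two⟩
  set S' : Sylow 2 H := S.subtype hSH
  have hle : (S' : Subgroup H) ≤ N := fun s hs => hN s hs
  have htop := Sylow.normalizer_sup_eq_top (N := N) ((S' : Sylow 2 H).subtype hle)
  have hmap : ((S' : Sylow 2 H).subtype hle : Subgroup N).map N.subtype = (S' : Subgroup H) := by
    rw [Sylow.coe_subtype, Subgroup.subgroupOf_map_subtype, inf_eq_left.2 hle]
  rw [hmap] at htop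
  have hnle : Subgroup.normalizer ((S' : Subgroup H) : Set H) ≤ N := by
    intro g hg
    refine hN g (h.normalizer_sylow_le hS ?_)
    refine Subgroup.mem_normalizer_iff.2 fun y => ?_
    constructor
    · intro hy
      exact (Subgroup.mem_normalizer_iff.1 hg ⟨y, hSH hy⟩).1 hy
    · intro hy
      have hyH : y ∈ H := by
        have := mul_mem (mul_mem (inv_mem g.2) (hSH hy)) g.2
        simpa [mul_assoc] using this
      exact (Subgroup.mem_normalizer_iff.1 hg ⟨y, hyH⟩).2 hy
  have : x ∈ (⊤ : Subgroup H) := Subgroup.mem_top x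
  rw [← htop] at this
  exact sup_le hnle le_rfl this

/-- An `H`-invariant set centralised by `S` is centralised by `H`. -/
theorem Setup.centralized (h : Setup B (S : Subgroup K)) (hS : (S : Subgroup K) ≠ ⊥)
    {H : Subgroup K} (hSH : (S : Subgroup K) ≤ H) (Y : Subgroup K)
    (hY : H ≤ Subgroup.normalizer (Y : Set K)) (hc : ∀ y ∈ Y, ∀ s ∈ (S : Subgroup K), s * y = y * s) :
    ∀ g ∈ H, ∀ y ∈ Y, g * y = y * g := by
  let N : Subgroup H :=
    { carrier := {g | ∀ y ∈ Y, (g : K) * y = y * g}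
      one_mem' := fun y _ => by simp
      mul_mem' := fun {a b} ha hb y hy => by
        rw [Subgroup.coe_mul, mul_assoc, hb y hy, ← mul_assoc, ha y hy, mul_assoc]
      inv_mem' := fun {a} ha y hy => by
        rw [Subgroup.coe_inv, eq_mul_inv_iff_mul_eq, mul_assoc, ← ha y hy, inv_mul_cancel_left] }
  haveI : N.Normal := ⟨fun n hn g y hy => by
    have h1 := hn _ ((Subgroup.mem_normalizer_iff''.1 (hY g.2) y).1 hy)
    simp only [Subgroup.coe_mul, Subgroup.coe_inv]
    calc (g : K) * n * (g : K)⁻¹ * y = g * (n * ((g : K)⁻¹ * y * g)) * (g : K)⁻¹ := by group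
      _ = g * (((g : K)⁻¹ * y * g) * n) * (g : K)⁻¹ := by rw [h1]
      _ = y * (g * n * (g : K)⁻¹) := by group⟩
  exact fun g hg y hy => h.mem_of_normal hS hSH N (fun s hs y hy => hc y hy s hs) ⟨g, hg⟩ y hy

/-- The common commutator of a partner pair is moved by the normalizer. -/
theorem Setup.no_fixed (h : Setup B (S : Subgroup K)) (hS : (S : Subgroup K) ≠ ⊥)
    {D D' : Subgroup K} (hD : Atom (S : Subgroup K) D) (hD' : Atom (S : Subgroup K) D')
    {v u : K} (hv : v ∈ omega D) (hu : u ∈ omega D') (hvu : cc v u ≠ 1) (Y : Subgroup K)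
    (hY : Subgroup.normalizer (D : Set K) ≤ Subgroup.normalizer (Y : Set K))
    (hzY : cc v u ∈ Y) (hc : ∀ y ∈ Y, ∀ s ∈ (S : Subgroup K), s * y = y * s) : False := by
  haveI : Fact (Nat.Prime 2) := ⟨Nat.prime_two⟩
  set H := Subgroup.normalizer (D : Set K)
  set z := cc v u
  set V := omega D
  have hz : ∀ g ∈ H, g * z * g⁻¹ = z := fun g hg => by
    rw [h.centralized hS hD.normal Y hY hc g hg z hzY, mul_inv_cancel_right]
  have hVn : ∀ g ∈ H, ∀ x ∈ V, g⁻¹ * x * g ∈ V := fun g hg x hx => by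
    simpa using conj_mem_omega (inv_mem hg) hx
  -- conjugates of elements of `S` act as transvections with the common centre `z`
  have htr : ∀ g ∈ H, ∀ s ∈ (S : Subgroup K), ∀ x ∈ V,
      cc x (g * s * g⁻¹) = 1 ∨ cc x (g * s * g⁻¹) = z := by
    intro g hg s hs x hx
    have h1 := cc_cases h.cls hD hD' hv hu hvu (hVn g hg x hx) hs
    have h2 : cc x (g * s * g⁻¹) = g * cc (g⁻¹ * x * g) s * g⁻¹ := by simp only [cc]; group
    rcases h1 with e | e <;> rw [e] at h2
    · exact Or.inl (h2.trans (by group))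
    · exact Or.inr (h2.trans (hz g hg))
  -- so the elements inducing such maps form a normal subgroup whose commutators centralise `V`
  let T : Subgroup H :=
    { carrier := {g | ∀ x ∈ V, (cc x (g : K) = 1 ∨ cc x (g : K) = z)}
      one_mem' := fun x _ => Or.inl (by simp [cc])
      mul_mem' := fun {a b} ha hb x hx => by
        have haz : (a : K) * z * (a : K)⁻¹ = z := hz a a.2
        have e : cc x ((a * b : H) : K) = cc x (a : K) * ((a : K) * cc x (b : K) * (a : K)⁻¹) := by
          simp only [cc, Subgroup.coe_mul]; group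
        have hzz : z * z = 1 := by
          show cc v u * cc v u = 1
          rw [← h.cls.cc_mul_left (hD.le hv.1) (hD.le hv.1) (hD'.le hu.1), hv.2.1]
          simp [cc]
        rcases ha x hx with e1 | e1 <;> rcases hb x hx with e2 | e2 <;> rw [e1, e2] at e
        · exact Or.inl (e.trans (by simp))
        · exact Or.inr (e.trans (by rw [one_mul, haz]))
        · exact Or.inr (e.trans (by simp))
        · exact Or.inl (e.trans (by rw [haz, hzz]))
      inv_mem' := fun {a} ha x hx => by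
        have haz : (a : K)⁻¹ * z * (a : K) = z := by simpa using hz (a : K)⁻¹ (inv_mem a.2)
        have hzz : z⁻¹ = z := inv_eq_of_mul_eq_one_right (by
          show cc v u * cc v u = 1
          rw [← h.cls.cc_mul_left (hD.le hv.1) (hD.le hv.1) (hD'.le hu.1), hv.2.1]
          simp [cc])
        have e : cc x ((a⁻¹ : H) : K) = (a : K)⁻¹ * (cc x (a : K))⁻¹ * (a : K) := by
          simp only [cc, Subgroup.coe_inv]; group
        rcases ha x hx with e1 | e1 <;> rw [e1] at e
        · exact Or.inl (e.trans (by simp))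
        · exact Or.inr (e.trans (by rw [hzz, haz])) }
  haveI : T.Normal := ⟨fun t ht g x hx => by
    have h1 := ht _ (hVn g g.2 x hx)
    have e : cc x ((g * t * g⁻¹ : H) : K) =
        (g : K) * cc ((g : K)⁻¹ * x * g) (t : K) * (g : K)⁻¹ := by
      simp only [cc, Subgroup.coe_mul, Subgroup.coe_inv]; group
    rcases h1 with e1 | e1 <;> rw [e1] at e
    · exact Or.inl (e.trans (by simp))
    · exact Or.inr (e.trans (hz g g.2))⟩
  have hTS : ∀ s : H, (s : K) ∈ (S : Subgroup K) → s ∈ T := fun s hs x hx =>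
    cc_cases h.cls hD hD' hv hu hvu hx hs
  have hall := h.mem_of_normal hS hD.normal T hTS
  -- elements of `H` act on `V` by commuting maps of order at most two; so `H ≤ S`
  let C : Subgroup H :=
    { carrier := {g | ∀ x ∈ V, cc x (g : K) = 1}
      one_mem' := fun x _ => by simp [cc]
      mul_mem' := fun {a b} ha hb x hx => by
        have e : cc x ((a * b : H) : K) = cc x (a : K) * ((a : K) * cc x (b : K) * (a : K)⁻¹) := by
          simp only [cc, Subgroup.coe_mul]; group
        rw [e, ha x hx, hb x hx]; simp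
      inv_mem' := fun {a} ha x hx => by
        have e : cc x ((a⁻¹ : H) : K) = (a : K)⁻¹ * (cc x (a : K))⁻¹ * (a : K) := by
          simp only [cc, Subgroup.coe_inv]; group
        rw [e, ha x hx]; simp }
  have hsq : ∀ g : H, g * g ∈ C := fun g x hx => by
    have e : cc x ((g * g : H) : K) = cc x (g : K) * ((g : K) * cc x (g : K) * (g : K)⁻¹) := by
      simp only [cc, Subgroup.coe_mul]; group
    rw [e]
    rcases hall g x hx with e1 | e1 <;> rw [e1]
    · simp
    · rw [hz g g.2]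
      show cc v u * cc v u = 1
      rw [← h.cls.cc_mul_left (hD.le hv.1) (hD.le hv.1) (hD'.le hu.1), hv.2.1]
      simp [cc]
  -- `C` consists of elements of `S`
  have hCS : ∀ g ∈ C, (g : K) ∈ (S : Subgroup K) := by
    intro g hg
    have hV0 : omega (S : Subgroup K) ≤ V := fun x hx =>
      ⟨hD.center_le hx.1 fun s hs => (hx.2.2 s hs).symm, hx.2.1, fun d hd => hx.2.2 d (hD.le hd)⟩
    have hne : omega (S : Subgroup K) ≠ ⊥ := by
      haveI : Nontrivial (S : Subgroup K) := (Subgroup.nontrivial_iff_ne_bot _).2 hS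
      haveI := S.2.center_nontrivial
      obtain ⟨k, hk⟩ := IsPGroup.iff_card.1 (S.2.to_subgroup (Subgroup.center (S : Subgroup K)))
      obtain ⟨w, hw⟩ := exists_prime_orderOf_dvd_card' (G := Subgroup.center (S : Subgroup K)) 2 (by
        rw [hk]
        refine dvd_pow_self 2 fun e => ?_
        rw [e, pow_zero] at hk
        exact absurd (Finite.one_lt_card_iff_nontrivial.2 inferInstance) hk.not_gt)
      intro e
      have hwo : ((w : (S : Subgroup K)) : K) ∈ omega (S : Subgroup K) :=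
        ⟨(w : (S : Subgroup K)).2, by
          have : w * w = 1 := by
            have h1 := pow_orderOf_eq_one w
            rwa [hw, sq] at h1
          exact congrArg (fun y : Subgroup.center (S : Subgroup K) => ((y : (S : Subgroup K)) : K)) this,
          fun d hd => congrArg Subtype.val (Subgroup.mem_center_iff.1 w.2 ⟨d, hd⟩)⟩
      rw [e, Subgroup.mem_bot] at hwo
      rw [show w = 1 from Subtype.ext (Subtype.ext hwo), orderOf_one] at hw
      omega
    refine h.self _ hne (omega_le _) (fun s hs => ?_) (fun b q hq => ?_) ?_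
    · refine Subgroup.mem_normalizer_iff.2 fun y => ⟨fun hy => conj_mem_omega (Subgroup.le_normalizer hs) hy,
        fun hy => by simpa [mul_assoc] using conj_mem_omega (Subgroup.le_normalizer (inv_mem hs)) hy⟩
    · refine ⟨h.smul_mem b q hq.1, by rw [← smul_mul', hq.2.1, smul_one], fun d hd => ?_⟩
      have := congrArg (b • ·) (hq.2.2 _ (h.smul_mem b⁻¹ d hd))
      simpa [smul_mul'] using this
    · refine Subgroup.centralizer_le_normalizer _ (Subgroup.mem_centralizer_iff.2 fun y hy => ?_)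
      exact (cc_eq_one_iff y (g : K)).1 (hg y (hV0 hy))
  -- hence `H` is a 2-group containing `S`
  have hH2 : IsPGroup 2 H := fun g => by
    obtain ⟨k, hk⟩ := S.2 ⟨_, hCS _ (hsq g)⟩
    refine ⟨k + 1, Subtype.ext ?_⟩
    have := congrArg Subtype.val hk
    simp only [SubmonoidClass.coe_pow, OneMemClass.coe_one, Subgroup.coe_mul] at this ⊢
    rw [pow_succ', pow_mul, sq]
    exact this
  exact hD.out (S.3 hH2 hD.normal).le

/-- **A subgroup has at most one partner.** -/
theorem Setup.partner_unique (h : Setup B (S : Subgroup K)) (hS : (S : Subgroup K) ≠ ⊥)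
    {D₁ D₂ D₃ : Subgroup K} (h₁ : Atom (S : Subgroup K) D₁) (h₂ : Atom (S : Subgroup K) D₂)
    (h₃ : Atom (S : Subgroup K) D₃) (h12 : Partner D₁ D₂) (h23 : Partner D₂ D₃) : D₁ = D₃ := by
  obtain ⟨v, hv, u, hu, hvu⟩ := h12
  obtain ⟨u', hu', w, hw, huw'⟩ := h23
  set z := cc v u
  have hc := h.cls
  have hvS := h₁.le hv.1
  have huS := h₂.le hu.1
  have hwS := h₃.le hw.1
  have hzz : z * z = 1 := by
    show cc v u * cc v u = 1
    rw [← hc.cc_mul_left hvS hvS huS, hv.2.1]
    simp [cc]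
  have hsymm : ∀ a b : K, cc a b = z → cc b a = z := fun a b e => by
    rw [show cc b a = (cc a b)⁻¹ by simp only [cc]; group, e]
    exact inv_eq_of_mul_eq_one_right hzz
  have huv : cc u v = z := hsymm v u rfl
  -- all commutators of `V₁`, `V₂`, `V₃` with `S` are `1` or `z`
  have c2 : ∀ x ∈ omega D₂, ∀ s ∈ (S : Subgroup K), cc x s = 1 ∨ cc x s = z := fun x hx s hs =>
    huv ▸ cc_cases hc h₂ h₁ hu hv (fun e => hvu ((cc_eq_one_iff v u).2 ((cc_eq_one_iff u v).1 e).symm))
      hx hs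
  have hu'w : cc u' w = z := ((c2 u' hu' w hwS).resolve_left huw')
  have hwu' : cc w u' = z := hsymm _ _ hu'w
  have c3 : ∀ x ∈ omega D₃, ∀ s ∈ (S : Subgroup K), cc x s = 1 ∨ cc x s = z := fun x hx s hs =>
    hwu' ▸ cc_cases hc h₃ h₂ hw hu' (fun e => huw' ((cc_eq_one_iff u' w).2 ((cc_eq_one_iff w u').1 e).symm))
      hx hs
  have c1 : ∀ x ∈ omega D₁, ∀ s ∈ (S : Subgroup K), cc x s = 1 ∨ cc x s = z := fun x hx s hs =>
    cc_cases hc h₁ h₂ hv hu hvu hx hs
  -- `u` itself does not commute with `w`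
  have huD₁ : u ∉ D₁ := fun e => hvu (h₁.comm hv e)
  have hwD₂ : w ∉ D₂ := fun e => huw' (h₂.comm hu' e)
  have hvD₂ : v ∉ D₂ := fun e => hvu ((cc_eq_one_iff v u).2 (hu.2.2 v e))
  have huw : cc u w = z := by
    refine (c2 u hu w hwS).resolve_left fun e => hvu ?_
    have h1 := hc.cc_mul_right huS hvS hwS
    rw [e, mul_one, h₂.comm hu (h₂.two v hvS hvD₂ w hwS hwD₂)] at h1
    exact (cc_eq_one_iff v u).2 ((cc_eq_one_iff u v).1 h1.symm).symm
  -- `D₁` is the centralizer of `v`
  have hcentv : ∀ s ∈ (S : Subgroup K), cc v s = 1 → s ∈ D₁ := by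
    intro s hs e
    by_contra hsD
    have h1 := hc.cc_mul_right hvS hs huS
    rw [e, one_mul, h₁.comm hv (h₁.two s hs hsD u huS huD₁)] at h1
    exact hvu h1.symm
  have hcentw : ∀ s ∈ (S : Subgroup K), cc w s = 1 → s ∈ D₃ := by
    intro s hs e
    by_contra hsD
    have hu'S := h₂.le hu'.1
    have hu'D₃ : u' ∉ D₃ := fun e' => huw' ((cc_eq_one_iff u' w).2 (hw.2.2 u' e'))
    have h1 := hc.cc_mul_right hwS hs hu'S
    rw [e, one_mul, h₃.comm hw (h₃.two s hs hsD u' hu'S hu'D₃)] at h1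
    exact huw' ((cc_eq_one_iff u' w).2 ((cc_eq_one_iff w u').1 h1.symm).symm)
  rcases c1 v hv w hwS with hvw | hvw
  · -- `v` and `w` commute: `z` is a commutator in `D₁`
    by_contra hne
    have hwD₁ := hcentv w hwS hvw
    by_cases hle : ∀ s ∈ D₁, cc w s = 1
    · refine hne (le_antisymm (fun s hs => hcentw s (h₁.le hs) (hle s hs)) fun s hs => ?_)
      by_contra hsD
      have hvD₃ : v ∈ D₃ := hcentw v hvS ((cc_eq_one_iff w v).2 ((cc_eq_one_iff v w).1 hvw).symm)
      have hsS := h₃.le hs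
      have huD₃ : u ∈ D₃ := by
        have := mul_mem (inv_mem hs) (hcentw _ (mul_mem hsS huS)
          (hle _ (h₁.two s hsS hsD u huS huD₁)))
        simpa using this
      rw [(cc_eq_one_iff u w).2 (hw.2.2 u huD₃)] at huw
      exact hvu huw.symm
    push_neg at hle
    obtain ⟨s, hs, hws⟩ := hle
    have hz : cc w s = z := (c3 w hw s (h₁.le hs)).resolve_left hws
    refine h.no_fixed hS h₁ h₂ hv hu hvu (⁅D₁, D₁⁆) ?_ ?_ ?_
    · intro g hg
      rw [Subgroup.mem_normalizer_iff_map_conj_eq, Subgroup.map_commutator,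
        Subgroup.mem_normalizer_iff_map_conj_eq.1 hg]
    · show z ∈ _
      rw [← hz]
      exact Subgroup.commutator_mem_commutator hwD₁ hs
    · intro y hy s' hs'
      have hle2 : ⁅D₁, D₁⁆ ≤ Subgroup.centralizer ((S : Subgroup K) : Set K) := by
        rw [Subgroup.commutator_le]
        intro a ha b hb
        exact Subgroup.mem_centralizer_iff.2 fun c hc' =>
          (hc a (h₁.le ha) b (h₁.le hb) c hc').symm
      exact Subgroup.mem_centralizer_iff.1 (hle2 hy) s' hs'
  · -- pairwise non-commuting: `z` is a square in `D₁`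
    exfalso
    set y := v * u * w with hy
    have hyS : y ∈ (S : Subgroup K) := mul_mem (mul_mem hvS huS) hwS
    have hyD : y ∈ D₁ := by
      refine hcentv y hyS ?_
      rw [hy, hc.cc_mul_right hvS (mul_mem hvS huS) hwS, hc.cc_mul_right hvS hvS huS,
        show cc v v = 1 by simp [cc], one_mul, hvw]
      exact hzz
    have hy2 : y * y = z := by
      have e1 : u * v = v * u * z := by
        rw [← huv, hc u huS v hvS (v * u) (mul_mem hvS huS) |>.symm]
        simp only [cc]; group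
      have e2 : w * (v * u) = v * u * w := by
        have h1 : cc w (v * u) = 1 := by
          rw [hc.cc_mul_right hwS hvS huS, hsymm v w hvw, hsymm u w huw, hzz]
        exact (cc_eq_one_iff _ _).1 h1
      calc y * y = v * u * (w * (v * u)) * w := by rw [hy]; group
        _ = v * u * (v * u) * (w * w) := by rw [e2]; group
        _ = v * (u * v) * u := by rw [hw.2.1]; group
        _ = v * v * u * (z * u) := by rw [e1]; group
        _ = v * v * u * (u * z) := by
          rw [show z * u = u * z from hc v hvS u huS u huS]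
        _ = z := by rw [hv.2.1, one_mul, ← mul_assoc, hu.2.1, one_mul]
    set W := Subgroup.closure {x | ∃ d ∈ D₁, x = d * d} with hW
    refine h.no_fixed hS h₁ h₂ hv hu hvu (W ⊓ omega D₁) ?_ ?_ ?_
    · intro g hg
      have hconj : ∀ g ∈ Subgroup.normalizer (D₁ : Set K), ∀ x ∈ W ⊓ omega D₁,
          g * x * g⁻¹ ∈ W ⊓ omega D₁ := by
        intro g hg x hx
        refine ⟨?_, conj_mem_omega hg hx.2⟩
        have hle : W ≤ W.comap (MulAut.conj g).toMonoidHom := (Subgroup.closure_le _).2 (by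
          rintro _ ⟨d, hd, rfl⟩
          exact Subgroup.subset_closure ⟨g * d * g⁻¹, (Subgroup.mem_normalizer_iff.1 hg d).1 hd, by
            show g * (d * d) * g⁻¹ = _
            group⟩)
        exact hle hx.1
      exact Subgroup.mem_normalizer_iff.2 fun x => ⟨hconj g hg x, fun hx => by
        simpa [mul_assoc] using hconj g⁻¹ (inv_mem hg) _ hx⟩
    · refine ⟨Subgroup.subset_closure ⟨y, hyD, hy2.symm⟩, (hy2 ▸ mul_mem hyD hyD : z ∈ D₁), hzz, fun d hd => ?_⟩
      exact (hc v hvS u huS d (h₁.le hd)).symm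
    · intro x hx s hs
      have hxu : x * u = u * x := by
        have hle : W ≤ Subgroup.centralizer ({u} : Set K) := (Subgroup.closure_le _).2 (by
          rintro _ ⟨d, hd, rfl⟩
          refine Subgroup.mem_centralizer_singleton_iff.2 ?_
          have h1 : cc (d * d) u = 1 := by
            rw [hc.cc_mul_left (h₁.le hd) (h₁.le hd) huS, ← hc.cc_mul_right (h₁.le hd) huS huS,
              hu.2.1]
            simp [cc]
          exact (cc_eq_one_iff _ _).1 h1)
        exact Subgroup.mem_centralizer_singleton_iff.1 (hle hx.1)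
      by_cases hsD : s ∈ D₁
      · exact hx.2.2.2 s hsD
      have h1 := hx.2.2.2 _ (h₁.two s hs hsD u huS huD₁)
      apply mul_right_cancel (b := u)
      rw [mul_assoc s x u, hxu, ← mul_assoc, h1, mul_assoc x s u]

theorem Setup.omega_ne_bot (_h : Setup B (S : Subgroup K)) (hS : (S : Subgroup K) ≠ ⊥) :
    omega (S : Subgroup K) ≠ ⊥ := by
  haveI : Fact (Nat.Prime 2) := ⟨Nat.prime_two⟩
  haveI : Nontrivial (S : Subgroup K) := (Subgroup.nontrivial_iff_ne_bot _).2 hS
  haveI := S.2.center_nontrivial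
  obtain ⟨k, hk⟩ := IsPGroup.iff_card.1 (S.2.to_subgroup (Subgroup.center (S : Subgroup K)))
  obtain ⟨w, hw⟩ := exists_prime_orderOf_dvd_card' (G := Subgroup.center (S : Subgroup K)) 2 (by
    rw [hk]
    refine dvd_pow_self 2 fun e => ?_
    rw [e, pow_zero] at hk
    exact absurd (Finite.one_lt_card_iff_nontrivial.2 inferInstance) hk.not_gt)
  intro e
  have hwo : ((w : (S : Subgroup K)) : K) ∈ omega (S : Subgroup K) :=
    ⟨(w : (S : Subgroup K)).2, by
      have : w * w = 1 := by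
        have h1 := pow_orderOf_eq_one w
        rwa [hw, sq] at h1
      exact congrArg (fun y : Subgroup.center (S : Subgroup K) => ((y : (S : Subgroup K)) : K)) this,
      fun d hd => congrArg Subtype.val (Subgroup.mem_center_iff.1 w.2 ⟨d, hd⟩)⟩
  rw [e, Subgroup.mem_bot] at hwo
  rw [show w = 1 from Subtype.ext (Subtype.ext hwo), orderOf_one] at hw
  omega

theorem Setup.centralizer_omega_le (h : Setup B (S : Subgroup K)) (hS : (S : Subgroup K) ≠ ⊥) :
    Subgroup.centralizer (omega (S : Subgroup K) : Set K) ≤ (S : Subgroup K) := by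
  refine (Subgroup.centralizer_le_normalizer _).trans
    (h.self _ (h.omega_ne_bot hS) (omega_le _) (fun s hs => ?_) fun b q hq => ?_)
  · exact Subgroup.mem_normalizer_iff.2 fun y =>
      ⟨fun hy => conj_mem_omega (Subgroup.le_normalizer hs) hy,
        fun hy => by simpa [mul_assoc] using conj_mem_omega (Subgroup.le_normalizer (inv_mem hs)) hy⟩
  · refine ⟨h.smul_mem b q hq.1, by rw [← smul_mul', hq.2.1, smul_one], fun d hd => ?_⟩
    have := congrArg (b • ·) (hq.2.2 _ (h.smul_mem b⁻¹ d hd))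
    simpa [smul_mul'] using this

/-- The image of a subgroup under an operator. -/
def img (b : B) (D : Subgroup K) : Subgroup K :=
  D.map (MulDistribMulAction.toMonoidHom K b)

omit [Finite K] in
theorem smul_mem_img {b : B} {D : Subgroup K} {x : K} (hx : x ∈ D) : b • x ∈ img b D := ⟨x, hx, rfl⟩

omit [Finite K] in
theorem mem_img_iff {b : B} {D : Subgroup K} {x : K} : x ∈ img b D ↔ b⁻¹ • x ∈ D := by
  constructor
  · rintro ⟨y, hy, rfl⟩
    show b⁻¹ • b • y ∈ D
    rwa [inv_smul_smul]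
  · intro h
    exact ⟨_, h, smul_inv_smul b x⟩

omit [Finite K] in
theorem smul_mem_omega {b : B} {D : Subgroup K} {x : K} (hx : x ∈ omega D) :
    b • x ∈ omega (img b D) := by
  refine ⟨smul_mem_img hx.1, by rw [← smul_mul', hx.2.1, smul_one], ?_⟩
  rintro _ ⟨d, hd, rfl⟩
  show b • d * b • x = b • x * b • d
  rw [← smul_mul', ← smul_mul', hx.2.2 d hd]

theorem Setup.atom_img (h : Setup B (S : Subgroup K)) {D : Subgroup K}
    (hD : Atom (S : Subgroup K) D) (b : B) : Atom (S : Subgroup K) (img b D) := by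
  have hinv : ∀ g : K, ∀ b : B, g ∈ (S : Subgroup K) → b⁻¹ • g ∈ (S : Subgroup K) :=
    fun g b hg => h.smul_mem b⁻¹ g hg
  refine ⟨fun x hx => ?_, fun s hs => ?_, fun s hs hsD t ht htD => ?_, fun hle => hD.out ?_,
    fun s hs hv => ?_⟩
  · simpa using h.smul_mem b _ (hD.le (mem_img_iff.1 hx))
  · refine Subgroup.mem_normalizer_iff.2 fun x => ?_
    rw [mem_img_iff, mem_img_iff, smul_mul', smul_mul', smul_inv']
    exact Subgroup.mem_normalizer_iff.1 (hD.normal (hinv s b hs)) _
  · rw [mem_img_iff, smul_mul']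
    exact hD.two _ (hinv s b hs) (fun e => hsD (mem_img_iff.2 e)) _ (hinv t b ht)
      (fun e => htD (mem_img_iff.2 e))
  · intro g hg
    have hbg : b • g ∈ Subgroup.normalizer (img b D : Set K) := Subgroup.mem_normalizer_iff.2 fun x => by
      rw [mem_img_iff, mem_img_iff, smul_mul', smul_mul', smul_inv', inv_smul_smul]
      exact Subgroup.mem_normalizer_iff.1 hg _
    simpa using hinv _ b (hle hbg)
  · rw [mem_img_iff]
    refine hD.cent _ (hinv s b hs) fun v hv' => ?_
    have := congrArg (b⁻¹ • ·) (hv _ (smul_mem_omega (b := b) hv'))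
    simpa [smul_mul'] using this

/-- No operator moves an atom to a partner. -/
theorem Setup.not_partner_img (h : Setup B (S : Subgroup K)) [Finite B] (hB : Odd (Nat.card B))
    (hS : (S : Subgroup K) ≠ ⊥) {D : Subgroup K} (hD : Atom (S : Subgroup K) D) (b : B) :
    ¬ Partner D (img b D) := by
  intro hp
  have himg : ∀ a c : B, img a (img c D) = img (a * c) D := by
    intro a c
    ext x
    rw [mem_img_iff, mem_img_iff, mem_img_iff, mul_inv_rev, mul_smul]
  have hp2 : Partner (img b D) (img (b * b) D) := by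
    obtain ⟨v, hv, u, hu, hvu⟩ := hp
    refine ⟨b • v, smul_mem_omega hv, b • u, himg b b ▸ smul_mem_omega hu, fun e => hvu ?_⟩
    have : cc (b • v) (b • u) = b • cc v u := by simp [cc, smul_mul', smul_inv']
    rw [this] at e
    have h2 := congrArg (b⁻¹ • ·) e
    simpa using h2
  have heq : D = img (b * b) D :=
    h.partner_unique hS hD (h.atom_img hD b) (h.atom_img hD _) hp hp2
  have hpow : ∀ n : ℕ, img ((b * b) ^ n) D = D := by
    intro n
    induction n with
    | zero => ext x; rw [mem_img_iff, pow_zero, inv_one, one_smul]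
    | succ n ih => rw [pow_succ, ← himg, ← heq, ih]
  obtain ⟨k, hk⟩ := hB.of_dvd_nat (orderOf_dvd_natCard b)
  have hb : (b * b) ^ (k + 1) = b := by
    rw [← sq, ← pow_mul, show 2 * (k + 1) = 2 * k + 1 + 1 by ring, ← hk, pow_succ, pow_orderOf_eq_one,
      one_mul]
  rw [← hb, hpow] at hp
  exact not_partner_self hD hp

/-- **There are no atoms.** -/
theorem Setup.no_atom (h : Setup B (S : Subgroup K)) [Finite B] (hB : Odd (Nat.card B))
    (hS : (S : Subgroup K) ≠ ⊥) {D : Subgroup K} (hD : Atom (S : Subgroup K) D) : False := by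
  haveI : Fact (Nat.Prime 2) := ⟨Nat.prime_two⟩
  set H := Subgroup.normalizer (D : Set K)
  set V := omega D
  set Q : Subgroup K := ⨅ b : B, img b D
  have hc := h.cls
  have hmem : ∀ {x : K}, x ∈ Q ↔ ∀ b : B, b⁻¹ • x ∈ D := fun {x} => by
    rw [Subgroup.mem_iInf]
    exact forall_congr' fun b => mem_img_iff
  have hQD : Q ≤ D := fun x hx => by simpa using hmem.1 hx 1
  have hVQ : V ≤ Q := fun v hv => Subgroup.mem_iInf.2 fun b => (h.atom_img hD b).cent v (hD.le hv.1)
    fun u hu => by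
      by_contra hne
      exact h.not_partner_img hB hS hD b ⟨v, hv, u, hu, fun e => hne ((cc_eq_one_iff v u).1 e)⟩
  have hVbot : V ≠ ⊥ := fun e => h.omega_ne_bot hS (eq_bot_iff.2 fun x hx => e ▸
    (show x ∈ V from ⟨hD.center_le hx.1 fun s hs => (hx.2.2 s hs).symm, hx.2.1,
      fun d hd => hx.2.2 d (hD.le hd)⟩))
  have hQne : Q ≠ ⊥ := fun e => hVbot (le_bot_iff.1 (hVQ.trans e.le))
  have hle := h.self Q hQne (hQD.trans hD.le) (fun s hs => Subgroup.mem_normalizer_iff.2 fun x => by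
      rw [hmem, hmem]
      refine forall_congr' fun b => ?_
      rw [smul_mul', smul_mul', smul_inv']
      exact Subgroup.mem_normalizer_iff.1 (hD.normal (h.smul_mem b⁻¹ s hs)) _)
    fun b q hq => hmem.2 fun c => by
      have := hmem.1 hq (b⁻¹ * c)
      rwa [mul_inv_rev, inv_inv, mul_smul] at this
  refine hD.out (le_trans (fun g hg => ?_) hle)
  -- `H` centralises `D / Z(D)` and `Z(D) / V`
  have hn : ∀ g ∈ H, ∀ x ∈ D, g * x * g⁻¹ ∈ D := fun g hg x hx =>
    (Subgroup.mem_normalizer_iff.1 hg x).1 hx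
  have hcomp : ∀ a b x : K, cc (a * b) x = a * cc b x * a⁻¹ * cc a x := fun a b x => by
    simp only [cc]; group
  have hinvc : ∀ a x : K, cc a⁻¹ x = a⁻¹ * (cc a x)⁻¹ * a := fun a x => by simp only [cc]; group
  let ZD : Subgroup K := D ⊓ Subgroup.centralizer (D : Set K)
  have hnZ : ∀ g ∈ H, ∀ x ∈ ZD, g * x * g⁻¹ ∈ ZD := fun g hg x hx => by
    refine ⟨hn g hg x hx.1, Subgroup.mem_centralizer_iff.2 fun d hd => ?_⟩
    have h1 := Subgroup.mem_centralizer_iff.1 hx.2 _ ((Subgroup.mem_normalizer_iff''.1 hg d).1 hd)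
    calc d * (g * x * g⁻¹) = g * (g⁻¹ * d * g * x) * g⁻¹ := by group
      _ = g * (x * (g⁻¹ * d * g)) * g⁻¹ := by rw [h1]
      _ = g * x * g⁻¹ * d := by group
  have hstep : ∀ (A T : Subgroup K) (_ : ∀ g ∈ H, ∀ x ∈ A, g * x * g⁻¹ ∈ A)
      (_ : ∀ g ∈ H, ∀ x ∈ T, g * x * g⁻¹ ∈ T)
      (_ : ∀ s ∈ (S : Subgroup K), ∀ x ∈ A, cc s x ∈ T), ∀ g ∈ H, ∀ x ∈ A, cc g x ∈ T := by
    intro A T hA hT hST
    let N : Subgroup H :=
      { carrier := {g | ∀ x ∈ A, cc (g : K) x ∈ T}
        one_mem' := fun x _ => by simp [cc]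
        mul_mem' := fun {a b} ha hb x hx => by
          rw [Subgroup.coe_mul, hcomp]
          exact mul_mem (hT a a.2 _ (hb x hx)) (ha x hx)
        inv_mem' := fun {a} ha x hx => by
          rw [Subgroup.coe_inv, hinvc]
          simpa using hT (a : K)⁻¹ (inv_mem a.2) _ (inv_mem (ha x hx)) }
    haveI : N.Normal := ⟨fun n hn' g x hx => by
      have e : cc ((g * n * g⁻¹ : H) : K) x =
          (g : K) * cc (n : K) ((g : K)⁻¹ * x * g) * (g : K)⁻¹ := by
        simp only [cc, Subgroup.coe_mul, Subgroup.coe_inv]; group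
      rw [e]
      exact hT g g.2 _ (hn' _ (by simpa using hA (g : K)⁻¹ (inv_mem g.2) x hx))⟩
    exact fun g hg => h.mem_of_normal hS hD.normal N (fun s hs x hx => hST _ hs x hx) ⟨g, hg⟩
  have h1 : ∀ g ∈ H, ∀ x ∈ D, cc g x ∈ ZD := hstep D ZD hn hnZ fun s hs x hx => by
    refine ⟨?_, Subgroup.mem_centralizer_iff.2 fun d hd => (hc s hs x (hD.le hx) d (hD.le hd)).symm⟩
    exact hD.center_le (cc_mem hs (hD.le hx)) fun t ht => hc s hs x (hD.le hx) t ht
  have hnV : ∀ g ∈ H, ∀ x ∈ V, g * x * g⁻¹ ∈ V := fun g hg x hx => conj_mem_omega hg hx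
  have h2 : ∀ g ∈ H, ∀ x ∈ ZD, cc g x ∈ V := hstep ZD V hnZ hnV fun s hs x hx => by
    have hxS := hD.le hx.1
    refine ⟨hD.center_le (cc_mem hs hxS) fun t ht => hc s hs x hxS t ht, ?_,
      fun d hd => (hc s hs x hxS d (hD.le hd)).symm⟩
    rw [← hc.cc_mul_left hs hs hxS]
    by_cases hsD : s ∈ D
    · exact (cc_eq_one_iff _ _).2 (Subgroup.mem_centralizer_iff.1 hx.2 _ (mul_mem hsD hsD))
    · exact (cc_eq_one_iff _ _).2 (Subgroup.mem_centralizer_iff.1 hx.2 _ (hD.two s hs hsD s hs hsD))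
  -- a power of each element of `H` centralises `D / V`
  let Kc : Subgroup H :=
    { carrier := {g | ∀ x ∈ D, cc (g : K) x ∈ V}
      one_mem' := fun x _ => by simp [cc]
      mul_mem' := fun {a b} ha hb x hx => by
        rw [Subgroup.coe_mul, hcomp]
        exact mul_mem (hnV a a.2 _ (hb x hx)) (ha x hx)
      inv_mem' := fun {a} ha x hx => by
        rw [Subgroup.coe_inv, hinvc]
        simpa using hnV (a : K)⁻¹ (inv_mem a.2) _ (inv_mem (ha x hx)) }
  haveI : Kc.Normal := ⟨fun n hn' g x hx => by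
    have e : cc ((g * n * g⁻¹ : H) : K) x =
        (g : K) * cc (n : K) ((g : K)⁻¹ * x * g) * (g : K)⁻¹ := by
      simp only [cc, Subgroup.coe_mul, Subgroup.coe_inv]; group
    rw [e]
    exact hnV g g.2 _ (hn' _ (by simpa using hn (g : K)⁻¹ (inv_mem g.2) x hx))⟩
  have hpow : ∀ g ∈ H, ∀ x ∈ D, ∀ n : ℕ, ∃ v ∈ V, cc (g ^ n) x = v * cc g x ^ n := by
    intro g hg x hx n
    induction n with
    | zero => exact ⟨1, one_mem _, by simp [cc]⟩
    | succ n ih =>
      obtain ⟨v, hv, e⟩ := ih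
      have hcn : cc g x ^ n ∈ ZD := pow_mem (h1 g hg x hx) n
      refine ⟨g * v * g⁻¹ * cc g (cc g x ^ n), mul_mem (hnV g hg v hv) (h2 g hg _ hcn), ?_⟩
      rw [pow_succ', hcomp, e, pow_succ]
      simp only [cc]
      group
  obtain ⟨m, hm⟩ := IsPGroup.iff_card.1 S.2
  have hquot : IsPGroup 2 (H ⧸ Kc) := by
    intro q
    obtain ⟨g, rfl⟩ := QuotientGroup.mk_surjective q
    refine ⟨m, ?_⟩
    rw [← QuotientGroup.mk_pow, QuotientGroup.eq_one_iff]
    intro x hx
    obtain ⟨v, hv, e⟩ := hpow g g.2 x hx (2 ^ m)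
    rw [SubmonoidClass.coe_pow, e]
    have hcS : cc (g : K) x ∈ (S : Subgroup K) := hD.le (h1 g g.2 x hx).1
    have h3 : (⟨_, hcS⟩ : (S : Subgroup K)) ^ (2 ^ m) = 1 := by rw [← hm]; exact pow_card_eq_one'
    have h3' : cc (g : K) x ^ (2 ^ m) = 1 := congrArg Subtype.val h3
    rwa [h3', mul_one]
  obtain ⟨j, hj⟩ := IsPGroup.iff_card.1 hquot
  set S' : Sylow 2 H := S.subtype hD.normal
  have htop : Kc ⊔ (S' : Subgroup H) = ⊤ := by
    rw [← Subgroup.index_eq_one]
    refine Nat.eq_one_of_dvd_coprimes (Nat.Coprime.pow_left j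
      ((Nat.Prime.coprime_iff_not_dvd Nat.prime_two).2 S'.not_dvd_index)) ?_
      (Subgroup.index_dvd_of_le le_sup_right)
    exact hj ▸ Subgroup.index_dvd_of_le le_sup_left
  obtain ⟨k, hk, s, hs, hks⟩ := Subgroup.mem_sup_of_normal_left.1
    (htop.symm ▸ Subgroup.mem_top (⟨g, hg⟩ : H) : (⟨g, hg⟩ : H) ∈ Kc ⊔ (S' : Subgroup H))
  rw [show g = (k : K) * (s : K) from (congrArg Subtype.val hks).symm]
  have hnorm : ∀ k ∈ Kc, ∀ x ∈ Q, (k : K) * x * (k : K)⁻¹ ∈ Q := fun k hk x hx => by
    rw [show (k : K) * x * (k : K)⁻¹ = cc (k : K) x * x by simp [cc]]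
    exact mul_mem (hVQ (hk x (hQD hx))) hx
  refine mul_mem (Subgroup.mem_normalizer_iff.2 fun x => ⟨hnorm k hk x, fun hx => ?_⟩) ?_
  · simpa [mul_assoc] using hnorm k⁻¹ (inv_mem hk) _ hx
  · have hsS : (s : K) ∈ (S : Subgroup K) := hs
    exact Subgroup.mem_normalizer_iff.2 fun x => by
      rw [hmem, hmem]
      refine forall_congr' fun b => ?_
      rw [smul_mul', smul_mul', smul_inv']
      exact Subgroup.mem_normalizer_iff.1 (hD.normal (h.smul_mem b⁻¹ _ hsS)) _

/-- A centric normal subgroup of `S` with normalizer outside `S` yields an atom. -/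
theorem Setup.exists_atom (h : Setup B (S : Subgroup K)) (hS : (S : Subgroup K) ≠ ⊥)
    {D : Subgroup K} (hle : D ≤ (S : Subgroup K))
    (hn : (S : Subgroup K) ≤ Subgroup.normalizer (D : Set K))
    (hcen : (S : Subgroup K) ⊓ Subgroup.centralizer (D : Set K) ≤ D)
    (hout : ¬ Subgroup.normalizer (D : Set K) ≤ (S : Subgroup K)) :
    ∃ D' : Subgroup K, Atom (S : Subgroup K) D' := by
  classical
  haveI : Fact (Nat.Prime 2) := ⟨Nat.prime_two⟩
  obtain ⟨D₀, ⟨h0le, h0n, h0c, h0o⟩, hmax⟩ := Set.Finite.exists_maximal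
    (Set.toFinite {D : Subgroup K | D ≤ (S : Subgroup K) ∧
      (S : Subgroup K) ≤ Subgroup.normalizer (D : Set K) ∧
      (S : Subgroup K) ⊓ Subgroup.centralizer (D : Set K) ≤ D ∧
      ¬ Subgroup.normalizer (D : Set K) ≤ (S : Subgroup K)})
    ⟨D, hle, hn, hcen, hout⟩
  have hmono : ∀ T : Subgroup K, D₀ ≤ T → T ≤ (S : Subgroup K) →
      (S : Subgroup K) ≤ Subgroup.normalizer (T : Set K) →
      ¬ Subgroup.normalizer (T : Set K) ≤ (S : Subgroup K) → T = D₀ := fun T hT hTS hTn hTo =>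
    le_antisymm (hmax ⟨hTS, hTn, fun x hx => hT (h0c ⟨hx.1, Subgroup.centralizer_le
      (show (D₀ : Set K) ⊆ T from hT) hx.2⟩), hTo⟩ hT) hT
  set H := Subgroup.normalizer (D₀ : Set K)
  set V := omega D₀
  have hV0 : omega (S : Subgroup K) ≤ V := fun x hx =>
    ⟨h0c ⟨hx.1, Subgroup.mem_centralizer_iff.2 fun d hd => hx.2.2 d (h0le hd)⟩, hx.2.1,
      fun d hd => hx.2.2 d (h0le hd)⟩
  set Y := H ⊓ Subgroup.centralizer (V : Set K) with hY
  have hYS : Y ≤ (S : Subgroup K) := fun y hy => h.centralizer_omega_le hS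
    (Subgroup.centralizer_le (show (omega (S : Subgroup K) : Set K) ⊆ V from hV0) hy.2)
  have hYn : H ≤ Subgroup.normalizer (Y : Set K) := by
    have hconj : ∀ g ∈ H, ∀ y ∈ Y, g * y * g⁻¹ ∈ Y := fun g hg y hy => by
      have hyH : y ∈ H := (Subgroup.mem_inf.1 hy).1
      refine Subgroup.mem_inf.2 ⟨mul_mem (mul_mem hg hyH) (inv_mem hg),
        Subgroup.mem_centralizer_iff.2 fun v hv => ?_⟩
      have h1 := Subgroup.mem_centralizer_iff.1 hy.2 _
        (show g⁻¹ * v * g ∈ V by simpa using conj_mem_omega (inv_mem hg) hv)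
      calc v * (g * y * g⁻¹) = g * (g⁻¹ * v * g * y) * g⁻¹ := by group
        _ = g * (y * (g⁻¹ * v * g)) * g⁻¹ := by rw [h1]
        _ = g * y * g⁻¹ * v := by group
    exact fun g hg => Subgroup.mem_normalizer_iff.2 fun x => ⟨hconj g hg x, fun hx => by
      simpa [mul_assoc] using hconj g⁻¹ (inv_mem hg) _ hx⟩
  have hYD : Y = D₀ := hmono Y (fun d hd => ⟨Subgroup.le_normalizer hd,
      Subgroup.mem_centralizer_iff.2 fun v hv => (hv.2.2 d hd).symm⟩) hYS (h0n.trans hYn)
    fun hh => h0o (hYn.trans hh)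
  have hcent : ∀ s ∈ (S : Subgroup K), (∀ v ∈ V, s * v = v * s) → s ∈ D₀ := fun s hs hv =>
    hYD ▸ ⟨h0n hs, Subgroup.mem_centralizer_iff.2 fun v hv' => (hv v hv').symm⟩
  have hsq : ∀ s ∈ (S : Subgroup K), s * s ∈ D₀ := fun s hs => by
    refine hcent _ (mul_mem hs hs) fun v hv => ((cc_eq_one_iff v (s * s)).1 ?_).symm
    rw [h.cls.cc_mul_right (h0le hv.1) hs hs, ← h.cls.cc_mul_left (h0le hv.1) (h0le hv.1) hs, hv.2.1]
    simp [cc]
  refine ⟨D₀, h0le, h0n, ?_, h0o, hcent⟩
  -- the quotient `H / D₀`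
  set N := D₀.subgroupOf H with hN
  haveI : N.Normal := (Subgroup.normal_subgroupOf_iff_le_normalizer
    (Subgroup.le_normalizer : D₀ ≤ H)).2 le_rfl
  set π := QuotientGroup.mk' N
  have hπ : Function.Surjective π := QuotientGroup.mk'_surjective N
  set S' : Sylow 2 H := S.subtype h0n
  set A := (S' : Subgroup H).map π
  have hA : Cfsg.IsElementaryAbelian 2 A := by
    have hsq' : ∀ a ∈ A, a ^ 2 = 1 := by
      rintro _ ⟨a, ha, rfl⟩
      rw [← map_pow, sq]
      exact (QuotientGroup.eq_one_iff _).2 (hsq _ ha)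
    refine ⟨⟨⟨fun a b => Subtype.ext ?_⟩⟩, hsq'⟩
    have key : ∀ c : A, (c : H ⧸ N)⁻¹ = c := fun c => inv_eq_of_mul_eq_one_right (by
      rw [← sq]; exact hsq' _ c.2)
    show (a : H ⧸ N) * b = b * a
    calc (a : H ⧸ N) * b = ((a * b : A) : H ⧸ N)⁻¹ := (key (a * b)).symm
      _ = (b : H ⧸ N)⁻¹ * (a : H ⧸ N)⁻¹ := by rw [Subgroup.coe_mul, mul_inv_rev]
      _ = b * a := by rw [key, key]
  have hDS : ∀ x : H, π x ∈ A → (x : K) ∈ (S : Subgroup K) := by
    rintro x ⟨s, hs, e⟩
    have h2 : ((s⁻¹ * x : H) : K) ∈ D₀ := (QuotientGroup.eq (s := N)).1 e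
    have := mul_mem (show (s : K) ∈ (S : Subgroup K) from hs) (h0le h2)
    simpa using this
  have hSA : ∀ x : H, (x : K) ∈ (S : Subgroup K) → π x ∈ A := fun x hx => ⟨x, hx, rfl⟩
  have hnpc : Cfsg.HasNormalPComplement 2 (H ⧸ N) := by
    refine CfsgLib.Transfer.hasNormalPComplement_of_normalizer_le_centralizer
      (S'.mapSurjective hπ) fun g hg => Subgroup.mem_centralizer_iff.2 fun a ha => ?_
    obtain ⟨x, rfl⟩ := hπ g
    have hxS : (x : K) ∈ (S : Subgroup K) := by
      refine h.normalizer_sylow_le hS (Subgroup.mem_normalizer_iff.2 fun y => ?_)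
      have hh : ∀ y : H, (y : K) ∈ (S : Subgroup K) ↔
          ((x * y * x⁻¹ : H) : K) ∈ (S : Subgroup K) := fun y => by
        constructor
        · intro hy
          refine hDS _ ?_
          rw [map_mul, map_mul, map_inv]
          exact (Subgroup.mem_normalizer_iff.1 hg (π y)).1 (hSA y hy)
        · intro hy
          refine hDS _ ((Subgroup.mem_normalizer_iff.1 hg (π y)).2 ?_)
          rw [← map_inv, ← map_mul, ← map_mul]
          exact hSA _ hy
      constructor
      · intro hy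
        exact (hh ⟨y, h0n hy⟩).1 hy
      · intro hy
        have hyH : y ∈ H := by
          have := mul_mem (mul_mem (inv_mem x.2) (h0n hy)) x.2
          simpa [mul_assoc] using this
        exact (hh ⟨y, hyH⟩).2 hy
    haveI := hA.1
    exact congrArg Subtype.val (mul_comm' (⟨a, ha⟩ : A) ⟨π x, hSA x hxS⟩)
  obtain ⟨R, hR, hRc⟩ := CfsgLib.Transfer.exists_isComplement' hnpc (S'.mapSurjective hπ)
  haveI := hR
  have hRne : R ≠ ⊥ := by
    intro e
    refine h0o fun g hg => hDS ⟨g, hg⟩ ?_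
    have htop := hRc.sup_eq_top
    rw [e, bot_sup_eq] at htop
    exact (htop.symm ▸ Subgroup.mem_top _ : π ⟨g, hg⟩ ∈ (S'.mapSurjective hπ : Subgroup (H ⧸ N)))
  have hgen := Hyperplane.le_iSup_centralizer hA (X := R)
    (hRc.index_eq_card ▸ (S'.mapSurjective hπ).not_dvd_index)
    (by rw [Subgroup.normalizer_eq_top_iff.2 hR]; exact le_top)
  obtain ⟨⟨T, hTA, hTi⟩, hT⟩ : ∃ T : {T : Subgroup (H ⧸ N) // T ≤ A ∧ T.relIndex A ∣ 2},
      R ⊓ Subgroup.centralizer ((T : Subgroup (H ⧸ N)) : Set (H ⧸ N)) ≠ ⊥ := by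
    by_contra! hall
    exact hRne (le_bot_iff.1 (hgen.trans (iSup_le fun T => (hall T).le)))
  obtain ⟨r, hr, hr1⟩ := (Subgroup.bot_or_exists_ne_one _).resolve_left hT
  obtain ⟨x, rfl⟩ := hπ r
  set T₀ := (T.comap π).map H.subtype with hT₀
  have hNT : D₀ ≤ T₀ := fun d hd => ⟨⟨d, Subgroup.le_normalizer hd⟩, by
    show π _ ∈ T
    rw [show π ⟨d, Subgroup.le_normalizer hd⟩ = 1 from (QuotientGroup.eq_one_iff _).2 hd]
    exact one_mem _, rfl⟩
  have hTS : T₀ ≤ (S : Subgroup K) := by
    rintro _ ⟨y, hy, rfl⟩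
    exact hDS y (hTA hy)
  have hnormT : ∀ g : H, (∀ t ∈ T, π g * t = t * π g) →
      (g : K) ∈ Subgroup.normalizer (T₀ : Set K) := by
    intro g hg
    have hh : ∀ g : H, (∀ t ∈ T, π g * t = t * π g) → ∀ y ∈ T₀, (g : K) * y * (g : K)⁻¹ ∈ T₀ := by
      rintro g hg _ ⟨y, hy, rfl⟩
      refine ⟨g * y * g⁻¹, ?_, rfl⟩
      show π (g * y * g⁻¹) ∈ T
      rw [map_mul, map_mul, map_inv, hg _ hy, mul_inv_cancel_right]
      exact hy
    refine Subgroup.mem_normalizer_iff.2 fun y => ⟨hh g hg y, fun hy => ?_⟩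
    have h2 := hh g⁻¹ (fun t ht => by
      rw [map_inv, inv_mul_eq_iff_eq_mul, ← mul_assoc, hg t ht, mul_inv_cancel_right]) _ hy
    simpa [mul_assoc] using h2
  haveI := hA.1
  have hT₀eq : T₀ = D₀ := by
    refine hmono T₀ hNT hTS (fun s hs => hnormT ⟨s, h0n hs⟩ fun t ht => ?_) fun hh => ?_
    · exact congrArg Subtype.val (mul_comm' (⟨_, hSA ⟨s, h0n hs⟩ hs⟩ : A) ⟨t, hTA ht⟩)
    · have hxS : (x : K) ∈ (S : Subgroup K) := hh (hnormT x fun t ht =>
        (Subgroup.mem_centralizer_iff.1 hr.2 t ht).symm)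
      exact hr1 (Subgroup.mem_bot.1 (hRc.disjoint.le_bot ⟨hr.1, hSA x hxS⟩))
  have hTbot : T = ⊥ := by
    rw [eq_bot_iff]
    intro t ht
    obtain ⟨y, rfl⟩ := hπ t
    exact Subgroup.mem_bot.2 ((QuotientGroup.eq_one_iff y).2
      (show (y : K) ∈ D₀ from hT₀eq ▸ (⟨y, ht, rfl⟩ : (y : K) ∈ T₀)))
  rw [hTbot, Subgroup.relIndex_bot_left] at hTi
  intro s hs hsD t ht htD
  have hcard : Nat.card A ≤ 2 := Nat.le_of_dvd (by norm_num) hTi
  by_contra hst
  have h1 : π ⟨s, h0n hs⟩ ≠ 1 := fun e => hsD ((QuotientGroup.eq_one_iff (N := N) ⟨s, h0n hs⟩).1 e)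
  have h2 : π ⟨t, h0n ht⟩ ≠ 1 := fun e => htD ((QuotientGroup.eq_one_iff (N := N) ⟨t, h0n ht⟩).1 e)
  have h3 : π ⟨s, h0n hs⟩ ≠ π ⟨t, h0n ht⟩ := fun e => hst <| by
    have h4 : π (⟨s, h0n hs⟩ * ⟨t, h0n ht⟩) = 1 := by
      rw [map_mul, ← e, ← sq]
      exact hA.2 _ (hSA _ hs)
    exact (QuotientGroup.eq_one_iff (N := N) _).1 h4
  haveI := Fintype.ofFinite A
  have hlt : 2 < Fintype.card A := Fintype.two_lt_card_iff.2
    ⟨1, ⟨_, hSA ⟨s, h0n hs⟩ hs⟩, ⟨_, hSA ⟨t, h0n ht⟩ ht⟩,
      fun e => h1 (congrArg Subtype.val e).symm, fun e => h2 (congrArg Subtype.val e).symm,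
      fun e => h3 (congrArg Subtype.val e)⟩
  rw [Nat.card_eq_fintype_card] at hcard
  omega

/-- **The normal 2-complement.** -/
theorem Setup.hasNormalTwoComplement (h : Setup B (S : Subgroup K)) [Finite B]
    (hB : Odd (Nat.card B)) : Cfsg.HasNormalPComplement 2 K := by
  haveI : Fact (Nat.Prime 2) := ⟨Nat.prime_two⟩
  by_cases hS : (S : Subgroup K) = ⊥
  · exact CfsgLib.Transfer.hasNormalPComplement_of_not_dvd fun hd => S.ne_bot_of_dvd_card hd hS
  have hsteps : ∀ D x, CfsgLib.Alperin.IsRadicalStep S D x → x ∈ (S : Subgroup K) := by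
    rintro D x ⟨⟨R, hRD, -, -, hxN, -⟩, hrad⟩
    have hDS : D ≤ (S : Subgroup K) := hRD ▸ inf_le_left
    have hcen : (S : Subgroup K) ⊓ Subgroup.centralizer (D : Set K) ≤ D := by
      refine hrad _ le_rfl ?_ ?_ le_sup_left
      · intro g hg
        rw [Subgroup.mem_normalizer_iff]
        intro y
        constructor
        · intro hh
          rw [← Subgroup.mem_centralizer_iff.mp hg y hh, mul_inv_cancel_right]; exact hh
        · intro hh
          have := Subgroup.mem_centralizer_iff.mp hg _ hh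
          have h2 : y = g * y * g⁻¹ := by
            apply mul_left_cancel (a := g)
            rw [← this]; group
          rwa [h2]
      · intro n hn
        rw [Subgroup.mem_normalizer_iff_map_conj_eq]
        refine Subgroup.eq_of_le_of_card_ge ?_
          (by rw [Subgroup.card_map_of_injective (MulAut.conj n).injective])
        rintro _ ⟨g, hg, rfl⟩
        refine Subgroup.mem_centralizer_iff.mpr fun y hy => ?_
        have := Subgroup.mem_centralizer_iff.mp hg _ ((Subgroup.mem_normalizer_iff''.mp hn y).mp hy)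
        show y * (n * g * n⁻¹) = n * g * n⁻¹ * y
        calc y * (n * g * n⁻¹) = n * (n⁻¹ * y * n * g) * n⁻¹ := by group
          _ = n * (g * (n⁻¹ * y * n)) * n⁻¹ := by rw [this]
          _ = _ := by group
    have hn : (S : Subgroup K) ≤ Subgroup.normalizer (D : Set K) := by
      have hconj : ∀ s ∈ (S : Subgroup K), ∀ d ∈ D, s * d * s⁻¹ ∈ D := by
        intro s hs d hd
        have h1 : cc s d ∈ (S : Subgroup K) ⊓ Subgroup.centralizer (D : Set K) :=
          ⟨cc_mem hs (hDS hd), Subgroup.mem_centralizer_iff.2 fun e he =>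
            (h.cls s hs d (hDS hd) e (hDS he)).symm⟩
        have := D.mul_mem (hcen h1) hd
        simpa [cc] using this
      exact fun s hs => Subgroup.mem_normalizer_iff.2 fun y => ⟨hconj s hs y, fun hy => by
        simpa [mul_assoc] using hconj s⁻¹ (inv_mem hs) _ hy⟩
    by_contra hxS
    obtain ⟨D', hD'⟩ := h.exists_atom hS hDS hn hcen fun hle => hxS (hle hxN)
    exact h.no_atom hB hS hD'
  have hchain : ∀ A g, CfsgLib.Alperin.Chain (CfsgLib.Alperin.IsRadicalStep S) A g →
      g ∈ (S : Subgroup K) := by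
    intro A g hh
    induction hh with
    | nil => exact one_mem _
    | cons A D x g hD hA _ ih => exact mul_mem (hsteps D x hD) ih
  refine CfsgLib.Transfer.hasNormalPComplement_of_pLocal_centralizes ?_
  have hSub : ∀ U : Subgroup K, U ≤ (S : Subgroup K) → ∀ g ∈ Subgroup.normalizer (U : Set K),
      (orderOf g).Coprime 2 → g ∈ Subgroup.centralizer (U : Set K) := by
    intro U hU g hg hgc
    obtain ⟨c, hc, g', hg', hgg⟩ := CfsgLib.Alperin.exists_radical_chain S (A := (U : Set K))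
      (g := g⁻¹) hU (by
        rintro _ ⟨u, hu, rfl⟩
        show g⁻¹⁻¹ * u * g⁻¹ ∈ _
        rw [inv_inv]
        exact hU ((Subgroup.mem_normalizer_iff.mp hg u).mp hu))
    set s := g'⁻¹
    have hs : s ∈ (S : Subgroup K) := inv_mem (hchain _ _ hg')
    have h1 : ∀ u ∈ U, g * u * g⁻¹ = s * u * s⁻¹ := by
      intro u hu
      have hg1 : g = g'⁻¹ * c⁻¹ := by rw [← inv_inv g, hgg, mul_inv_rev]
      have := Subgroup.mem_centralizer_iff.mp hc u hu
      calc g * u * g⁻¹ = g'⁻¹ * (c⁻¹ * (u * c)) * g' := by rw [hg1]; group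
        _ = g'⁻¹ * (c⁻¹ * (c * u)) * g' := by rw [this]
        _ = _ := by simp [s]
    have h2 : ∀ (k : ℕ), ∀ u ∈ U, g ^ k * u * (g ^ k)⁻¹ = s ^ k * u * (s ^ k)⁻¹ := by
      intro k
      induction k with
      | zero => intro u _; simp
      | succ k ihk =>
        intro u hu
        calc g ^ (k + 1) * u * (g ^ (k + 1))⁻¹ = g ^ k * (g * u * g⁻¹) * (g ^ k)⁻¹ := by
              rw [pow_succ]; group
          _ = s ^ k * (g * u * g⁻¹) * (s ^ k)⁻¹ := ihk _ ((Subgroup.mem_normalizer_iff.mp hg u).mp hu)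
          _ = s ^ k * (s * u * s⁻¹) * (s ^ k)⁻¹ := by rw [h1 u hu]
          _ = _ := by rw [pow_succ]; group
    obtain ⟨k, hk⟩ := S.2 ⟨s, hs⟩
    have hk' : s ^ 2 ^ k = 1 := congrArg Subtype.val hk
    have hgk : g ^ 2 ^ k ∈ Subgroup.centralizer (U : Set K) := by
      refine Subgroup.mem_centralizer_iff.mpr fun u hu => ?_
      have := h2 (2 ^ k) u hu
      rw [hk', one_mul, inv_one, mul_one] at this
      exact (mul_inv_eq_iff_eq_mul.mp this).symm
    obtain ⟨j, hj⟩ := exists_pow_eq_self_of_coprime (x := g) (Nat.Coprime.pow_left k hgc.symm)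
    rw [← hj]
    exact Subgroup.pow_mem _ hgk j
  intro U hUp g hg hgc
  obtain ⟨R, hR⟩ := hUp.exists_le_sylow
  obtain ⟨x, hx⟩ := MulAction.exists_smul_eq K R S
  have hU' : U.map (MulAut.conj x).toMonoidHom ≤ (S : Subgroup K) := by
    rw [← hx]; exact Subgroup.map_mono hR
  have hh := hSub _ hU' (x * g * x⁻¹) (Subgroup.le_normalizer_map _ (Subgroup.mem_map.mpr ⟨g, hg, rfl⟩))
    (by rwa [show orderOf (x * g * x⁻¹) = orderOf g from MulEquiv.orderOf_eq (MulAut.conj x) g])
  refine Subgroup.mem_centralizer_iff.mpr fun u hu => ?_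
  have h2 : x * u * x⁻¹ * (x * g * x⁻¹) = x * g * x⁻¹ * (x * u * x⁻¹) :=
    Subgroup.mem_centralizer_iff.mp hh _ ⟨u, hu, rfl⟩
  calc u * g = x⁻¹ * (x * u * x⁻¹ * (x * g * x⁻¹)) * x := by group
    _ = x⁻¹ * (x * g * x⁻¹ * (x * u * x⁻¹)) * x := by rw [h2]
    _ = g * u := by group

end CfsgLib.OddCons.ClassTwoSylow
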