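import Cfsg.Agent.OddCons.Inverted

/-!
# Pairwise non-coprime class sizes in all subgroups

Given the odd order theorem, a finite group in which every subgroup has pairwise non-coprime
non-trivial class sizes is solvable.
-/

set_option autoImplicit false

namespace CfsgLib.OddCons.CoprimeClasses

universe u

variable {G : Type u} [Group G] [Finite G]

/-- In a group generated by a normal odd order element and an element inverting it, the two class
sizes are coprime. -/
theorem class_sizes {x s : G} {p : ℕ} (hp : p.Prime) (hp2 : p ≠ 2) (hx : orderOf x = p)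
    (hsx : s * x * s⁻¹ = x⁻¹) (hgen : Subgroup.closure ({x, s} : Set G) = ⊤) :
    (Subgroup.centralizer ({x} : Set G)).index = 2 ∧
      (Subgroup.centralizer ({s} : Set G)).index = p := by
  have hne : x ≠ x⁻¹ := by
    intro h
    have h2 : x ^ 2 = 1 := by rw [pow_two]; nth_rewrite 2 [h]; exact mul_inv_cancel x
    have h3 := orderOf_dvd_of_pow_eq_one h2
    rw [hx] at h3
    exact hp2 ((Nat.prime_dvd_prime_iff_eq hp Nat.prime_two).1 h3)
  have hcx : ∀ g : G, g * x * g⁻¹ = x ∨ g * x * g⁻¹ = x⁻¹ := by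
    intro g
    have hg : g ∈ Subgroup.closure ({x, s} : Set G) := hgen ▸ Subgroup.mem_top g
    induction hg using Subgroup.closure_induction with
    | mem a ha =>
      rcases ha with rfl | rfl
      · left; simp
      · exact Or.inr hsx
    | one => left; simp
    | mul a b _ _ ha hb =>
      have key : a * b * x * (a * b)⁻¹ = a * (b * x * b⁻¹) * a⁻¹ := by group
      rw [key]
      rcases hb with h | h <;> rw [h]
      · exact ha
      · rw [← conj_inv]
        rcases ha with h' | h' <;> rw [h']
        · exact Or.inr rfl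
        · exact Or.inl (inv_inv x)
    | inv a _ ha =>
      rcases ha with h | h
      · left
        conv_lhs => arg 1; arg 2; rw [← h]
        group
      · right
        have h' : a * x⁻¹ * a⁻¹ = x := by rw [← conj_inv, h, inv_inv]
        conv_lhs => arg 1; arg 2; rw [← h']
        group
  constructor
  · rw [← ClassSizes.ncard_conjRange, Set.ncard_eq_two]
    refine ⟨x, x⁻¹, hne, Set.ext fun y => ⟨?_, ?_⟩⟩
    · rintro ⟨g, rfl⟩
      exact hcx g
    · rintro (rfl | rfl)
      · exact ⟨1, by simp⟩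
      · exact ⟨s, hsx⟩
  · -- the class of `s` is the coset `⟨x⟩ s`
    have hX : ∀ (g : G), ∀ a ∈ Subgroup.zpowers x, g * a * g⁻¹ ∈ Subgroup.zpowers x := by
      rintro g _ ⟨i, rfl⟩
      show g * x ^ i * g⁻¹ ∈ _
      rw [← conj_zpow]
      refine zpow_mem ?_ i
      rcases hcx g with h | h <;> rw [h]
      · exact Subgroup.mem_zpowers x
      · exact inv_mem (Subgroup.mem_zpowers x)
    have hdiv : ∀ g : G, g * s * g⁻¹ * s⁻¹ ∈ Subgroup.zpowers x := by
      intro g
      have hg : g ∈ Subgroup.closure ({x, s} : Set G) := hgen ▸ Subgroup.mem_top g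
      induction hg using Subgroup.closure_induction with
      | mem a ha =>
        rcases ha with rfl | rfl
        · have : a * s * a⁻¹ * s⁻¹ = a * (s * a * s⁻¹)⁻¹ := by group
          rw [this, hsx, inv_inv]
          exact mul_mem (Subgroup.mem_zpowers a) (Subgroup.mem_zpowers a)
        · rw [mul_inv_cancel_right, mul_inv_cancel]; exact one_mem _
      | one => simp
      | mul a b _ _ ha hb =>
        have key : a * b * s * (a * b)⁻¹ * s⁻¹ =
            a * (b * s * b⁻¹ * s⁻¹) * a⁻¹ * (a * s * a⁻¹ * s⁻¹) := by group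
        rw [key]
        exact mul_mem (hX a _ hb) ha
      | inv a _ ha =>
        have key : a⁻¹ * s * a⁻¹⁻¹ * s⁻¹ = a⁻¹ * (a * s * a⁻¹ * s⁻¹)⁻¹ * a⁻¹⁻¹ := by group
        rw [key]
        exact hX _ _ (inv_mem ha)
    rw [← ClassSizes.ncard_conjRange]
    have heq : (Set.range fun g : G => g * s * g⁻¹) =
        (fun a => a * s) '' (Subgroup.zpowers x : Set G) := by
      refine Set.Subset.antisymm ?_ ?_
      · rintro _ ⟨g, rfl⟩
        exact ⟨_, hdiv g, inv_mul_cancel_right _ _⟩
      · rintro _ ⟨a, ⟨i, rfl⟩, rfl⟩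
        -- `x ^ i` is a square in `⟨x⟩`
        have hodd : Odd p := hp.odd_of_ne_two hp2
        obtain ⟨k, hk⟩ := hodd
        refine ⟨x ^ ((k + 1 : ℤ) * i), ?_⟩
        show _ = x ^ i * s
        have h1 : s * (x ^ ((k + 1 : ℤ) * i))⁻¹ * s⁻¹ = x ^ ((k + 1 : ℤ) * i) := by
          rw [← zpow_neg, ← conj_zpow, hsx, inv_zpow, ← zpow_neg, neg_neg]
        calc x ^ ((k + 1 : ℤ) * i) * s * (x ^ ((k + 1 : ℤ) * i))⁻¹
            = x ^ ((k + 1 : ℤ) * i) * (s * (x ^ ((k + 1 : ℤ) * i))⁻¹ * s⁻¹) * s := by group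
          _ = x ^ i * s := by
            rw [h1, ← zpow_add]
            have : x ^ ((k + 1 : ℤ) * i + (k + 1) * i) = x ^ i := by
              rw [zpow_eq_zpow_iff_modEq, hx, hk, Int.modEq_iff_dvd]
              exact ⟨-i, by push_cast; ring⟩
            rw [this]
    rw [heq, Set.ncard_image_of_injective _ (mul_left_injective s), ← Nat.card_coe_set_eq]
    exact (Nat.card_zpowers x).trans hx

/-- S4159, from the odd order theorem. -/
theorem isSolvable (hFT : CfsgLib.OddStep.P0205.{u})
    (h : ∀ (H : Subgroup G) (x y : H), 1 < (Subgroup.centralizer ({x} : Set H)).index →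
      1 < (Subgroup.centralizer ({y} : Set H)).index →
      ¬ ((Subgroup.centralizer ({x} : Set H)).index).Coprime
        (Subgroup.centralizer ({y} : Set H)).index) : Group.IsSolvable G := by
  by_contra hns
  obtain ⟨p, x, s, hp, hp2, hx, -, hsx⟩ := Inverted.exists_inverted hFT hns
  set K := Subgroup.closure ({x, s} : Set G)
  have hxK : x ∈ K := Subgroup.subset_closure (Or.inl rfl)
  have hsK : s ∈ K := Subgroup.subset_closure (Or.inr rfl)
  have hgen : Subgroup.closure ({⟨x, hxK⟩, ⟨s, hsK⟩} : Set K) = ⊤ := by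
    rw [eq_top_iff]
    intro y _
    have : ((Subgroup.closure ({⟨x, hxK⟩, ⟨s, hsK⟩} : Set K)).map K.subtype) = K := by
      rw [MonoidHom.map_closure, Set.image_pair]
      rfl
    have h1 : (y : G) ∈ (Subgroup.closure ({⟨x, hxK⟩, ⟨s, hsK⟩} : Set K)).map K.subtype := by
      rw [this]; exact y.2
    obtain ⟨y', hy', hyy⟩ := Subgroup.mem_map.1 h1
    have h2 : y' = y := Subtype.ext hyy
    rwa [← h2]
  obtain ⟨h1, h2⟩ := class_sizes hp hp2 (show orderOf (⟨x, hxK⟩ : K) = p by
      rwa [Subgroup.orderOf_mk]) (Subtype.ext hsx) hgen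
  refine h K _ _ (by rw [h1]; norm_num) (by rw [h2]; exact hp.one_lt) ?_
  rw [h1, h2]
  exact (Nat.coprime_primes Nat.prime_two hp).2 (Ne.symm hp2)

end CfsgLib.OddCons.CoprimeClasses
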