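import Cfsg.Agent.OddCons.Basic
import Cfsg.Agent.ZStar.Theorem
import Cfsg.Agent.Constrained.HallHigman
import Cfsg.Agent.Coprime.Generation
import Cfsg.Agent.Coprime.External
import Cfsg.Agent.Alperin.Chain
import Cfsg.Agent.Transfer.NormalPComplement
import Cfsg.Agent.LocalCharP.Residual
import Cfsg.Agent.PGroup.Normal
import Cfsg.Prelude.Def_CaseTheorems

/-!
# Groups whose Sylow 2-subgroups meet in cyclic groups

With the odd order theorem as hypothesis: in a non-solvable such group a normal 2-subgroup is central.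
Let `R = O₂` (it is cyclic), `C = C(R)`, `S` Sylow and `X/R` the involutions of the centre of `(S∩C)/R`.
By the `Z*` theorem `N_C(S)` fixes no point of `X/R`.  If some element lies outside `C` then a dihedral
argument in `G/R` gives a proper, hence solvable, subgroup containing `X` and meeting two Sylow
subgroups; but such a subgroup normalizes `S`.
-/

set_option autoImplicit false

open scoped Pointwise

namespace CfsgLib.OddCons.CyclicIntersections

universe u

variable {G : Type u} [Group G]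

/-- Any two Sylow 2-subgroups meet in a cyclic group. -/
def CycInt (G : Type u) [Group G] : Prop :=
  ∀ S T : Sylow 2 G, S ≠ T → IsCyclic ((S : Subgroup G) ⊓ (T : Subgroup G) : Subgroup G)

/-- The commutator, written out. -/
def cc (a b : G) : G := a * b * a⁻¹ * b⁻¹

theorem cc_eq_one_iff (a b : G) : cc a b = 1 ↔ a * b = b * a := by
  rw [cc, mul_inv_eq_one, mul_inv_eq_iff_eq_mul]

theorem isCyclic_of_le {H K : Subgroup G} (hK : IsCyclic K) (h : H ≤ K) : IsCyclic H :=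
  isCyclic_of_injective (Subgroup.inclusion h) (Subgroup.inclusion_injective h)

/-- A cyclic group has at most one involution. -/
theorem eq_of_involutions [Finite G] {D : Subgroup G} (hD : IsCyclic D) {a b : G} (ha : a ∈ D)
    (hb : b ∈ D) (ha2 : a * a = 1) (hb2 : b * b = 1) (ha1 : a ≠ 1) (hb1 : b ≠ 1) : a = b := by
  classical
  haveI := hD
  haveI : Fintype D := Fintype.ofFinite _
  by_contra hne
  have h := IsCyclic.card_pow_eq_one_le (α := D) (n := 2) two_pos
  have hsub : ({1, ⟨a, ha⟩, ⟨b, hb⟩} : Finset D) ⊆ Finset.univ.filter fun x : D => x ^ 2 = 1 := by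
    intro x hx
    simp only [Finset.mem_insert, Finset.mem_singleton] at hx
    rcases hx with rfl | rfl | rfl <;> simp [pow_two, Subtype.ext_iff, ha2, hb2]
  have hcard : ({1, ⟨a, ha⟩, ⟨b, hb⟩} : Finset D).card = 3 := by
    rw [Finset.card_eq_three]
    exact ⟨1, ⟨a, ha⟩, ⟨b, hb⟩, fun e => ha1 (congrArg Subtype.val e).symm,
      fun e => hb1 (congrArg Subtype.val e).symm, fun e => hne (congrArg Subtype.val e), rfl⟩
  have := (hcard ▸ Finset.card_le_card hsub).trans h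
  omega

/-- An element of odd order normalizing a cyclic 2-group centralizes it. -/
theorem odd_centralizes [Finite G] {D : Subgroup G} (hD : IsCyclic D) (hD2 : IsPGroup 2 D) {g : G}
    (hg : g ∈ Subgroup.normalizer (D : Set G)) (hodd : (orderOf g).Coprime 2) {d : G} (hd : d ∈ D) :
    g * d = d * g := by
  haveI : Fact (Nat.Prime 2) := ⟨Nat.prime_two⟩
  haveI := hD
  set φ := Subgroup.normalizerMonoidHom D
  obtain ⟨k, hk⟩ := IsPGroup.iff_card.1 hD2
  have hcard : Nat.card (MulAut D) ∣ 2 ^ k := by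
    rw [IsCyclic.card_mulAut, hk]
    rcases k with _ | k
    · simp
    · rw [Nat.totient_prime_pow_succ Nat.prime_two]; simp [pow_succ]
  have h1 : orderOf (φ ⟨g, hg⟩) = 1 := by
    refine Nat.eq_one_of_dvd_coprimes (Nat.Coprime.pow_right k hodd) ?_
      ((orderOf_dvd_natCard _).trans hcard)
    have := orderOf_map_dvd φ (⟨g, hg⟩ : Subgroup.normalizer (D : Set G))
    rwa [Subgroup.orderOf_mk] at this
  rw [orderOf_eq_one_iff] at h1
  have h2 : g * d * g⁻¹ = d := congrArg (fun (e : MulAut D) => ((e ⟨d, hd⟩ : D) : G)) h1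
  exact mul_inv_eq_iff_eq_mul.1 h2

theorem CycInt.subgroup [Finite G] (hC : CycInt G) (H : Subgroup G) : CycInt H := by
  haveI : Fact (Nat.Prime 2) := ⟨Nat.prime_two⟩
  intro S T hST
  obtain ⟨S', hS'⟩ := (S.2.map H.subtype).exists_le_sylow
  obtain ⟨T', hT'⟩ := (T.2.map H.subtype).exists_le_sylow
  have hne : S' ≠ T' := by
    intro e
    apply hST
    have hp : IsPGroup 2 ((S' : Subgroup G).subgroupOf H) :=
      S'.2.comap_of_injective _ H.subtype_injective
    have h1 := S.is_maximal' hp fun x hx => hS' ⟨x, hx, rfl⟩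
    have h2 := T.is_maximal' hp fun x hx => (e ▸ hT') ⟨x, hx, rfl⟩
    exact Sylow.ext (h1.symm.trans h2)
  haveI := isCyclic_of_le (hC S' T' hne) (H := ((S : Subgroup H) ⊓ (T : Subgroup H)).map H.subtype)
    (by rintro _ ⟨x, hx, rfl⟩; exact ⟨hS' ⟨x, hx.1, rfl⟩, hT' ⟨x, hx.2, rfl⟩⟩)
  exact isCyclic_of_surjective
    (((S : Subgroup H) ⊓ (T : Subgroup H)).equivMapOfInjective H.subtype H.subtype_injective).symm
    (MulEquiv.surjective _)

theorem CycInt.quotient [Finite G] (hC : CycInt G) (N : Subgroup G) [N.Normal] :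
    CycInt (G ⧸ N) := by
  haveI : Fact (Nat.Prime 2) := ⟨Nat.prime_two⟩
  set π := QuotientGroup.mk' N with hπdef
  have hπ : Function.Surjective π := QuotientGroup.mk'_surjective N
  intro S' T' hne
  obtain ⟨S, rfl⟩ := Sylow.mapSurjective_surjective hπ 2 S'
  obtain ⟨T, rfl⟩ := Sylow.mapSurjective_surjective hπ 2 T'
  set D := ((S.mapSurjective hπ : Subgroup (G ⧸ N)) ⊓ (T.mapSurjective hπ : Subgroup (G ⧸ N)))
    with hDdef
  set H := D.comap π with hHdef
  let Q : Sylow 2 H := default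
  have hQle : ∀ W : Sylow 2 G, D ≤ (W.mapSurjective hπ : Subgroup (G ⧸ N)) →
      ∃ V : Sylow 2 G, (V.mapSurjective hπ : Subgroup (G ⧸ N)) = W.mapSurjective hπ ∧
        (Q : Subgroup H).map H.subtype ≤ (V : Subgroup G) := by
    intro W hW
    have hHW : H ≤ N ⊔ (W : Subgroup G) := fun x hx => by
      have h1 := hW hx
      have h2 : x ∈ ((W : Subgroup G).map π).comap π := h1
      rwa [Subgroup.comap_map_eq, QuotientGroup.ker_mk', sup_comm] at h2
    set K := N ⊔ (W : Subgroup G)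
    obtain ⟨U, hU⟩ := ((Q.2.map H.subtype).comap_of_injective K.subtype
      K.subtype_injective).exists_le_sylow
    set W' : Sylow 2 K := W.subtype (le_sup_right : (W : Subgroup G) ≤ K)
    obtain ⟨k, hk⟩ := MulAction.exists_smul_eq K W' U
    obtain ⟨n, hn, w, hw, hkw⟩ := Subgroup.mem_sup_of_normal_left.1 k.2
    refine ⟨(k : G) • W, ?_, ?_⟩
    · refine le_antisymm ?_ ?_ <;> rintro _ ⟨x, hx, rfl⟩
      · obtain ⟨y, hy, rfl⟩ := hx
        refine ⟨w * y * w⁻¹, mul_mem (mul_mem hw hy) (inv_mem hw), ?_⟩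
        show π (w * y * w⁻¹) = π ((k : G) * y * (k : G)⁻¹)
        rw [← hkw]
        simp [hπdef, (QuotientGroup.eq_one_iff n).2 hn]
      · refine ⟨(k : G) * (w⁻¹ * x * w) * (k : G)⁻¹,
          ⟨_, mul_mem (mul_mem (inv_mem hw) hx) hw, rfl⟩, ?_⟩
        rw [← hkw]
        simp [hπdef, (QuotientGroup.eq_one_iff n).2 hn, mul_assoc]
    · rintro _ ⟨q, hq, rfl⟩
      have h1 : (⟨(q : G), hHW q.2⟩ : K) ∈ (U : Subgroup K) := hU ⟨q, hq, rfl⟩
      rw [← hk] at h1
      obtain ⟨y, hy, hyq⟩ := h1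
      exact ⟨(y : G), hy, congrArg Subtype.val hyq⟩
  obtain ⟨V₁, hV₁, hQ₁⟩ := hQle S inf_le_left
  obtain ⟨V₂, hV₂, hQ₂⟩ := hQle T inf_le_right
  have hne' : V₁ ≠ V₂ := fun e => hne (Sylow.ext (hV₁.symm.trans (e ▸ hV₂)))
  haveI := isCyclic_of_le (hC V₁ V₂ hne') (le_inf hQ₁ hQ₂)
  -- the Sylow subgroup of the preimage maps onto `D`
  let f : H →* D := π.subgroupComap D
  have hf : Function.Surjective f := fun d => by
    obtain ⟨x, hx⟩ := hπ (d : G ⧸ N)
    exact ⟨⟨x, show π x ∈ D by rw [hx]; exact d.2⟩, Subtype.ext hx⟩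
  have hD2 : IsPGroup 2 D := (S.mapSurjective hπ).2.to_le inf_le_left
  have htop : (Q : Subgroup H).map f = ⊤ := by
    obtain ⟨j, hj⟩ := IsPGroup.iff_card.1 hD2
    rw [← Subgroup.index_eq_one]
    refine Nat.eq_one_of_dvd_coprimes (Nat.Coprime.pow_left j
      ((Nat.Prime.coprime_iff_not_dvd Nat.prime_two).2 Q.not_dvd_index)) ?_
      (Subgroup.index_map_dvd _ hf)
    exact hj ▸ Subgroup.index_dvd_card _
  refine isCyclic_of_surjective
    (f.comp ((Q : Subgroup H).subtype.comp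
      ((Q : Subgroup H).equivMapOfInjective H.subtype H.subtype_injective).symm.toMonoidHom))
    fun d => ?_
  obtain ⟨q, hq, hqd⟩ := (htop.symm ▸ Subgroup.mem_top d : d ∈ (Q : Subgroup H).map f)
  refine ⟨(Q : Subgroup H).equivMapOfInjective H.subtype H.subtype_injective ⟨q, hq⟩, ?_⟩
  simp [hqd]

/-- A non-solvable group has two Sylow 2-subgroups. -/
theorem exists_ne_sylow (hFT : CfsgLib.OddStep.P0205.{u}) [Finite G] (hns : ¬ Group.IsSolvable G)
    (S : Sylow 2 G) : ∃ g : G, g ∉ Subgroup.normalizer ((S : Subgroup G) : Set G) := by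
  haveI : Fact (Nat.Prime 2) := ⟨Nat.prime_two⟩
  by_contra! h
  apply hns
  haveI : (S : Subgroup G).Normal := Subgroup.normalizer_eq_top_iff.1 (eq_top_iff.2 fun g _ => h g)
  haveI : Group.IsSolvable (S : Subgroup G) := by
    haveI := S.2.isNilpotent
    infer_instance
  haveI : Group.IsSolvable (G ⧸ (S : Subgroup G)) := hFT ((Nat.even_or_odd _).resolve_left fun he =>
    S.not_dvd_index (by rw [Subgroup.index]; exact he.two_dvd))
  exact (Group.isSolvable_iff_subgroup_quotient (S : Subgroup G)).mpr ⟨‹_›, ‹_›⟩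

/-- The two-elements normalizing a Sylow subgroup lie in it. -/
theorem mem_of_mem_normalizer [Finite G] (S : Sylow 2 G) {x : G}
    (hx : x ∈ Subgroup.normalizer ((S : Subgroup G) : Set G)) (h2 : ∃ k : ℕ, x ^ 2 ^ k = 1) :
    x ∈ (S : Subgroup G) := by
  haveI : Fact (Nat.Prime 2) := ⟨Nat.prime_two⟩
  obtain ⟨k, hk⟩ := h2
  have hz : IsPGroup 2 (Subgroup.zpowers x) := IsPGroup.of_card_dvd_pow (n := k)
    (by rw [Nat.card_zpowers]; exact orderOf_dvd_of_pow_eq_one hk)
  have hsup : IsPGroup 2 ((S : Subgroup G) ⊔ Subgroup.zpowers x : Subgroup G) :=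
    IsPGroup.to_sup_of_normal_left' S.2 hz (Subgroup.zpowers_le.2 hx)
  exact (S.is_maximal' hsup le_sup_left).le (Subgroup.mem_sup_right (Subgroup.mem_zpowers x))

/-- The dihedral dichotomy in a quotient. -/
theorem dihedral [Finite G] {R : Subgroup G} [R.Normal] {a b : G} (ha : a * a ∈ R) (hb : b * b ∈ R)
    {C : Subgroup G} (hC : a * b ∈ C) :
    (∃ v ∈ C, (v * a * v⁻¹)⁻¹ * b ∈ R) ∨
      ∃ x : G, x ∉ R ∧ x * x ∈ R ∧ cc x a ∈ R ∧ cc x b ∈ R := by
  set π := QuotientGroup.mk' R with hπdef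
  have hR : ∀ g : G, g ∈ R ↔ π g = 1 := fun g => ((QuotientGroup.eq_one_iff g).symm)
  set α := π a with hαdef
  set β := π b with hβdef
  have hα : α * α = 1 := by rw [hαdef, ← map_mul]; exact (hR _).1 ha
  have hβ : β * β = 1 := by rw [hβdef, ← map_mul]; exact (hR _).1 hb
  have hαi : α⁻¹ = α := inv_eq_of_mul_eq_one_right hα
  have hβi : β⁻¹ = β := inv_eq_of_mul_eq_one_right hβ
  set d := α * β with hddef
  have hinv : ∀ n : ℕ, α * d ^ n = (d ^ n)⁻¹ * α := by
    intro n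
    induction n with
    | zero => simp
    | succ n ih =>
      rw [pow_succ, ← mul_assoc, ih, mul_assoc]
      rw [show α * d = d⁻¹ * α by
        rw [hddef, mul_inv_rev, hαi, hβi, mul_assoc, hα, mul_one, ← mul_assoc, hα, one_mul]]
      rw [← mul_assoc, ← mul_inv_rev, ← pow_succ']
      rw [pow_succ]
  rcases Nat.even_or_odd (orderOf d) with ⟨m, hm⟩ | ⟨n, hn⟩
  · have h2 : d ^ m * d ^ m = 1 := by rw [← pow_add, ← hm]; exact pow_orderOf_eq_one d
    have hi : (d ^ m)⁻¹ = d ^ m := inv_eq_of_mul_eq_one_right h2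
    have hc : α * d ^ m = d ^ m * α := by rw [hinv m, hi]
    have hd' : d * d ^ m = d ^ m * d := (pow_mul_comm' d m).symm
    have hxa : d ^ m * α * (d ^ m)⁻¹ * α⁻¹ = 1 := by
      rw [hi, mul_assoc (d ^ m) α, hc, ← mul_assoc, h2, one_mul, mul_inv_cancel]
    have hxb : d ^ m * β * (d ^ m)⁻¹ * β⁻¹ = 1 := by
      have hb' : β = α * d := by rw [hddef, ← mul_assoc, hα, one_mul]
      have : d ^ m * (α * d) * d ^ m = α * d := by
        calc d ^ m * (α * d) * d ^ m = d ^ m * α * (d * d ^ m) := by simp only [mul_assoc]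
          _ = d ^ m * (α * d ^ m) * d := by rw [hd']; simp only [mul_assoc]
          _ = (d ^ m * d ^ m) * (α * d) := by rw [hc]; simp only [mul_assoc]
          _ = α * d := by rw [h2, one_mul]
      rw [hi, hb', this, mul_inv_cancel]
    refine Or.inr ⟨(a * b) ^ m, ?_, ?_, ?_, ?_⟩
    · rw [hR, map_pow, map_mul]
      intro h
      have hpos : 0 < orderOf d := orderOf_pos d
      have : orderOf d ≤ m := Nat.le_of_dvd (by omega) (orderOf_dvd_of_pow_eq_one h)
      omega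
    all_goals rw [hR]
    all_goals simp only [cc, map_mul, map_pow, map_inv]
    · exact h2
    · exact hxa
    · exact hxb
  · refine Or.inl ⟨(a * b) ^ n, pow_mem hC n, ?_⟩
    rw [hR]
    simp only [map_mul, map_inv, map_pow]
    show (d ^ n * α * (d ^ n)⁻¹)⁻¹ * β = 1
    rw [inv_mul_eq_one]
    calc d ^ n * α * (d ^ n)⁻¹ = d ^ n * (d ^ n * α) := by
          rw [mul_assoc]; congr 1
          have := hinv n
          rw [eq_inv_mul_iff_mul_eq, ← mul_assoc] at this
          rw [mul_inv_eq_iff_eq_mul]; exact this.symm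
      _ = d ^ (2 * n + 1) * (d⁻¹ * α) := by group
      _ = β := by
          rw [← hn, pow_orderOf_eq_one, one_mul, hddef, mul_inv_rev, hαi, hβi, mul_assoc, hα, mul_one]

/-- A non-trivial normal subgroup of a 2-group meets the centre. -/
theorem normal_inf_center_ne_bot {P : Type u} [Group P] [Finite P] {H : Subgroup P}
    (hP : IsPGroup 2 H) {V : Subgroup H} [V.Normal] (hV : V ≠ ⊥) :
    V ⊓ Subgroup.center H ≠ ⊥ := by
  haveI : Fact (Nat.Prime 2) := ⟨Nat.prime_two⟩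
  exact CfsgLib.PGroup.inf_center_ne_bot hP V hV

/-- The situation of the main argument. -/
structure Ctx [Finite G] (R : Subgroup G) : Prop where
  cyc : CycInt G
  ns : ¬ Group.IsSolvable G
  core : ∀ N : Subgroup G, N.Normal → Odd (Nat.card N) → N = ⊥
  norm : R.Normal
  two : IsPGroup 2 R
  max : ∀ N : Subgroup G, N.Normal → IsPGroup 2 N → N ≤ R
  noncentral : ¬ R ≤ Subgroup.center G
  ih : ∀ H : Subgroup G, H ≠ ⊤ → ¬ Group.IsSolvable H → ∀ W ≤ H, IsPGroup 2 W →
    H ≤ Subgroup.normalizer (W : Set G) → ∀ h ∈ H, ∀ w ∈ W, h * w = w * h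

/-- A square in `R`. -/
def IsSq (R : Subgroup G) (x : G) : Prop := ∃ a ∈ R, a * a = x

section Main

variable [Finite G] {R : Subgroup G}

theorem Ctx.le_sylow (h : Ctx R) (S : Sylow 2 G) : R ≤ (S : Subgroup G) := by
  haveI := h.norm
  exact (S.is_maximal' (IsPGroup.to_sup_of_normal_right S.2 h.two) le_sup_left).le.trans' le_sup_right

theorem Ctx.isCyclic (hFT : CfsgLib.OddStep.P0205.{u}) (h : Ctx R) : IsCyclic R := by
  haveI : Fact (Nat.Prime 2) := ⟨Nat.prime_two⟩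
  let S : Sylow 2 G := default
  obtain ⟨g, hg⟩ := exists_ne_sylow hFT h.ns S
  have hne : S ≠ g • S := fun e => hg (Sylow.smul_eq_iff_mem_normalizer.1 e.symm)
  exact isCyclic_of_le (h.cyc S (g • S) hne) (le_inf (h.le_sylow S) (h.le_sylow _))

/-- The involution `z` and an element `r` with `r * r = z`. -/
theorem Ctx.exists_r (hFT : CfsgLib.OddStep.P0205.{u}) (h : Ctx R) :
    ∃ r ∈ R, r * r ≠ 1 ∧ (r * r) * (r * r) = 1 := by
  haveI : Fact (Nat.Prime 2) := ⟨Nat.prime_two⟩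
  haveI := h.isCyclic hFT
  obtain ⟨γ, hγ⟩ := IsCyclic.exists_generator (α := R)
  obtain ⟨k, hk⟩ := h.two γ
  have hord : orderOf γ = Nat.card R := orderOf_eq_card_of_forall_mem_zpowers hγ
  obtain ⟨j, hj⟩ := IsPGroup.iff_card.1 h.two
  rcases lt_or_ge j 2 with hj2 | hj2
  · -- order at most two: central
    refine absurd (fun x hx => Subgroup.mem_center_iff.2 fun g => ?_) h.noncentral
    have hx2 : g * x * g⁻¹ ∈ R := h.norm.conj_mem x hx g
    have hle : Nat.card R ≤ 2 := by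
      rw [hj]; exact le_trans (Nat.pow_le_pow_right two_pos (Nat.lt_succ_iff.1 hj2)) le_rfl
    by_cases hx1 : x = 1
    · rw [hx1, mul_one, one_mul]
    have : g * x * g⁻¹ = x := by
      by_contra hne
      haveI : Fintype R := Fintype.ofFinite _
      have h3 : 2 < Fintype.card R := Fintype.two_lt_card_iff.2
        ⟨1, ⟨x, hx⟩, ⟨_, hx2⟩, fun e => hx1 (congrArg Subtype.val e).symm,
          fun e => hx1 (conj_eq_one_iff.1 (congrArg Subtype.val e).symm),
          fun e => hne (congrArg Subtype.val e).symm⟩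
      rw [Nat.card_eq_fintype_card] at hle
      omega
    exact mul_inv_eq_iff_eq_mul.1 this
  · obtain ⟨i, rfl⟩ := Nat.exists_eq_add_of_le hj2
    refine ⟨((γ ^ (2 ^ i) : R) : G), (γ ^ (2 ^ i)).2, ?_, ?_⟩
    · intro e
      have e' : γ ^ (2 ^ i + 2 ^ i) = 1 := Subtype.ext (by rw [pow_add]; exact e)
      have := Nat.le_of_dvd (by positivity) (orderOf_dvd_of_pow_eq_one e')
      rw [hord, hj, pow_add] at this
      have := Nat.two_pow_pos i
      omega
    · have e' : (γ ^ (2 ^ i) * γ ^ (2 ^ i)) * (γ ^ (2 ^ i) * γ ^ (2 ^ i)) = 1 := by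
        rw [← pow_add, ← pow_add]
        exact orderOf_dvd_iff_pow_eq_one.1 (by rw [hord, hj, pow_add]; exact ⟨1, by ring⟩)
      exact congrArg Subtype.val e'

theorem Ctx.comm_centralizer {x : G} (hx : x ∈ Subgroup.centralizer (R : Set G)) {a : G}
    (ha : a ∈ R) : x * a = a * x :=
  (Subgroup.mem_centralizer_iff.1 hx a ha).symm

/-- `R` is abelian. -/
theorem Ctx.le_centralizer (hFT : CfsgLib.OddStep.P0205.{u}) (h : Ctx R) :
    R ≤ Subgroup.centralizer (R : Set G) := fun a ha => Subgroup.mem_centralizer_iff.2 fun b hb => by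
  haveI := h.isCyclic hFT
  letI : CommGroup R := IsCyclic.commGroup
  exact congrArg Subtype.val (mul_comm (⟨b, hb⟩ : R) ⟨a, ha⟩)

/-- An element outside `R` whose square lies in `R` gives, with `R`, a non-trivial section. -/
theorem sup_zpowers_two {x : G} (hR : IsPGroup 2 R) [R.Normal] (hx : x * x ∈ R) :
    IsPGroup 2 (R ⊔ Subgroup.zpowers x : Subgroup G) := by
  haveI : Fact (Nat.Prime 2) := ⟨Nat.prime_two⟩
  refine IsPGroup.to_sup_of_normal_left hR (fun y => ?_)
  obtain ⟨k, hk⟩ := hR ⟨x * x, hx⟩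
  have hk' : (x * x) ^ 2 ^ k = 1 := congrArg Subtype.val hk
  obtain ⟨_, i, rfl⟩ := y
  refine ⟨k + 1, Subtype.ext ?_⟩
  show (x ^ i) ^ 2 ^ (k + 1) = 1
  rw [← zpow_natCast, ← zpow_mul, mul_comm, zpow_mul, zpow_natCast, pow_succ', pow_mul, pow_two, hk',
    one_zpow]

/-- A commutator in `R` gives a normalizing element. -/
theorem mem_normalizer_sup [R.Normal] {g y : G} (hgy : cc g y ∈ R) :
    g ∈ Subgroup.normalizer ((R ⊔ Subgroup.zpowers y : Subgroup G) : Set G) := by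
  rw [Subgroup.mem_normalizer_iff_map_conj_eq]
  refine Subgroup.eq_of_le_of_card_ge ?_
    (by rw [Subgroup.card_map_of_injective (MulAut.conj g).injective])
  rw [Subgroup.map_sup, MonoidHom.map_zpowers]
  refine sup_le ?_ (Subgroup.zpowers_le.2 ?_)
  · rintro _ ⟨a, ha, rfl⟩
    exact Subgroup.mem_sup_left (‹R.Normal›.conj_mem a ha g)
  · show g * y * g⁻¹ ∈ _
    rw [show g * y * g⁻¹ = cc g y * y by simp [cc]]
    exact Subgroup.mul_mem_sup hgy (Subgroup.mem_zpowers y)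

/-- Every element is a product of one in `C(R)` and one in `S`. -/
theorem Ctx.exists_mul (hFT : CfsgLib.OddStep.P0205.{u}) (h : Ctx R) (S : Sylow 2 G) (g : G) :
    ∃ c ∈ Subgroup.centralizer (R : Set G), ∃ s ∈ (S : Subgroup G), g = c * s := by
  haveI : Fact (Nat.Prime 2) := ⟨Nat.prime_two⟩
  haveI := h.norm
  set C := Subgroup.centralizer (R : Set G)
  have htop : C ⊔ (S : Subgroup G) = ⊤ := by
    rw [← Subgroup.index_eq_one]
    by_contra hne
    obtain ⟨q, hq, hqd⟩ := Nat.exists_prime_and_dvd hne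
    have hq2 : q ≠ 2 := fun e => S.not_dvd_index
      (((dvd_of_eq e.symm).trans hqd).trans (Subgroup.index_dvd_of_le le_sup_right))
    haveI := Fact.mk hq
    have hd : q ∣ Nat.card (G ⧸ C) := hqd.trans (Subgroup.index_dvd_of_le le_sup_left)
    obtain ⟨x', hx'⟩ := exists_prime_orderOf_dvd_card' q hd
    obtain ⟨x, rfl⟩ := QuotientGroup.mk_surjective x'
    obtain ⟨a, b, ha, hb, hab, ⟨j, hj⟩, hbc⟩ :=
      CfsgLib.Transfer.exists_pPart_decomposition (p := 2) x
    have hbC : b ∈ C := Subgroup.mem_centralizer_iff.2 fun d hd =>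
      (odd_centralizes (h.isCyclic hFT) h.two
        (by rw [Subgroup.normalizer_eq_top_iff.2 h.norm]; trivial) hbc hd).symm
    have hxa : (x : G ⧸ C) = (a : G ⧸ C) := by
      rw [hab, QuotientGroup.mk_mul, (QuotientGroup.eq_one_iff b).2 hbC, mul_one]
    rw [hxa] at hx'
    have h1 : q ∣ 2 ^ j := hx' ▸ (orderOf_map_dvd (QuotientGroup.mk' C) a).trans hj
    exact hq2 ((Nat.prime_dvd_prime_iff_eq hq Nat.prime_two).1 (hq.dvd_of_dvd_pow h1))
  obtain ⟨c, hc, s, hs, e⟩ := Subgroup.mem_sup_of_normal_left.1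
    (htop ▸ Subgroup.mem_top g : g ∈ C ⊔ (S : Subgroup G))
  exact ⟨c, hc, s, hs, e.symm⟩

/-- An element of `S` outside `C(R)` lies in no other Sylow subgroup: the normalizer of
`R ⊔ ⟨x⟩` normalizes `S`. -/
theorem Ctx.normalizer_outside (h : Ctx R) (S : Sylow 2 G) {x : G} (hx : x ∈ (S : Subgroup G))
    (hxC : x ∉ Subgroup.centralizer (R : Set G)) :
    Subgroup.normalizer ((R ⊔ Subgroup.zpowers x : Subgroup G) : Set G) ≤
      Subgroup.normalizer ((S : Subgroup G) : Set G) := by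
  intro g hg
  by_contra hgS
  have hne : S ≠ g • S := fun e => hgS (Sylow.smul_eq_iff_mem_normalizer.1 e.symm)
  have hW : R ⊔ Subgroup.zpowers x ≤ (S : Subgroup G) := sup_le (h.le_sylow S) (Subgroup.zpowers_le.2 hx)
  haveI := isCyclic_of_le (h.cyc S (g • S) hne) (H := R ⊔ Subgroup.zpowers x) (le_inf hW fun w hw => by
    have h1 := (Subgroup.mem_normalizer_iff''.1 hg w).1 hw
    exact ⟨g⁻¹ * w * g, hW h1, by show g * (g⁻¹ * w * g) * g⁻¹ = w; group⟩)
  letI : CommGroup (R ⊔ Subgroup.zpowers x : Subgroup G) := IsCyclic.commGroup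
  refine hxC (Subgroup.mem_centralizer_iff.2 fun a ha => ?_)
  exact congrArg Subtype.val (mul_comm
    (⟨a, Subgroup.mem_sup_left ha⟩ : (R ⊔ Subgroup.zpowers x : Subgroup G))
    ⟨x, Subgroup.mem_sup_right (Subgroup.mem_zpowers x)⟩)

/-- The preimage of the involutions of the centre of `(S ∩ C) / R`. -/
def Ctx.X (hFT : CfsgLib.OddStep.P0205.{u}) (h : Ctx R) (S : Sylow 2 G) : Subgroup G where
  carrier := {x | x ∈ (S : Subgroup G) ∧ x ∈ Subgroup.centralizer (R : Set G) ∧ x * x ∈ R ∧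
    ∀ p ∈ (S : Subgroup G), p ∈ Subgroup.centralizer (R : Set G) → cc x p ∈ R}
  one_mem' := ⟨one_mem _, one_mem _, by simp, fun p _ _ => by simp [cc]⟩
  mul_mem' := fun {x y} hx hy => by
    refine ⟨mul_mem hx.1 hy.1, mul_mem hx.2.1 hy.2.1, ?_, fun p hp hpC => ?_⟩
    · have hc := hy.2.2.2 x hx.1 hx.2.1
      rw [show x * y * (x * y) = x * cc y x * x * (y * y) by simp only [cc]; group,
        Ctx.comm_centralizer hx.2.1 hc, mul_assoc (cc y x) x x]
      exact mul_mem (mul_mem hc hx.2.2.1) hy.2.2.1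
    · have hc := hy.2.2.2 p hp hpC
      rw [show cc (x * y) p = x * cc y p * x⁻¹ * cc x p by simp only [cc]; group,
        Ctx.comm_centralizer hx.2.1 hc, mul_inv_cancel_right]
      exact mul_mem hc (hx.2.2.2 p hp hpC)
  inv_mem' := fun {x} hx => by
    refine ⟨inv_mem hx.1, inv_mem hx.2.1, ?_, fun p hp hpC => ?_⟩
    · rw [← mul_inv_rev]; exact inv_mem hx.2.2.1
    · have hc := hx.2.2.2 p hp hpC
      rw [show cc x⁻¹ p = x⁻¹ * (cc x p)⁻¹ * x by simp only [cc]; group,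
        Ctx.comm_centralizer (inv_mem hx.2.1) (inv_mem hc), mul_assoc, inv_mul_cancel, mul_one]
      exact inv_mem hc

theorem Ctx.R_le_X (hFT : CfsgLib.OddStep.P0205.{u}) (h : Ctx R) (S : Sylow 2 G) :
    R ≤ h.X hFT S := fun a ha => ⟨h.le_sylow S ha, h.le_centralizer hFT ha, mul_mem ha ha,
  fun p _ hpC => by rw [(cc_eq_one_iff _ _).2 (Subgroup.mem_centralizer_iff.1 hpC a ha)]; exact one_mem _⟩

theorem Ctx.conj_mem_X (hFT : CfsgLib.OddStep.P0205.{u}) (h : Ctx R) (S : Sylow 2 G) {n x : G}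
    (hn : n ∈ Subgroup.normalizer ((S : Subgroup G) : Set G)) (hx : x ∈ h.X hFT S) :
    n * x * n⁻¹ ∈ h.X hFT S := by
  haveI := h.norm
  refine ⟨(Subgroup.mem_normalizer_iff.1 hn x).1 hx.1,
    (inferInstance : (Subgroup.centralizer (R : Set G)).Normal).conj_mem x hx.2.1 n, ?_,
    fun p hp hpC => ?_⟩
  · rw [show n * x * n⁻¹ * (n * x * n⁻¹) = n * (x * x) * n⁻¹ by group]
    exact h.norm.conj_mem _ hx.2.2.1 n
  · have h1 := hx.2.2.2 (n⁻¹ * p * n) ((Subgroup.mem_normalizer_iff''.1 hn p).1 hp) (by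
      simpa using (inferInstance : (Subgroup.centralizer (R : Set G)).Normal).conj_mem p hpC n⁻¹)
    rw [show cc (n * x * n⁻¹) p = n * cc x (n⁻¹ * p * n) * n⁻¹ by simp only [cc]; group]
    exact h.norm.conj_mem _ h1 n

theorem Ctx.not_cyclic_P (hFT : CfsgLib.OddStep.P0205.{u}) (h : Ctx R) (S : Sylow 2 G) :
    ¬ IsCyclic ((S : Subgroup G) ⊓ Subgroup.centralizer (R : Set G) : Subgroup G) := by
  haveI : Fact (Nat.Prime 2) := ⟨Nat.prime_two⟩
  haveI := h.norm
  set C := Subgroup.centralizer (R : Set G)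
  intro hcyc
  obtain ⟨P, hP⟩ := CfsgLib.LocalCharP.exists_sylow_inf S (N := C) inferInstance
  haveI : IsCyclic (P : Subgroup C) := by
    haveI : IsCyclic ((P : Subgroup C).map C.subtype) := by rw [hP]; exact hcyc
    exact isCyclic_of_surjective
      ((P : Subgroup C).equivMapOfInjective C.subtype C.subtype_injective).symm
      (MulEquiv.surjective _)
  haveI : Group.IsSolvable C := by
    rcases Nat.even_or_odd (Nat.card C) with he | ho
    · obtain ⟨N, hN, hNc, k, hk⟩ := CfsgLib.Transfer.hasNormalPComplement_iff_exists.1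
        (CfsgLib.Transfer.hasNormalPComplement_of_isCyclic_minFac
          ((Nat.minFac_eq_two_iff _).2 he.two_dvd) P ‹_›)
      haveI := hN
      haveI : Group.IsSolvable N := hFT (Nat.coprime_two_right.1 hNc)
      haveI : Group.IsSolvable (C ⧸ N) := by
        haveI := (IsPGroup.of_card (n := k) hk : IsPGroup 2 (C ⧸ N)).isNilpotent
        infer_instance
      exact (Group.isSolvable_iff_subgroup_quotient N).mpr ⟨‹_›, ‹_›⟩
    · exact hFT ho
  apply h.ns
  haveI : Group.IsSolvable (G ⧸ C) := by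
    haveI : Group.IsSolvable (S : Subgroup G) := by
      haveI := S.2.isNilpotent
      infer_instance
    refine Group.isSolvable_of_surjective (f := (QuotientGroup.mk' C).comp (S : Subgroup G).subtype)
      fun x => ?_
    obtain ⟨g, rfl⟩ := QuotientGroup.mk'_surjective C x
    obtain ⟨c, hc, s, hs, rfl⟩ := h.exists_mul hFT S g
    refine ⟨⟨s, hs⟩, ?_⟩
    show QuotientGroup.mk' C s = QuotientGroup.mk' C (c * s)
    rw [map_mul, show QuotientGroup.mk' C c = 1 from (QuotientGroup.eq_one_iff c).2 hc, one_mul]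
  exact (Group.isSolvable_iff_subgroup_quotient C).mpr ⟨‹_›, ‹_›⟩

/-- An element of `C` normalizing `S ∩ C` normalizes `S`. -/
theorem Ctx.mem_normalizer_of_P (hFT : CfsgLib.OddStep.P0205.{u}) (h : Ctx R) (S : Sylow 2 G) {g : G}
    (hg : g ∈ Subgroup.normalizer
      (((S : Subgroup G) ⊓ Subgroup.centralizer (R : Set G) : Subgroup G) : Set G)) :
    g ∈ Subgroup.normalizer ((S : Subgroup G) : Set G) := by
  by_contra hgS
  have hne : S ≠ g • S := fun e => hgS (Sylow.smul_eq_iff_mem_normalizer.1 e.symm)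
  refine h.not_cyclic_P hFT S (isCyclic_of_le (h.cyc S (g • S) hne) (le_inf inf_le_left fun p hp => ?_))
  have h1 := (Subgroup.mem_normalizer_iff''.1 hg p).1 hp
  exact ⟨g⁻¹ * p * g, h1.1, by show g * (g⁻¹ * p * g) * g⁻¹ = p; group⟩

theorem Ctx.exists_mem_X (hFT : CfsgLib.OddStep.P0205.{u}) (h : Ctx R) (S : Sylow 2 G) :
    ∃ x ∈ h.X hFT S, x ∉ R := by
  haveI : Fact (Nat.Prime 2) := ⟨Nat.prime_two⟩
  haveI := h.norm
  set P := (S : Subgroup G) ⊓ Subgroup.centralizer (R : Set G) with hPdef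
  set π := QuotientGroup.mk' R
  have hP2 : IsPGroup 2 P := S.2.to_le inf_le_left
  have hmap : IsPGroup 2 (P.map π) := hP2.map π
  haveI : Nontrivial (P.map π) := by
    rw [Subgroup.nontrivial_iff_ne_bot]
    intro e
    rw [Subgroup.map_eq_bot_iff, QuotientGroup.ker_mk'] at e
    exact h.not_cyclic_P hFT S (isCyclic_of_le (h.isCyclic hFT) e)
  haveI := hmap.center_nontrivial
  obtain ⟨w, hw⟩ := exists_prime_orderOf_dvd_card' (G := Subgroup.center (P.map π)) 2
    (((hmap.to_subgroup (Subgroup.center (P.map π))).card_eq_or_dvd).resolve_left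
      (Finite.one_lt_card).ne')
  obtain ⟨x, hx, hxw⟩ := w.1.2
  have hmem : ∀ g : G, g ∈ R ↔ π g = 1 := fun g => (QuotientGroup.eq_one_iff g).symm
  refine ⟨x, ⟨hx.1, hx.2, ?_, fun p hp hpC => ?_⟩, ?_⟩
  · rw [hmem, map_mul, hxw]
    have : w * w = 1 := by rw [← pow_two, ← hw, pow_orderOf_eq_one]
    exact congrArg (fun z : Subgroup.center (P.map π) => ((z : P.map π) : G ⧸ R)) this
  · rw [hmem]
    simp only [cc, map_mul, map_inv, hxw]
    have h1 := congrArg Subtype.val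
      (Subgroup.mem_center_iff.1 w.2 ⟨π p, ⟨p, ⟨hp, hpC⟩, rfl⟩⟩)
    rw [mul_inv_eq_one, mul_inv_eq_iff_eq_mul]
    exact h1.symm
  · rw [hmem, hxw]
    intro e
    have : w = 1 := Subtype.ext (Subtype.ext e)
    rw [this, orderOf_one] at hw
    norm_num at hw

/-- **No point of `X / R` is fixed by `N_C(S)`** (by the `Z*` theorem). -/
theorem Ctx.exists_moved (hFT : CfsgLib.OddStep.P0205.{u}) (h : Ctx R) (S : Sylow 2 G) {x : G}
    (hx : x ∈ h.X hFT S) (hxR : x ∉ R) :
    ∃ n ∈ Subgroup.normalizer ((S : Subgroup G) : Set G),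
      n ∈ Subgroup.centralizer (R : Set G) ∧ cc n x ∉ R := by
  haveI : Fact (Nat.Prime 2) := ⟨Nat.prime_two⟩
  haveI := h.norm
  by_contra! hfix
  set C := Subgroup.centralizer (R : Set G) with hCdef
  obtain ⟨P, hP⟩ := CfsgLib.LocalCharP.exists_sylow_inf S (N := C) inferInstance
  have hPmem : ∀ c : C, c ∈ (P : Subgroup C) ↔ (c : G) ∈ (S : Subgroup G) := fun c => by
    constructor
    · intro hc
      exact (hP.le ⟨c, hc, rfl⟩).1
    · intro hc
      obtain ⟨d, hd, hdc⟩ := hP.ge ⟨hc, c.2⟩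
      rwa [← Subtype.ext hdc]
  -- fusion of the class of `x`
  have hchain : ∀ (A : Set C) (g : C),
      CfsgLib.Alperin.Chain (CfsgLib.Alperin.IsRadicalStep P) A g → ∀ a : C, A = {a} →
        x⁻¹ * (a : G) ∈ R → x⁻¹ * ((g⁻¹ * a * g : C) : G) ∈ R := by
    intro A g hg
    induction hg with
    | nil => intro a _ ha; simpa using ha
    | cons A D d g hD hA _ ih =>
      intro a ha hax
      subst ha
      have haD : a ∈ D := hA rfl
      obtain ⟨⟨T, hT, -, -, hd, -⟩, -⟩ := hD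
      have key : x⁻¹ * ((d⁻¹ * a * d : C) : G) ∈ R := by
        by_cases hTP : T = P
        · rw [hTP, inf_idem] at hT
          subst hT
          have hdn : (d : G) ∈ Subgroup.normalizer ((S : Subgroup G) : Set G) := by
            refine h.mem_normalizer_of_P hFT S ?_
            rw [← hP]
            exact Subgroup.le_normalizer_map C.subtype ⟨d, hd, rfl⟩
          have h1 := hfix _ (inv_mem hdn) (inv_mem d.2)
          have h2 : (d : G)⁻¹ * (x⁻¹ * (a : G)) * d ∈ R := by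
            simpa using h.norm.conj_mem _ hax (d : G)⁻¹
          have e : x⁻¹ * ((d⁻¹ * a * d : C) : G) =
              x⁻¹ * cc (d : G)⁻¹ x * x * ((d : G)⁻¹ * (x⁻¹ * (a : G)) * d) := by
            simp only [cc, Subgroup.coe_mul, Subgroup.coe_inv]; group
          rw [e]
          exact mul_mem (by simpa using h.norm.conj_mem _ h1 x⁻¹) h2
        · haveI : IsCyclic D := hT ▸ (h.cyc.subgroup C) P T (Ne.symm hTP)
          obtain ⟨m, hm⟩ := MonoidHom.map_cyclic
            (Subgroup.normalizerMonoidHom D ⟨d⁻¹, inv_mem hd⟩).toMonoidHom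
          have e : d⁻¹ * a * d = a ^ m := by
            have := congrArg Subtype.val (hm ⟨a, haD⟩)
            simpa [mul_assoc] using this
          have haR : (a : G) ∉ R := fun h1 => hxR (by
            have := mul_mem h1 (inv_mem hax)
            simpa using this)
          have ha2 : (a : G) * a ∈ R := by
            have e2 : (a : G) * a = x * (x⁻¹ * (a : G)) * x * (x⁻¹ * (a : G)) := by group
            rw [e2, Ctx.comm_centralizer hx.2.1 hax, mul_assoc (x⁻¹ * (a : G)) x x]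
            exact mul_mem (mul_mem hax hx.2.2.1) hax
          rw [e, Subgroup.coe_zpow]
          rcases Int.even_or_odd m with ⟨i, hi⟩ | ⟨i, hi⟩
          · exfalso
            have h3 : ((d⁻¹ * a * d : C) : G) ∈ R := by
              rw [e, Subgroup.coe_zpow, hi, ← two_mul, zpow_mul, zpow_two]
              exact zpow_mem ha2 i
            exact haR (by simpa [mul_assoc] using h.norm.conj_mem _ h3 (d : G))
          · rw [hi, zpow_add, zpow_one, zpow_mul, zpow_two,
              (Commute.zpow_left (Commute.mul_left (Commute.refl (a : G)) (Commute.refl _)) i).eq,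
              ← mul_assoc]
            exact mul_mem hax (zpow_mem ha2 i)
      have := ih (d⁻¹ * a * d) (Set.image_singleton) key
      simpa [mul_assoc] using this
  have hiso : ∀ c : C, (c * ⟨x, hx.2.1⟩ * c⁻¹) ∈ (P : Subgroup C) →
      x⁻¹ * ((c * ⟨x, hx.2.1⟩ * c⁻¹ : C) : G) ∈ R := by
    intro c hc
    set x' : C := ⟨x, hx.2.1⟩ with hx'
    obtain ⟨k, hk, g', hg', e⟩ := CfsgLib.Alperin.exists_radical_chain P (A := {x'}) (g := c⁻¹)
      (by rw [Set.singleton_subset_iff]; exact (hPmem x').2 hx.1)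
      (by rw [Set.image_singleton, Set.singleton_subset_iff, inv_inv]; exact hc)
    have h1 := hchain _ _ hg' x' rfl (by simp [hx'])
    have h2 := Subgroup.mem_centralizer_iff.1 hk x' rfl
    have e' : c * x' * c⁻¹ = g'⁻¹ * x' * g' := by
      calc c * x' * c⁻¹ = (c⁻¹)⁻¹ * x' * c⁻¹ := by rw [inv_inv]
        _ = g'⁻¹ * (k⁻¹ * (x' * k)) * g' := by rw [e]; group
        _ = g'⁻¹ * x' * g' := by rw [h2, inv_mul_cancel_left]
    rwa [e']
  -- the `Z*` theorem in `C / R`
  set R' := R.subgroupOf C with hR'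
  haveI : R'.Normal := h.norm.subgroupOf C
  set π := QuotientGroup.mk' R'
  have hπ : Function.Surjective π := QuotientGroup.mk'_surjective R'
  have hmem : ∀ c : C, (c : G) ∈ R ↔ π c = 1 := fun c => by
    rw [show π c = (c : C ⧸ R') from rfl, QuotientGroup.eq_one_iff]
    rfl
  set x' : C := ⟨x, hx.2.1⟩ with hx'
  have hord : orderOf (π x') = 2 := orderOf_eq_prime
    (by rw [pow_two, ← map_mul]; exact (hmem _).1 hx.2.2.1) fun e => hxR ((hmem x').2 e)
  obtain ⟨N, hN, hNo, hNc⟩ := CfsgLib.ZStar.exists_normal_odd_of_no_fusion hord (P.mapSurjective hπ)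
    (fun g hg => by
      obtain ⟨c, rfl⟩ := hπ g
      rw [← map_inv, ← map_mul, ← map_mul] at hg ⊢
      have hcP : c * x' * c⁻¹ ∈ (P : Subgroup C) := by
        obtain ⟨p, hp, hpe⟩ := hg
        have h1 : (((p⁻¹ * (c * x' * c⁻¹) : C)) : G) ∈ R :=
          (hmem _).2 (by rw [map_mul, map_inv, hpe, inv_mul_cancel])
        rw [hPmem]
        have := mul_mem ((hPmem p).1 hp) (h.le_sylow S h1)
        simpa [mul_assoc] using this
      have := (hmem (x'⁻¹ * (c * x' * c⁻¹))).1 (hiso c hcP)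
      rw [map_mul, map_inv, inv_mul_eq_one] at this
      exact this.symm)
  -- `N` is trivial
  have hNbot : ∀ c : C, π c ∈ N → (c : G) ∈ R := by
    set M := N.comap π
    have hRM : R' ≤ M := fun c hc => by
      show π c ∈ N
      rw [(hmem c).1 hc]; exact one_mem _
    haveI : M.Normal := hN.comap π
    set R'' := R'.subgroupOf M
    have hR2 : IsPGroup 2 R'' := (h.two.comap_of_injective C.subtype C.subtype_injective).comap_of_injective
      M.subtype M.subtype_injective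
    have hidx : ¬ 2 ∣ R''.index := by
      intro hd
      have : R''.index = Nat.card N := by
        show R'.relIndex M = _
        rw [CfsgLib.Constrained.relIndex_eq_card_map, Subgroup.map_comap_eq_self_of_surjective hπ]
      exact Nat.not_even_iff_odd.2 hNo (even_iff_two_dvd.2 (this ▸ hd))
    set T : Sylow 2 M := hR2.toSylow hidx
    have hnpc : Cfsg.HasNormalPComplement 2 M := by
      refine CfsgLib.Transfer.hasNormalPComplement_of_normalizer_le_centralizer T fun g _ => ?_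
      refine Subgroup.mem_centralizer_iff.2 fun t ht => Subtype.ext (Subtype.ext ?_)
      exact Subgroup.mem_centralizer_iff.1 (g : C).2 ((t : C) : G) ht
    haveI : (Cfsg.pResidual 2 M).Characteristic := inferInstance
    have hK : (Cfsg.pResidual 2 M).map M.subtype ≤ Cfsg.pPrimeCore 2 C := by
      refine CfsgLib.Constrained.le_pPrimeCore inferInstance ?_
      rw [Subgroup.card_map_of_injective M.subtype_injective]
      exact CfsgLib.Transfer.hasNormalPComplement_iff_coprime_pResidual.mp hnpc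
    have hKG : (Cfsg.pPrimeCore 2 C).map C.subtype = ⊥ := by
      refine h.core _ inferInstance ?_
      rw [Subgroup.card_map_of_injective C.subtype_injective]
      exact Nat.coprime_two_right.1 CfsgLib.Constrained.pPrimeCore_coprime
    intro c hc
    obtain ⟨a, b, ha, hb, hab, ⟨k, hak⟩, hbc⟩ :=
      CfsgLib.Transfer.exists_pPart_decomposition (p := 2) (⟨c, hc⟩ : M)
    have hb1 : ((b : C) : G) = 1 := Subgroup.mem_bot.1 (hKG ▸
      ⟨(b : C), hK ⟨b, (CfsgLib.Transfer.mem_pResidual_iff hnpc b).2 hbc, rfl⟩, rfl⟩ :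
        ((b : C) : G) ∈ (⊥ : Subgroup G))
    obtain ⟨Q, hQ⟩ := (IsPGroup.of_card_dvd_pow (p := 2) (n := k)
      (show Nat.card (Subgroup.zpowers a) ∣ 2 ^ k by rw [Nat.card_zpowers]; exact hak)).exists_le_sylow
    haveI hTn : (T : Subgroup M).Normal := (inferInstance : R'.Normal).subgroupOf M
    haveI := Sylow.unique_of_normal T hTn
    have haT : a ∈ (T : Subgroup M) := (Subsingleton.elim Q T) ▸ hQ (Subgroup.mem_zpowers a)
    have e : (c : G) = ((a : C) : G) := by
      have := congrArg (fun z : M => ((z : C) : G)) hab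
      simpa [hb1] using this
    rw [e]
    exact haT
  have hcentral : ∀ g ∈ C, cc x g ∈ R := fun g hg =>
    hNbot (x' * (⟨g, hg⟩ : C) * x'⁻¹ * (⟨g, hg⟩ : C)⁻¹)
      (by simpa only [map_mul, map_inv] using hNc (π ⟨g, hg⟩))
  -- so `x` lies in a normal 2-subgroup
  let U : Subgroup G :=
    { carrier := {u | u ∈ C ∧ u * u ∈ R ∧ ∀ g ∈ C, cc u g ∈ R}
      one_mem' := ⟨one_mem _, by simp, fun g _ => by simp [cc]⟩
      mul_mem' := fun {u v} hu hv => by
        refine ⟨mul_mem hu.1 hv.1, ?_, fun g hg => ?_⟩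
        · have hc := hv.2.2 u hu.1
          rw [show u * v * (u * v) = u * cc v u * u * (v * v) by simp only [cc]; group,
            Ctx.comm_centralizer hu.1 hc, mul_assoc (cc v u) u u]
          exact mul_mem (mul_mem hc hu.2.1) hv.2.1
        · have hc := hv.2.2 g hg
          rw [show cc (u * v) g = u * cc v g * u⁻¹ * cc u g by simp only [cc]; group,
            Ctx.comm_centralizer hu.1 hc, mul_inv_cancel_right]
          exact mul_mem hc (hu.2.2 g hg)
      inv_mem' := fun {u} hu => by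
        refine ⟨inv_mem hu.1, ?_, fun g hg => ?_⟩
        · rw [← mul_inv_rev]; exact inv_mem hu.2.1
        · have hc := hu.2.2 g hg
          rw [show cc u⁻¹ g = u⁻¹ * (cc u g)⁻¹ * u by simp only [cc]; group,
            Ctx.comm_centralizer (inv_mem hu.1) (inv_mem hc), mul_assoc, inv_mul_cancel, mul_one]
          exact inv_mem hc }
  have hUn : U.Normal := ⟨fun u hu g => by
    have hCn : C.Normal := inferInstance
    refine ⟨hCn.conj_mem u hu.1 g, ?_, fun k hk => ?_⟩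
    · rw [show g * u * g⁻¹ * (g * u * g⁻¹) = g * (u * u) * g⁻¹ by group]
      exact h.norm.conj_mem _ hu.2.1 g
    · rw [show cc (g * u * g⁻¹) k = g * cc u (g⁻¹ * k * g) * g⁻¹ by simp only [cc]; group]
      exact h.norm.conj_mem _ (hu.2.2 _ (by simpa using hCn.conj_mem k hk g⁻¹)) g⟩
  refine hxR (h.max U hUn (fun u => ?_) ⟨hx.2.1, hx.2.2.1, hcentral⟩)
  obtain ⟨k, hk⟩ := h.two ⟨(u : G) * u, u.2.2.1⟩
  refine ⟨k + 1, Subtype.ext ?_⟩
  show (u : G) ^ 2 ^ (k + 1) = 1
  rw [pow_succ', pow_mul, pow_two]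
  exact congrArg Subtype.val hk

/-- Two involutions `z = r * r`, `e ∉ R` determine the Sylow subgroup. -/
theorem Ctx.eq_of_inv (hFT : CfsgLib.OddStep.P0205.{u}) (h : Ctx R) {S T : Sylow 2 G} {e : G}
    (he : e * e = 1) (heR : e ∉ R) (hS : e ∈ (S : Subgroup G)) (hT : e ∈ (T : Subgroup G)) : S = T := by
  obtain ⟨r, hr, hz, hzz⟩ := h.exists_r hFT
  by_contra hne
  have hrr : r * r ∈ R := mul_mem hr hr
  exact heR (eq_of_involutions (h.cyc S T hne)
    (show r * r ∈ (S : Subgroup G) ⊓ (T : Subgroup G) from ⟨h.le_sylow S hrr, h.le_sylow T hrr⟩)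
    ⟨hS, hT⟩ hzz he hz (fun e' => heR (e' ▸ one_mem R)) ▸ hrr)

/-- An element carrying an involution outside `R` of `S` into `S` normalizes `S`. -/
theorem Ctx.mem_normalizer_of_inv (hFT : CfsgLib.OddStep.P0205.{u}) (h : Ctx R) {S : Sylow 2 G}
    {e g : G} (he : e * e = 1) (heR : e ∉ R) (hS : e ∈ (S : Subgroup G))
    (hg : g * e * g⁻¹ ∈ (S : Subgroup G)) : g ∈ Subgroup.normalizer ((S : Subgroup G) : Set G) := by
  haveI := h.norm
  refine Sylow.smul_eq_iff_mem_normalizer.1 (h.eq_of_inv hFT (e := g * e * g⁻¹) ?_ ?_ ⟨e, hS, rfl⟩ hg)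
  · rw [show g * e * g⁻¹ * (g * e * g⁻¹) = g * (e * e) * g⁻¹ by group, he]; group
  · exact fun h1 => heR (by simpa [mul_assoc] using h.norm.conj_mem _ h1 g⁻¹)

theorem Ctx.mem_normalizer_of_commute (hFT : CfsgLib.OddStep.P0205.{u}) (h : Ctx R) {S : Sylow 2 G}
    {e g : G} (he : e * e = 1) (heR : e ∉ R) (hS : e ∈ (S : Subgroup G)) (hg : g * e = e * g) :
    g ∈ Subgroup.normalizer ((S : Subgroup G) : Set G) :=
  h.mem_normalizer_of_inv hFT he heR hS (by rw [hg, mul_inv_cancel_right]; exact hS)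

/-- An odd complement of `S` in its normalizer. -/
theorem Ctx.exists_O (hFT : CfsgLib.OddStep.P0205.{u}) (h : Ctx R) (S : Sylow 2 G) :
    ∃ O : Subgroup G, (Nat.card O).Coprime (Nat.card S) ∧
      O ≤ Subgroup.normalizer ((S : Subgroup G) : Set G) ∧ O ≤ Subgroup.centralizer (R : Set G) ∧
      ∀ n ∈ Subgroup.normalizer ((S : Subgroup G) : Set G), ∃ p ∈ (S : Subgroup G), ∃ o ∈ O, n = p * o := by
  haveI : Fact (Nat.Prime 2) := ⟨Nat.prime_two⟩
  set N := Subgroup.normalizer ((S : Subgroup G) : Set G) with hN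
  set S' := (S : Subgroup G).subgroupOf N with hS'
  haveI : S'.Normal := (Subgroup.normal_subgroupOf_iff_le_normalizer Subgroup.le_normalizer).2 le_rfl
  obtain ⟨k, hk⟩ := IsPGroup.iff_card.1 S.2
  have hcard : Nat.card S' = 2 ^ k := by
    rw [← hk]; exact Nat.card_congr (Subgroup.subgroupOfEquivOfLe Subgroup.le_normalizer).toEquiv
  have hodd : ¬ 2 ∣ S'.index := (S.subtype Subgroup.le_normalizer).not_dvd_index
  have hcop : (Nat.card S').Coprime S'.index := by
    rw [hcard]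
    exact Nat.Coprime.pow_left k ((Nat.Prime.coprime_iff_not_dvd Nat.prime_two).2 hodd)
  obtain ⟨O, hO⟩ := Subgroup.exists_right_complement'_of_coprime hcop
  have hOc : Nat.card (O.map N.subtype) = S'.index := by
    rw [Subgroup.card_map_of_injective N.subtype_injective, hO.symm.index_eq_card]
  refine ⟨O.map N.subtype, ?_, Subgroup.map_subtype_le _, ?_, fun n hn => ?_⟩
  · rw [hOc, show Nat.card S = Nat.card (S : Subgroup G) from rfl, hk]
    exact Nat.Coprime.pow_right k ((Nat.Prime.coprime_iff_not_dvd Nat.prime_two).2 hodd).symm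
  · intro o ho
    refine Subgroup.mem_centralizer_iff.2 fun a ha => (odd_centralizes (h.isCyclic hFT) h.two
      (by rw [Subgroup.normalizer_eq_top_iff.2 h.norm]; trivial) ?_ ha).symm
    refine Nat.Coprime.coprime_dvd_left (Subgroup.orderOf_dvd_natCard _ ho) ?_
    rw [hOc]
    exact ((Nat.Prime.coprime_iff_not_dvd Nat.prime_two).2 hodd).symm
  · obtain ⟨⟨p, o⟩, hpo⟩ := hO.2 ⟨n, hn⟩
    exact ⟨((p : N) : G), p.2, ((o : N) : G), ⟨o, o.2, rfl⟩, (congrArg Subtype.val hpo).symm⟩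

/-- Coprime fixed points in `S` under the complement `O`. -/
theorem exists_fixed (S : Sylow 2 G) {O : Subgroup G} (hcop : (Nat.card O).Coprime (Nat.card S))
    (hON : O ≤ Subgroup.normalizer ((S : Subgroup G) : Set G)) (N : Subgroup G)
    (hN : ∀ o ∈ O, ∀ n ∈ N, o * n * o⁻¹ ∈ N) {g : G} (hg : g ∈ (S : Subgroup G))
    (hgN : ∀ o ∈ O, g⁻¹ * (o * g * o⁻¹) ∈ N) :
    ∃ n ∈ N, n ∈ (S : Subgroup G) ∧ ∀ o ∈ O, o * (g * n) = g * n * o := by
  haveI : Fact (Nat.Prime 2) := ⟨Nat.prime_two⟩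
  haveI := S.2.isNilpotent
  let φ : O →* MulAut (S : Subgroup G) :=
    (Subgroup.normalizerMonoidHom (S : Subgroup G)).comp (Subgroup.inclusion hON)
  obtain ⟨n, hn, hfix⟩ := CfsgLib.Coprime.exists_fixed_mul_of_action φ hcop (Or.inr inferInstance)
    (N.subgroupOf (S : Subgroup G)) (fun o n hn => hN o o.2 n hn) (g := ⟨g, hg⟩)
    (fun o => hgN o o.2)
  refine ⟨n, hn, n.2, fun o ho => ?_⟩
  have h1 : o * (g * (n : G)) * o⁻¹ = g * n := congrArg Subtype.val (hfix ⟨o, ho⟩)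
  exact mul_inv_eq_iff_eq_mul.1 h1

/-- An element of `X` centralized by `O` lies in `R`. -/
theorem Ctx.mem_R_of_fixed (hFT : CfsgLib.OddStep.P0205.{u}) (h : Ctx R) (S : Sylow 2 G)
    {O : Subgroup G} (hOC : O ≤ Subgroup.centralizer (R : Set G))
    (hOdec : ∀ n ∈ Subgroup.normalizer ((S : Subgroup G) : Set G),
      ∃ p ∈ (S : Subgroup G), ∃ o ∈ O, n = p * o)
    {x : G} (hx : x ∈ h.X hFT S) (hfix : ∀ o ∈ O, o * x = x * o) : x ∈ R := by
  by_contra hxR
  obtain ⟨n, hn, hnC, hne⟩ := h.exists_moved hFT S hx hxR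
  obtain ⟨p, hp, o, ho, rfl⟩ := hOdec n hn
  have hpC : p ∈ Subgroup.centralizer (R : Set G) := by
    simpa using mul_mem hnC (inv_mem (hOC ho))
  apply hne
  rw [show cc (p * o) x = p * cc o x * p⁻¹ * cc p x by simp only [cc]; group,
    (cc_eq_one_iff o x).2 (hfix o ho), mul_one, mul_inv_cancel, one_mul,
    show cc p x = (cc x p)⁻¹ by simp only [cc]; group]
  exact inv_mem (hx.2.2.2 p hp hpC)

/-- Squares of elements of `X` are squares in `R`. -/
theorem Ctx.isSq_of_mem_X (hFT : CfsgLib.OddStep.P0205.{u}) (h : Ctx R) (S : Sylow 2 G) {x : G}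
    (hx : x ∈ h.X hFT S) : IsSq R (x * x) := by
  haveI := h.norm
  obtain ⟨O, hcop, hON, hOC, hOdec⟩ := h.exists_O hFT S
  obtain ⟨r, hr, hz, hzz⟩ := h.exists_r hFT
  have hcsq : ∀ a ∈ h.X hFT S, ∀ b ∈ h.X hFT S, IsSq R (cc b a) := by
    intro a ha b hb
    have hc := hb.2.2.2 a ha.1 ha.2.1
    by_cases hc1 : cc b a = 1
    · exact ⟨1, one_mem _, by rw [hc1, one_mul]⟩
    refine ⟨r, hr, eq_of_involutions (h.isCyclic hFT) (mul_mem hr hr) hc hzz ?_ hz hc1⟩
    have h1 : b * b * a = a * (b * b) := (Subgroup.mem_centralizer_iff.1 ha.2.1 _ hb.2.2.1)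
    calc cc b a * cc b a = cc b a * (b * a * b⁻¹ * a⁻¹) := rfl
      _ = b * cc b a * a * b⁻¹ * a⁻¹ := by
          rw [← mul_assoc, ← mul_assoc, ← mul_assoc, Ctx.comm_centralizer hb.2.1 hc]
      _ = (b * b * a) * (b * b)⁻¹ * a⁻¹ := by simp only [cc]; group
      _ = 1 := by rw [h1]; group
  have hsq : ∀ a ∈ h.X hFT S, ∀ b ∈ h.X hFT S, IsSq R (a * a) → IsSq R (b * b) →
      IsSq R (a * b * (a * b)) := by
    rintro a ha b hb ⟨p, hp, hp'⟩ ⟨q, hq, hq'⟩
    have hc := hb.2.2.2 a ha.1 ha.2.1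
    obtain ⟨c, hcR, hc'⟩ := hcsq a ha b hb
    have hcomm := fun {u v : G} (hu : u ∈ R) (hv : v ∈ R) =>
      Ctx.comm_centralizer (h.le_centralizer hFT hu) hv
    refine ⟨c * p * q, mul_mem (mul_mem hcR hp) hq, ?_⟩
    rw [show a * b * (a * b) = a * cc b a * a * (b * b) by simp only [cc]; group,
      Ctx.comm_centralizer ha.2.1 hc, mul_assoc (cc b a) a a, ← hc', ← hp', ← hq']
    calc c * p * q * (c * p * q) = c * (p * q * c) * (p * q) := by group
      _ = c * (c * (p * q)) * (p * q) := by rw [hcomm (mul_mem hp hq) hcR]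
      _ = c * c * (p * (q * p) * q) := by group
      _ = c * c * (p * p) * (q * q) := by rw [hcomm hq hp]; group
  let X₀ : Subgroup G :=
    { carrier := {y | y ∈ h.X hFT S ∧ IsSq R (y * y)}
      one_mem' := ⟨one_mem _, 1, one_mem _, rfl⟩
      mul_mem' := fun {a b} ha hb => ⟨mul_mem ha.1 hb.1, hsq a ha.1 b hb.1 ha.2 hb.2⟩
      inv_mem' := fun {a} ha => by
        obtain ⟨p, hp, hp'⟩ := ha.2
        exact ⟨inv_mem ha.1, p⁻¹, inv_mem hp, by rw [← mul_inv_rev, hp', mul_inv_rev]⟩ }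
  by_contra hns
  have hXconj : ∀ o ∈ O, ∀ y ∈ h.X hFT S, o * y * o⁻¹ ∈ h.X hFT S ∧ o * y * o⁻¹ * (o * y * o⁻¹) = y * y :=
    fun o ho y hy => ⟨h.conj_mem_X hFT S (hON ho) hy, by
      rw [show o * y * o⁻¹ * (o * y * o⁻¹) = o * (y * y) * o⁻¹ by group,
        Ctx.comm_centralizer (hOC ho) hy.2.2.1, mul_inv_cancel_right]⟩
  obtain ⟨n, hn, -, hfix⟩ := exists_fixed S hcop hON X₀
    (fun o ho y hy => ⟨(hXconj o ho y hy.1).1, by rw [(hXconj o ho y hy.1).2]; exact hy.2⟩) hx.1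
    (fun o ho => by
      obtain ⟨h1, h2⟩ := hXconj o ho x hx
      refine ⟨mul_mem (inv_mem hx) h1, ?_⟩
      obtain ⟨c, hcR, hc'⟩ := hcsq _ (inv_mem hx) _ h1
      rw [show x⁻¹ * (o * x * o⁻¹) * (x⁻¹ * (o * x * o⁻¹)) =
          x⁻¹ * cc (o * x * o⁻¹) x⁻¹ * x⁻¹ * (o * x * o⁻¹ * (o * x * o⁻¹)) by simp only [cc]; group,
        Ctx.comm_centralizer (inv_mem hx.2.1) (h1.2.2.2 _ (inv_mem hx.1) (inv_mem hx.2.1)), h2,
        mul_assoc (cc (o * x * o⁻¹) x⁻¹), ← mul_inv_rev, inv_mul_cancel_right]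
      exact ⟨c, hcR, hc'⟩)
  have hxn : x * n ∈ R := h.mem_R_of_fixed hFT S hOC hOdec (mul_mem hx hn.1) hfix
  refine hns ?_
  obtain ⟨c, hcR, hc'⟩ := (inv_mem hn : n⁻¹ ∈ X₀).2
  have := hsq (x * n) (h.R_le_X hFT S hxn) n⁻¹ (inv_mem hn.1) ⟨x * n, hxn, rfl⟩ ⟨c, hcR, hc'⟩
  simpa [mul_assoc] using this

/-- Two involutions of `X`, different and non-trivial modulo `R`. -/
theorem Ctx.exists_two (hFT : CfsgLib.OddStep.P0205.{u}) (h : Ctx R) (S : Sylow 2 G) :
    ∃ e₁ e₂ : G, e₁ ∈ h.X hFT S ∧ e₂ ∈ h.X hFT S ∧ e₁ * e₁ = 1 ∧ e₂ * e₂ = 1 ∧ e₁ ∉ R ∧ e₂ ∉ R ∧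
      e₁ * e₂ ∉ R := by
  obtain ⟨x, hx, hxR⟩ := h.exists_mem_X hFT S
  obtain ⟨a, ha, ha'⟩ := h.isSq_of_mem_X hFT S hx
  have he : x * a⁻¹ * (x * a⁻¹) = 1 := by
    calc x * a⁻¹ * (x * a⁻¹) = x * (a⁻¹ * x) * a⁻¹ := by group
      _ = x * x * (a * a)⁻¹ := by rw [← Ctx.comm_centralizer hx.2.1 (inv_mem ha)]; group
      _ = 1 := by rw [ha', mul_inv_cancel]
  have heX : x * a⁻¹ ∈ h.X hFT S := mul_mem hx (h.R_le_X hFT S (inv_mem ha))
  have heR : x * a⁻¹ ∉ R := fun h1 => hxR (by simpa using mul_mem h1 ha)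
  obtain ⟨n, hn, hnC, hne⟩ := h.exists_moved hFT S heX heR
  refine ⟨x * a⁻¹, n * (x * a⁻¹) * n⁻¹, heX, h.conj_mem_X hFT S hn heX, he, ?_, heR, ?_, ?_⟩
  · rw [show n * (x * a⁻¹) * n⁻¹ * (n * (x * a⁻¹) * n⁻¹) = n * (x * a⁻¹ * (x * a⁻¹)) * n⁻¹ by group,
      he]; group
  · exact fun h1 => heR (by simpa [mul_assoc] using h.norm.conj_mem _ h1 n⁻¹)
  · intro h1
    generalize hE : x * a⁻¹ = E at he heX heR hne h1
    refine hne ?_
    have h2 : E * (E * (n * E * n⁻¹)) * E⁻¹ ∈ R := h.norm.conj_mem _ h1 E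
    have hi : E⁻¹ = E := inv_eq_of_mul_eq_one_right he
    rw [← mul_assoc E E, he, one_mul] at h2
    simpa [cc, hi] using h2

/-- A solvable subgroup containing `e₁`, `e₂` and `R` normalizes `S`. -/
theorem Ctx.le_normalizer_of_solvable (hFT : CfsgLib.OddStep.P0205.{u}) (h : Ctx R) (S : Sylow 2 G)
    {e₁ e₂ : G} (he₁ : e₁ ∈ h.X hFT S) (he₂ : e₂ ∈ h.X hFT S) (h₁ : e₁ * e₁ = 1) (h₂ : e₂ * e₂ = 1)
    (hR₁ : e₁ ∉ R) (hR₂ : e₂ ∉ R) (h12 : e₁ * e₂ ∉ R) {M : Subgroup G} (hM : Group.IsSolvable M)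
    (hRM : R ≤ M) (hM₁ : e₁ ∈ M) (hM₂ : e₂ ∈ M) :
    M ≤ Subgroup.normalizer ((S : Subgroup G) : Set G) := by
  haveI : Fact (Nat.Prime 2) := ⟨Nat.prime_two⟩
  haveI := h.norm
  haveI := hM
  set NS := Subgroup.normalizer ((S : Subgroup G) : Set G) with hNS
  set Q₀ := Cfsg.pPrimeCore 2 M with hQ₀
  set Q := Q₀.map M.subtype with hQ
  set π := QuotientGroup.mk' R
  have hmem : ∀ g : G, g ∈ R ↔ π g = 1 := fun g => (QuotientGroup.eq_one_iff g).symm
  have hQcop : (Nat.card Q).Coprime 2 := by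
    rw [Subgroup.card_map_of_injective M.subtype_injective]
    exact CfsgLib.Constrained.pPrimeCore_coprime
  have hQM : ∀ m ∈ M, ∀ q ∈ Q, m * q * m⁻¹ ∈ Q := by
    rintro m hm _ ⟨q, hq, rfl⟩
    exact ⟨⟨m, hm⟩ * q * ⟨m, hm⟩⁻¹, (inferInstance : Q₀.Normal).conj_mem q hq _, rfl⟩
  have hinv : ∀ q ∈ Q, q ∈ R → q = 1 := by
    intro q hq hqR
    obtain ⟨k, hk⟩ := h.two ⟨q, hqR⟩
    exact orderOf_eq_one_iff.1 (Nat.eq_one_of_dvd_coprimes (Nat.Coprime.pow_right k
      (hQcop.coprime_dvd_left (Subgroup.orderOf_dvd_natCard _ hq))) dvd_rfl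
      (orderOf_dvd_of_pow_eq_one (congrArg Subtype.val hk)))
  -- `O(M)` is generated by centralizers of involutions
  have hcent : ∀ e ∈ (S : Subgroup G), e ∈ M → e * e ∈ R → e ∉ R → (∃ a ∈ R, (e * a) * (e * a) = 1) →
      Q.map π ⊓ Subgroup.centralizer ({π e} : Set (G ⧸ R)) ≤ NS.map π := by
    rintro e heS heM - heR ⟨a, ha, hea⟩ _ ⟨⟨q, hq, rfl⟩, hc⟩
    refine ⟨q, ?_, rfl⟩
    have hc' := Subgroup.mem_centralizer_singleton_iff.1 hc
    have heaM : e * a ∈ M := mul_mem heM (hRM ha)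
    have h1 : cc (e * a) q ∈ R := by
      rw [hmem]
      simp only [cc, map_mul, map_inv]
      rw [(hmem a).1 ha, mul_one, mul_inv_eq_one, mul_inv_eq_iff_eq_mul]
      exact hc'.symm
    have h2 : cc (e * a) q ∈ Q := mul_mem (hQM _ heaM q hq) (inv_mem hq)
    exact h.mem_normalizer_of_commute hFT hea
      (fun h3 => heR (by simpa using mul_mem h3 (inv_mem ha)))
      (mul_mem heS (h.le_sylow S ha)) (((cc_eq_one_iff _ _).1 (hinv _ h2 h1)).symm)
  have hQS : Q ≤ NS := by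
    have hsq := h.isSq_of_mem_X hFT S (mul_mem he₁ he₂)
    set A := Subgroup.closure ({π e₁, π e₂} : Set (G ⧸ R))
    have h12' : π e₁ * π e₂ = π e₂ * π e₁ := by
      have := (hmem _).1 (he₁.2.2.2 e₂ he₂.1 he₂.2.1)
      simp only [cc, map_mul, map_inv] at this
      exact mul_inv_eq_iff_eq_mul.1 (mul_inv_eq_one.1 this)
    have hA : IsMulCommutative A := Subgroup.isMulCommutative_closure (by
      intro a ha b hb
      rcases ha with rfl | rfl <;> rcases hb with rfl | rfl <;> simp [h12'])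
    have hA2 : IsPGroup 2 A := (S.2.map π).to_le ((Subgroup.closure_le _).2 (by
      rintro _ (rfl | rfl)
      · exact ⟨e₁, he₁.1, rfl⟩
      · exact ⟨e₂, he₂.1, rfl⟩))
    have hQc : (Nat.card (Q.map π)).Coprime 2 :=
      hQcop.coprime_dvd_left (Subgroup.card_map_dvd Q π)
    have key : Q.map π ≤ NS.map π := by
      refine CfsgLib.Coprime.le_of_lines (q := 2) hA (e := π e₁) (f := π e₂)
        (Subgroup.subset_closure (Set.mem_insert _ _))
        (Subgroup.subset_closure (Set.mem_insert_of_mem _ rfl)) ?_ ?_ ?_ ?_ ?_ (fun i => ?_) ?_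
      · refine (Subgroup.closure_le _).2 ?_
        rintro _ (rfl | rfl)
        · refine Subgroup.le_normalizer_map π ⟨e₁, Subgroup.mem_normalizer_iff.2 fun q => ?_, rfl⟩
          exact ⟨hQM e₁ hM₁ q, fun hq => by simpa [mul_assoc] using hQM e₁⁻¹ (inv_mem hM₁) _ hq⟩
        · refine Subgroup.le_normalizer_map π ⟨e₂, Subgroup.mem_normalizer_iff.2 fun q => ?_, rfl⟩
          exact ⟨hQM e₂ hM₂ q, fun hq => by simpa [mul_assoc] using hQM e₂⁻¹ (inv_mem hM₂) _ hq⟩
      · obtain ⟨k, hk⟩ := IsPGroup.iff_card.1 hA2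
        rw [hk]; exact Nat.Coprime.pow_left k hQc.symm
      · exact (Nat.Prime.coprime_iff_not_dvd Nat.prime_two).1 hQc.symm
      · rw [pow_two, ← map_mul, h₁, map_one]; exact one_mem _
      · rw [pow_two, ← map_mul, h₂, map_one]; exact one_mem _
      · rcases Nat.even_or_odd i with ⟨j, hj⟩ | ⟨j, hj⟩
        · rw [hj, ← two_mul, pow_mul, pow_two, ← map_mul, h₂, map_one, one_pow, mul_one]
          exact hcent e₁ he₁.1 hM₁ (by rw [h₁]; exact one_mem _) hR₁
            ⟨1, one_mem _, by rw [mul_one, h₁]⟩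
        · rw [hj, pow_succ, pow_mul, pow_two, ← map_mul, h₂, map_one, one_pow, one_mul, ← map_mul]
          obtain ⟨a, ha, ha'⟩ := hsq
          refine hcent _ (mul_mem he₁.1 he₂.1) (mul_mem hM₁ hM₂) (mul_mem he₁ he₂).2.2.1 h12
            ⟨a⁻¹, inv_mem ha, ?_⟩
          generalize hE : e₁ * e₂ = E at ha'
          have hEC : E ∈ Subgroup.centralizer (R : Set G) := hE ▸ (mul_mem he₁ he₂).2.1
          calc E * a⁻¹ * (E * a⁻¹) = E * (a⁻¹ * E) * a⁻¹ := by group
            _ = E * E * (a * a)⁻¹ := by rw [← Ctx.comm_centralizer hEC (inv_mem ha)]; group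
            _ = 1 := by rw [ha', mul_inv_cancel]
      · exact hcent e₂ he₂.1 hM₂ (by rw [h₂]; exact one_mem _) hR₂ ⟨1, one_mem _, by rw [mul_one, h₂]⟩
    intro q hq
    obtain ⟨n, hn, hnq⟩ := key ⟨q, hq, rfl⟩
    have hr : n⁻¹ * q ∈ R := by rw [hmem, map_mul, map_inv, hnq, inv_mul_cancel]
    have := mul_mem hn (Subgroup.le_normalizer (h.le_sylow S hr))
    simpa using this
  -- the Sylow subgroup of `M`
  obtain ⟨U, hU⟩ := IsPGroup.exists_le_sylow (p := 2)
    (S.2.comap_of_injective M.subtype M.subtype_injective)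
  have hUS : ∀ u : M, u ∈ (U : Subgroup M) → (u : G) ∈ (S : Subgroup G) := by
    obtain ⟨T, hT⟩ := (U.2.map M.subtype).exists_le_sylow
    have he : (⟨e₁, hM₁⟩ : M) ∈ (U : Subgroup M) := hU he₁.1
    have hTS : T = S := h.eq_of_inv hFT h₁ hR₁ (hT ⟨_, he, rfl⟩) he₁.1
    exact fun u hu => hTS ▸ hT ⟨u, hu, rfl⟩
  set F := Cfsg.pPrimePCore 2 M with hF
  obtain ⟨P, hP⟩ := CfsgLib.LocalCharP.exists_sylow_inf U (N := F) inferInstance
  have hPS : ∀ u : M, u ∈ (P : Subgroup F).map F.subtype → (u : G) ∈ (S : Subgroup G) :=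
    fun u hu => hUS u (hP.le hu).1
  set PG := ((P : Subgroup F).map F.subtype).map M.subtype with hPG
  -- every element is `O(M)` times an element normalizing `P`
  have hfrat : ∀ m : M, ∃ q ∈ Q₀, ∃ n : M, (n : G) ∈ Subgroup.normalizer (PG : Set G) ∧ m = q * n := by
    intro m
    obtain ⟨f, hf⟩ := MulAction.exists_smul_eq F P ((MulAut.conjNormal m : MulAut F) • P)
    obtain ⟨q, hq, p, hp, hqp⟩ := Subgroup.mem_sup_of_normal_left.1
      ((CfsgLib.Constrained.pPrimeCore_sup_sylow_eq P).ge f.2)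
    refine ⟨q, hq, q⁻¹ * m, ?_, by rw [mul_inv_cancel_left]⟩
    have hconj : ∀ v ∈ (P : Subgroup F).map F.subtype,
        q⁻¹ * m * v * (q⁻¹ * m)⁻¹ ∈ (P : Subgroup F).map F.subtype := by
      rintro _ ⟨v, hv, rfl⟩
      have h1 : (⟨m * (v : M) * m⁻¹, (inferInstance : F.Normal).conj_mem _ v.2 m⟩ : F) ∈
          ((f • P : Sylow 2 F) : Subgroup F) := by
        rw [hf]; exact ⟨v, hv, Subtype.ext rfl⟩
      obtain ⟨w, hw, hwe⟩ := h1
      have hwe' : (f : M) * (w : M) * (f : M)⁻¹ = m * (v : M) * m⁻¹ := congrArg Subtype.val hwe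
      refine (Subgroup.mem_map).2 ?_
      obtain ⟨p', hp', rfl⟩ := hp
      refine ⟨p' * w * p'⁻¹, mul_mem (mul_mem hp' hw) (inv_mem hp'), ?_⟩
      show (p' : M) * w * (p' : M)⁻¹ = q⁻¹ * m * v * (q⁻¹ * m)⁻¹
      calc (p' : M) * w * (p' : M)⁻¹ = q⁻¹ * ((q * p') * w * (q * p')⁻¹) * q := by group
        _ = q⁻¹ * (m * v * m⁻¹) * q := by
          rw [show q * (p' : M) = (f : M) from hqp, hwe']
        _ = _ := by group
    rw [Subgroup.mem_normalizer_iff_map_conj_eq]
    refine Subgroup.eq_of_le_of_card_ge ?_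
      (le_of_eq (Subgroup.card_map_of_injective
        (MulAut.conj ((q⁻¹ * m : M) : G)).injective).symm)
    rintro _ ⟨_, ⟨v, hv, rfl⟩, rfl⟩
    exact ⟨_, hconj v hv, rfl⟩
  have hRPG : R ≤ PG := by
    intro a ha
    refine ⟨⟨a, hRM ha⟩, hP.ge ⟨hU (h.le_sylow S ha), ?_⟩, rfl⟩
    haveI : (R.subgroupOf M).Normal := h.norm.subgroupOf M
    exact CfsgLib.Constrained.le_pPrimePCore inferInstance
      ((h.two.comap_of_injective M.subtype M.subtype_injective).map _) (show a ∈ R from ha)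
  intro m hm
  by_cases hcyc : IsCyclic PG
  swap
  · obtain ⟨q, hq, n, hn, e⟩ := hfrat ⟨m, hm⟩
    have hnS : (n : G) ∈ NS := by
      by_contra hnS
      have hne : S ≠ (n : G) • S := fun e => hnS (Sylow.smul_eq_iff_mem_normalizer.1 e.symm)
      have hle : PG ≤ (S : Subgroup G) := by rintro _ ⟨v, hv, rfl⟩; exact hPS v hv
      refine hcyc (isCyclic_of_le (h.cyc S ((n : G) • S) hne) (le_inf hle fun w hw => ?_))
      exact ⟨(n : G)⁻¹ * w * n, hle ((Subgroup.mem_normalizer_iff''.1 hn w).1 hw),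
        by show (n : G) * ((n : G)⁻¹ * w * n) * (n : G)⁻¹ = w; group⟩
    have e' : m = (q : G) * n := congrArg Subtype.val e
    rw [e']
    exact mul_mem (hQS ⟨q, hq, rfl⟩) hnS
  -- a cyclic `P`: then `M` is `O(M)` times a 2-group
  have hPG2 : IsPGroup 2 PG := (P.2.map F.subtype).map M.subtype
  have hcon : Cfsg.IsPConstrained 2 M := CfsgLib.Constrained.isPConstrained_of_isSolvable
  have htwo : IsPGroup 2 (M ⧸ Q₀) := by
    intro x
    obtain ⟨m', rfl⟩ := QuotientGroup.mk_surjective x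
    obtain ⟨q, hq, n, hn, rfl⟩ := hfrat m'
    obtain ⟨a, b, ha, hb, hab, ⟨k, hk⟩, hbc⟩ :=
      CfsgLib.Transfer.exists_pPart_decomposition (p := 2) n
    have hbN : (b : G) ∈ Subgroup.normalizer (PG : Set G) := by
      obtain ⟨i, rfl⟩ := hb
      simpa using zpow_mem hn i
    have hbF : b ∈ F := hcon P (Subgroup.mem_centralizer_iff.2 fun v hv => Subtype.ext
      (odd_centralizes hcyc hPG2 hbN (by rwa [Subgroup.orderOf_coe]) ⟨v, hv, rfl⟩).symm)
    have hbQ : b ∈ Q₀ := by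
      rw [← QuotientGroup.eq_one_iff (N := Q₀), ← orderOf_eq_one_iff]
      have h2 : IsPGroup 2 (Cfsg.pCore 2 (M ⧸ Q₀)) := CfsgLib.Constrained.isPGroup_pCore
      obtain ⟨j, hj⟩ := IsPGroup.iff_card.1 h2
      refine Nat.eq_one_of_dvd_coprimes (Nat.Coprime.pow_right j hbc)
        (orderOf_map_dvd (QuotientGroup.mk' Q₀) b) ?_
      rw [← hj]
      exact Subgroup.orderOf_dvd_natCard _ hbF
    refine ⟨k, ?_⟩
    rw [← orderOf_dvd_iff_pow_eq_one]
    refine dvd_trans ?_ ((orderOf_map_dvd (QuotientGroup.mk' Q₀) a).trans hk)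
    rw [hab]
    simp [(QuotientGroup.eq_one_iff q).2 hq, (QuotientGroup.eq_one_iff b).2 hbQ]
  obtain ⟨j, hj⟩ := IsPGroup.iff_card.1 htwo
  have htop : Q₀ ⊔ (U : Subgroup M) = ⊤ := by
    rw [← Subgroup.index_eq_one]
    refine Nat.eq_one_of_dvd_coprimes (Nat.Coprime.pow_left j
      ((Nat.Prime.coprime_iff_not_dvd Nat.prime_two).2 U.not_dvd_index)) ?_
      (Subgroup.index_dvd_of_le le_sup_right)
    exact hj ▸ Subgroup.index_dvd_of_le le_sup_left
  obtain ⟨q, hq, u, hu, e⟩ := Subgroup.mem_sup_of_normal_left.1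
    (htop ▸ Subgroup.mem_top (⟨m, hm⟩ : M) : (⟨m, hm⟩ : M) ∈ Q₀ ⊔ (U : Subgroup M))
  have e' : (q : G) * u = m := congrArg Subtype.val e
  rw [← e']
  exact mul_mem (hQS ⟨q, hq, rfl⟩) (Subgroup.le_normalizer (hUS u hu))

/-- The normalizer of `R ⊔ ⟨y⟩` normalizes `S`, if it contains `X` and an element outside `C(R)`. -/
theorem Ctx.normalizer_le_of_ih (hFT : CfsgLib.OddStep.P0205.{u}) (h : Ctx R) (S : Sylow 2 G)
    {e₁ e₂ y t : G} (he₁ : e₁ ∈ h.X hFT S) (he₂ : e₂ ∈ h.X hFT S) (h₁ : e₁ * e₁ = 1) (h₂ : e₂ * e₂ = 1)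
    (hR₁ : e₁ ∉ R) (hR₂ : e₂ ∉ R) (h12 : e₁ * e₂ ∉ R) (hy : y ∈ (S : Subgroup G))
    (hyC : y ∈ Subgroup.centralizer (R : Set G)) (hyR : y ∉ R) (hy2 : y * y ∈ R)
    (ht : t ∉ Subgroup.centralizer (R : Set G)) (hty : cc t y ∈ R) :
    Subgroup.normalizer ((R ⊔ Subgroup.zpowers y : Subgroup G) : Set G) ≤
      Subgroup.normalizer ((S : Subgroup G) : Set G) := by
  haveI := h.norm
  set W := R ⊔ Subgroup.zpowers y
  set M := Subgroup.normalizer (W : Set G)
  have hW2 : IsPGroup 2 W := sup_zpowers_two h.two hy2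
  have hMtop : M ≠ ⊤ := fun e => hyR (h.max W (Subgroup.normalizer_eq_top_iff.1 e) hW2
    (Subgroup.mem_sup_right (Subgroup.mem_zpowers y)))
  have hsol : Group.IsSolvable M := by
    by_contra hns
    refine ht (Subgroup.mem_centralizer_iff.2 fun a ha => ?_)
    exact (h.ih M hMtop hns W Subgroup.le_normalizer hW2 le_rfl t (mem_normalizer_sup hty) a
      (Subgroup.mem_sup_left ha)).symm
  exact h.le_normalizer_of_solvable hFT S he₁ he₂ h₁ h₂ hR₁ hR₂ h12 hsol
    (le_sup_left.trans Subgroup.le_normalizer)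
    (mem_normalizer_sup (he₁.2.2.2 y hy hyC)) (mem_normalizer_sup (he₂.2.2.2 y hy hyC))

/-- An involution of `(S ∩ C) ∖ R` is conjugate modulo `R` to a given one in `X`. -/
theorem Ctx.conj_involution (hFT : CfsgLib.OddStep.P0205.{u}) (h : Ctx R) (S : Sylow 2 G)
    {e₁ e c : G} (he₁ : e₁ ∈ h.X hFT S) (h₁ : e₁ * e₁ = 1) (hR₁ : e₁ ∉ R)
    (hc : c ∈ Subgroup.centralizer (R : Set G))
    (hcS : c ∉ Subgroup.normalizer ((S : Subgroup G) : Set G))
    (he : e ∈ (S : Subgroup G)) (heC : e ∈ Subgroup.centralizer (R : Set G)) (he2 : e * e = 1)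
    (heR : e ∉ R) :
    ∃ n ∈ Subgroup.normalizer ((S : Subgroup G) : Set G), n ∈ Subgroup.centralizer (R : Set G) ∧
      e₁⁻¹ * (n * e * n⁻¹) ∈ R := by
  haveI : Fact (Nat.Prime 2) := ⟨Nat.prime_two⟩
  haveI := h.norm
  set C := Subgroup.centralizer (R : Set G)
  set f := c * e₁ * c⁻¹ with hfdef
  set T := c • S
  have hfT : f ∈ (T : Subgroup G) := ⟨e₁, he₁.1, rfl⟩
  have hf2 : f * f = 1 := by
    rw [hfdef, show c * e₁ * c⁻¹ * (c * e₁ * c⁻¹) = c * (e₁ * e₁) * c⁻¹ by group, h₁]; group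
  have hfC : f ∈ C := mul_mem (mul_mem hc he₁.2.1) (inv_mem hc)
  have hfR : f ∉ R := fun h1 => hR₁ (by simpa [hfdef, mul_assoc] using h.norm.conj_mem _ h1 c⁻¹)
  have hfS : f ∉ (S : Subgroup G) := fun h1 => hcS (h.mem_normalizer_of_inv hFT h₁ hR₁ he₁.1 h1)
  obtain ⟨r, hr, hz, hzz⟩ := h.exists_r hFT
  have hdone : ∀ v ∈ C, ∀ a ∈ R, (e * a) * (e * a) = 1 → v * (e * a) * v⁻¹ = f →
      ∃ n ∈ Subgroup.normalizer ((S : Subgroup G) : Set G), n ∈ C ∧ e₁⁻¹ * (n * e * n⁻¹) ∈ R := by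
    intro v hv a ha hea hv'
    have e' : c⁻¹ * v * (e * a) * (c⁻¹ * v)⁻¹ = e₁ := by
      calc c⁻¹ * v * (e * a) * (c⁻¹ * v)⁻¹ = c⁻¹ * (v * (e * a) * v⁻¹) * c := by group
        _ = e₁ := by rw [hv', hfdef]; group
    refine ⟨c⁻¹ * v, h.mem_normalizer_of_inv hFT hea
      (fun h1 => heR (by simpa using mul_mem h1 (inv_mem ha))) (mul_mem he (h.le_sylow S ha))
      (by rw [e']; exact he₁.1), mul_mem (inv_mem hc) hv, ?_⟩
    rw [show e₁⁻¹ * (c⁻¹ * v * e * (c⁻¹ * v)⁻¹) =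
      e₁⁻¹ * (c⁻¹ * v * (e * a) * (c⁻¹ * v)⁻¹) * (c⁻¹ * v * a⁻¹ * (c⁻¹ * v)⁻¹) by group, e',
      inv_mul_cancel, one_mul]
    exact h.norm.conj_mem _ (inv_mem ha) _
  -- exact dihedral arguments
  set d := e * f with hddef
  have hinv : e * d * e⁻¹ = d⁻¹ := by
    rw [hddef, inv_eq_of_mul_eq_one_right he2, mul_inv_rev, inv_eq_of_mul_eq_one_right he2,
      inv_eq_of_mul_eq_one_right hf2, ← mul_assoc e e f, he2, one_mul]
  have hinvn : ∀ n : ℕ, e * d ^ n * e⁻¹ = (d ^ n)⁻¹ := fun n => by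
    rw [← MulAut.conj_apply, map_pow, MulAut.conj_apply, hinv, inv_pow]
  have hdC : d ∈ C := mul_mem heC hfC
  have hfd : f = e * d := by rw [hddef, ← mul_assoc, he2, one_mul]
  have hei : e⁻¹ = e := inv_eq_of_mul_eq_one_right he2
  -- an odd multiple conjugates
  have hoddcase : ∀ a ∈ R, (e * a) * (e * a) = 1 → ∀ n : ℕ, (a⁻¹ * d) ^ (2 * n + 1) = 1 →
      ∃ v ∈ C, v * (e * a) * v⁻¹ = f := by
    intro a ha hea n hn
    set g := a⁻¹ * d with hgdef
    have hgd : f = e * a * g := by rw [hgdef, mul_assoc, mul_inv_cancel_left]; exact hfd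
    have hgi : (e * a) * g * (e * a)⁻¹ = g⁻¹ := by
      have hf' : (e * a) * g * ((e * a) * g) = 1 := hgd ▸ hf2
      rw [inv_eq_of_mul_eq_one_right hea]
      exact eq_inv_of_mul_eq_one_left (by rw [mul_assoc]; exact hf')
    refine ⟨g ^ n, pow_mem (mul_mem (inv_mem (h.le_centralizer hFT ha)) hdC) n, ?_⟩
    have hgn : (e * a) * (g ^ n)⁻¹ = g ^ n * (e * a) := by
      have : (e * a) * (g ^ n)⁻¹ * (e * a)⁻¹ = g ^ n := by
        rw [← MulAut.conj_apply, map_inv, map_pow, MulAut.conj_apply, hgi, inv_pow, inv_inv]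
      exact mul_inv_eq_iff_eq_mul.1 this
    calc g ^ n * (e * a) * (g ^ n)⁻¹ = g ^ n * (g ^ n * (e * a)) := by rw [mul_assoc, hgn]
      _ = g ^ (2 * n + 1) * (g⁻¹ * (e * a)) := by group
      _ = f := by
        rw [hn, one_mul, hgd, ← hgi, inv_mul_cancel_right]
  rcases Nat.even_or_odd (orderOf d) with ⟨m, hm⟩ | ⟨n, hn⟩
  swap
  · obtain ⟨v, hv, hv'⟩ := hoddcase 1 (one_mem _) (by rw [mul_one, he2]) n
      (by rw [inv_one, one_mul, ← hn, pow_orderOf_eq_one])
    exact hdone v hv 1 (one_mem _) (by rw [mul_one, he2]) hv'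
  set w := d ^ m with hwdef
  have hw2 : w * w = 1 := by rw [← pow_add, ← hm]; exact pow_orderOf_eq_one d
  have hwi : w⁻¹ = w := inv_eq_of_mul_eq_one_right hw2
  have hw1 : w ≠ 1 := fun h1 => by
    have hpos : 0 < orderOf d := orderOf_pos d
    have : orderOf d ≤ m := Nat.le_of_dvd (by omega) (orderOf_dvd_of_pow_eq_one h1)
    omega
  have hwe : w * e = e * w := by
    rw [← mul_inv_eq_iff_eq_mul.1 ((hinvn m).trans hwi)]
  have hwf : w * f = f * w := by
    rw [hfd, ← mul_assoc, hwe, mul_assoc, (Commute.pow_self d m).eq, ← mul_assoc]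
  have hwz : w ∈ R := by
    by_contra hwR
    refine hfS (mem_of_mem_normalizer S (h.mem_normalizer_of_commute hFT hw2 hwR ?_ hwf.symm)
      ⟨1, by rw [pow_one, pow_two, hf2]⟩)
    exact mem_of_mem_normalizer S (h.mem_normalizer_of_commute hFT he2 heR he hwe)
      ⟨1, by rw [pow_one, pow_two, hw2]⟩
  have hwcent : e * w * (e * w) = 1 := by
    rw [mul_assoc, ← mul_assoc w e w, hwe, mul_assoc e w w, hw2, mul_one, he2]
  rcases Nat.even_or_odd m with ⟨l, hl⟩ | ⟨l, hl⟩
  swap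
  · obtain ⟨v, hv, hv'⟩ := hoddcase w hwz hwcent l (by
      rw [← hl, hwi, Commute.mul_pow (show Commute w d from Commute.pow_self d m),
        show d ^ m = w from rfl, show w ^ m = w by rw [hl, pow_succ, pow_mul, pow_two, hw2, one_pow, one_mul],
        hw2])
    exact hdone v hv w hwz hwcent hv'
  -- an element of order four in `⟨d⟩` gives a third Sylow subgroup
  exfalso
  set u := d ^ l with hudef
  have hu2 : u * u = w := by rw [← pow_add, ← hl]
  have hueq : w = r * r := eq_of_involutions (h.isCyclic hFT) hwz (mul_mem hr hr) hw2 hzz hw1 hz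
  have huR : u ∉ R := by
    intro huR
    have h1 : e * u = u * e := Ctx.comm_centralizer heC huR
    have h2 := hinvn l
    rw [← hudef, h1, mul_inv_cancel_right] at h2
    exact hw1 (by rw [← hu2]; exact mul_eq_one_iff_eq_inv.2 h2)
  set p := u * r with hpdef
  have huC : u ∈ C := pow_mem hdC l
  have hp2 : p * p = 1 := by
    calc u * r * (u * r) = u * (r * u) * r := by group
      _ = u * u * (r * r) := by rw [← Ctx.comm_centralizer huC hr]; group
      _ = 1 := by rw [hu2, ← hueq, hw2]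
  have hpR : p ∉ R := fun h1 => huR (by simpa [hpdef] using mul_mem h1 (inv_mem hr))
  obtain ⟨U, hU⟩ := (IsPGroup.of_card_dvd_pow (p := 2) (n := 1)
    (show Nat.card (Subgroup.zpowers p) ∣ 2 ^ 1 by
      rw [Nat.card_zpowers, pow_one]; exact orderOf_dvd_of_pow_eq_one (by rw [pow_two, hp2]))).exists_le_sylow
  have hpU : p ∈ (U : Subgroup G) := hU (Subgroup.mem_zpowers p)
  have hfix : ∀ g ∈ C, g * u * g⁻¹ = u⁻¹ → g ∈ Subgroup.normalizer ((U : Subgroup G) : Set G) := by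
    intro g hg hgu
    refine h.mem_normalizer_of_inv hFT hp2 hpR hpU ?_
    have : g * p * g⁻¹ = (r * r)⁻¹ * p := by
      rw [hpdef, show g * (u * r) * g⁻¹ = g * u * g⁻¹ * (g * r * g⁻¹) by group, hgu,
        Ctx.comm_centralizer hg hr, mul_inv_cancel_right, ← hueq, ← hu2]
      group
    rw [this]
    exact mul_mem (inv_mem (h.le_sylow U (mul_mem hr hr))) hpU
  have heU : e ∈ (U : Subgroup G) :=
    mem_of_mem_normalizer U (hfix e heC (hinvn l)) ⟨1, by rw [pow_one, pow_two, he2]⟩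
  have hfU : f ∈ (U : Subgroup G) := by
    refine mem_of_mem_normalizer U (hfix f hfC ?_) ⟨1, by rw [pow_one, pow_two, hf2]⟩
    rw [hfd, mul_inv_rev, show e * d * u * (d⁻¹ * e⁻¹) = e * (d * d ^ l * d⁻¹) * e⁻¹ by
      rw [hudef]; group, (Commute.self_pow d l).eq, mul_inv_cancel_right]
    exact hinvn l
  exact hfS ((h.eq_of_inv hFT he2 heR heU he) ▸ hfU)

/-- **The main argument.** -/
theorem Ctx.false (hFT : CfsgLib.OddStep.P0205.{u}) (h : Ctx R) : False := by
  haveI : Fact (Nat.Prime 2) := ⟨Nat.prime_two⟩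
  haveI := h.norm
  set C := Subgroup.centralizer (R : Set G) with hCdef
  have hCn : C.Normal := inferInstance
  let S : Sylow 2 G := default
  obtain ⟨e₁, e₂, he₁, he₂, h₁, h₂, hR₁, hR₂, h12⟩ := h.exists_two hFT S
  obtain ⟨O, hcop, hON, hOC, hOdec⟩ := h.exists_O hFT S
  -- an element of `S` outside `C` centralized by `O`
  obtain ⟨g₀, hg₀⟩ : ∃ g : G, g ∉ C := by
    by_contra! hall
    exact h.noncentral fun a ha => Subgroup.mem_center_iff.2 fun g =>
      (Ctx.comm_centralizer (hall g) ha)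
  obtain ⟨c₀, hc₀, s₀, hs₀, rfl⟩ := h.exists_mul hFT S g₀
  have hs₀C : s₀ ∉ C := fun h1 => hg₀ (mul_mem hc₀ h1)
  obtain ⟨n₀, hn₀, hn₀S, hfix₀⟩ := exists_fixed S hcop hON C
    (fun o ho n hn => hCn.conj_mem n hn o) hs₀ (fun o ho => by
      have h1 : s₀⁻¹ * o * s₀ ∈ C := by simpa using hCn.conj_mem o (hOC ho) s₀⁻¹
      simpa [mul_assoc] using mul_mem h1 (inv_mem (hOC ho)))
  set s := s₀ * n₀ with hsdef
  have hs : s ∈ (S : Subgroup G) := mul_mem hs₀ hn₀S
  have hsC : s ∉ C := fun h1 => hs₀C (by simpa [hsdef] using mul_mem h1 (inv_mem hn₀))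
  -- its last power outside `R`
  have hex : ∃ m : ℕ, s ^ 2 ^ m ∈ R := by
    obtain ⟨k, hk⟩ := S.2 ⟨s, hs⟩
    refine ⟨k, ?_⟩
    have hk' : s ^ 2 ^ k = 1 := congrArg Subtype.val hk
    rw [hk']; exact one_mem _
  classical
  obtain ⟨m, hm⟩ : ∃ m, Nat.find hex = m + 1 := Nat.exists_eq_succ_of_ne_zero fun h0 => hsC <| by
    have := Nat.find_spec hex
    rw [h0, pow_zero, pow_one] at this
    exact h.le_centralizer hFT this
  set y := s ^ 2 ^ m with hydef
  have hyR : y ∉ R := Nat.find_min hex (hm ▸ Nat.lt_succ_self m)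
  have hy2 : y * y ∈ R := by
    have h' := Nat.find_spec hex
    rw [hm, pow_succ, pow_mul, pow_two] at h'
    exact h'
  have hyS : y ∈ (S : Subgroup G) := pow_mem hs _
  have hys : s * y = y * s := (Commute.self_pow s _).eq
  have hyO : ∀ o ∈ O, o * y = y * o := fun o ho =>
    (Commute.pow_right (show Commute o s from hfix₀ o ho) _).eq
  have hyX : y ∉ h.X hFT S := fun h1 => hyR (h.mem_R_of_fixed hFT S hOC hOdec h1 hyO)
  have hNy : Subgroup.normalizer ((R ⊔ Subgroup.zpowers y : Subgroup G) : Set G) ≤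
      Subgroup.normalizer ((S : Subgroup G) : Set G) := by
    by_cases hyC : y ∈ C
    · exact h.normalizer_le_of_ih hFT S he₁ he₂ h₁ h₂ hR₁ hR₂ h12 hyS hyC hyR hy2 hsC
        (by rw [(cc_eq_one_iff s y).2 hys]; exact one_mem _)
    · exact h.normalizer_outside S hyS hyC
  -- an involution of another Sylow subgroup
  obtain ⟨g₁, hg₁⟩ := exists_ne_sylow hFT h.ns S
  obtain ⟨c, hc, s₁, hs₁, rfl⟩ := h.exists_mul hFT S g₁
  have hcS : c ∉ Subgroup.normalizer ((S : Subgroup G) : Set G) := fun h1 =>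
    hg₁ (mul_mem h1 (Subgroup.le_normalizer hs₁))
  set f := c * e₁ * c⁻¹ with hfdef
  have hf2 : f * f = 1 := by
    rw [hfdef, show c * e₁ * c⁻¹ * (c * e₁ * c⁻¹) = c * (e₁ * e₁) * c⁻¹ by group, h₁]; group
  have hfC : f ∈ C := mul_mem (mul_mem hc he₁.2.1) (inv_mem hc)
  have hfS : f ∉ (S : Subgroup G) := fun h1 => hcS (h.mem_normalizer_of_inv hFT h₁ hR₁ he₁.1 h1)
  rcases dihedral (R := R) (a := y) (b := f) hy2 (by rw [hf2]; exact one_mem _)
      (C := (⊤ : Subgroup G)) (Subgroup.mem_top _) with ⟨v, -, hv⟩ | ⟨x, hxR, hx2, hxy, hxf⟩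
  · -- `y` is conjugate to `f` modulo `R`
    have hyC : y ∈ C := by
      have h1 : v * y * v⁻¹ ∈ C := by
        have := mul_mem hfC (inv_mem (h.le_centralizer hFT hv))
        simpa [mul_assoc] using this
      simpa [mul_assoc] using hCn.conj_mem _ h1 v⁻¹
    set d := c⁻¹ * v
    have hd : (d * y * d⁻¹)⁻¹ * e₁ ∈ R := by
      have := h.norm.conj_mem _ hv c⁻¹
      rw [hfdef] at this
      rw [show (d * y * d⁻¹)⁻¹ * e₁ = c⁻¹ * ((v * y * v⁻¹)⁻¹ * (c * e₁ * c⁻¹)) * c⁻¹⁻¹ by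
        simp only [d]; group]
      exact this
    set a := d⁻¹ * ((d * y * d⁻¹)⁻¹ * e₁) * d
    have ha : a ∈ R := by
      have h1 := h.norm.conj_mem _ hd d⁻¹
      rwa [inv_inv] at h1
    have hya : y * a = d⁻¹ * e₁ * d := by simp only [a]; group
    have hya2 : y * a * (y * a) = 1 := by
      rw [hya, show d⁻¹ * e₁ * d * (d⁻¹ * e₁ * d) = d⁻¹ * (e₁ * e₁) * d by group, h₁]; group
    have hyaR : y * a ∉ R := fun h1 => hyR (by simpa using mul_mem h1 (inv_mem ha))
    have hdN : d ∈ Subgroup.normalizer ((S : Subgroup G) : Set G) :=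
      h.mem_normalizer_of_inv hFT hya2 hyaR (mul_mem hyS (h.le_sylow S ha))
        (by rw [hya, show d * (d⁻¹ * e₁ * d) * d⁻¹ = e₁ by group]; exact he₁.1)
    refine hyX ?_
    have h2 := mul_mem (h.conj_mem_X hFT S (inv_mem hdN) he₁) (h.R_le_X hFT S (inv_mem ha))
    rw [inv_inv, ← hya, mul_inv_cancel_right] at h2
    exact h2
  -- a common involution `x`
  have hxN : x ∈ Subgroup.normalizer ((S : Subgroup G) : Set G) := hNy (mem_normalizer_sup hxy)
  have hxS : x ∈ (S : Subgroup G) := mem_of_mem_normalizer S hxN (by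
    obtain ⟨k, hk⟩ := h.two ⟨x * x, hx2⟩
    exact ⟨k + 1, by rw [pow_succ', pow_mul, pow_two]; exact congrArg Subtype.val hk⟩)
  have hcomm : ∀ {a b : G}, cc a b ∈ R → cc b a ∈ R := fun {a b} h1 => by
    have := inv_mem h1
    simpa [cc, mul_assoc] using this
  refine hfS (mem_of_mem_normalizer S ?_ ⟨1, by rw [pow_one, pow_two, hf2]⟩)
  by_cases hxC : x ∈ C
  swap
  · exact h.normalizer_outside S hxS hxC (mem_normalizer_sup (hcomm hxf))
  suffices ht : ∃ t : G, t ∉ C ∧ cc t x ∈ R by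
    obtain ⟨t, ht, htx⟩ := ht
    exact h.normalizer_le_of_ih hFT S he₁ he₂ h₁ h₂ hR₁ hR₂ h12 hxS hxC hxR hx2 ht htx
      (mem_normalizer_sup (hcomm hxf))
  by_cases hyC : y ∈ C
  swap
  · exact ⟨y, hyC, hcomm hxy⟩
  refine ⟨s, hsC, ?_⟩
  -- the fixed points of `s` modulo `R` in `C`
  have hFmul : ∀ {a b : G}, cc s a ∈ R → cc s b ∈ R → cc s (a * b) ∈ R := fun {a b} ha hb => by
    rw [show cc s (a * b) = cc s a * (a * cc s b * a⁻¹) by simp only [cc]; group]
    exact mul_mem ha (h.norm.conj_mem _ hb a)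
  have hFR : ∀ a ∈ R, cc s a ∈ R := fun a ha => mul_mem (h.norm.conj_mem a ha s) (inv_mem ha)
  have hFinv : ∀ {a : G}, cc s a ∈ R → cc s a⁻¹ ∈ R := fun {a} ha => by
    rw [show cc s a⁻¹ = a⁻¹ * (cc s a)⁻¹ * a⁻¹⁻¹ by simp only [cc]; group]
    exact h.norm.conj_mem _ (inv_mem ha) _
  have hsy : cc s y ∈ R := by rw [(cc_eq_one_iff s y).2 hys]; exact one_mem _
  have hred : ∀ {p : G}, p ∈ (S : Subgroup G) → p ∈ C → IsSq R (p * p) → p ∉ R →
      ∃ a ∈ R, (p * a) * (p * a) = 1 ∧ ∃ o ∈ O, e₁⁻¹ * (o * p * o⁻¹) ∈ R := by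
    rintro p hp hpC ⟨b, hb, hbp⟩ hpR
    have he : p * b⁻¹ * (p * b⁻¹) = 1 := by
      calc p * b⁻¹ * (p * b⁻¹) = p * (b⁻¹ * p) * b⁻¹ := by group
        _ = p * p * (b * b)⁻¹ := by rw [← Ctx.comm_centralizer hpC (inv_mem hb)]; group
        _ = 1 := by rw [hbp, mul_inv_cancel]
    obtain ⟨n, hn, hnC, hne⟩ := h.conj_involution hFT S he₁ h₁ hR₁ hc hcS
      (mul_mem hp (h.le_sylow S (inv_mem hb))) (mul_mem hpC (h.le_centralizer hFT (inv_mem hb))) he
      (fun h1 => hpR (by simpa using mul_mem h1 hb))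
    refine ⟨b⁻¹, inv_mem hb, he, ?_⟩
    obtain ⟨q, hq, o, ho, rfl⟩ := hOdec n hn
    have hqC : q ∈ C := by simpa using mul_mem hnC (inv_mem (hOC ho))
    refine ⟨o, ho, ?_⟩
    have h1 : e₁⁻¹ * (q * o * p * (q * o)⁻¹) ∈ R := by
      have := mul_mem hne (h.norm.conj_mem _ hb (q * o))
      rwa [show e₁⁻¹ * (q * o * (p * b⁻¹) * (q * o)⁻¹) * (q * o * b * (q * o)⁻¹) =
        e₁⁻¹ * (q * o * p * (q * o)⁻¹) by group] at this
    rw [show e₁⁻¹ * (o * p * o⁻¹) =
      (e₁⁻¹ * q⁻¹ * e₁ * q) * (q⁻¹ * (e₁⁻¹ * (q * o * p * (q * o)⁻¹)) * q) by group]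
    refine mul_mem ?_ (by simpa using h.norm.conj_mem _ h1 q⁻¹)
    have := he₁.2.2.2 q hq hqC
    have h3 := h.norm.conj_mem _ this (e₁⁻¹ * q⁻¹)
    simpa [cc, mul_assoc] using h3
  have hFconj : ∀ o ∈ O, ∀ {a : G}, cc s a ∈ R → cc s (o * a * o⁻¹) ∈ R := fun o ho a ha => by
    have hso : o * s = s * o := hfix₀ o ho
    have hs' : o * s * o⁻¹ = s := by rw [hso, mul_inv_cancel_right]
    rw [show cc s (o * a * o⁻¹) = cc (o * s * o⁻¹) (o * a * o⁻¹) by rw [hs'],
      show cc (o * s * o⁻¹) (o * a * o⁻¹) = o * cc s a * o⁻¹ by simp only [cc]; group]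
    exact h.norm.conj_mem _ ha o
  -- `s` fixes one class of `X`, hence all of them
  have hFe : cc s e₁ ∈ R := by
    set π := QuotientGroup.mk' R
    have hmem : ∀ g : G, g ∈ R ↔ π g = 1 := fun g => (QuotientGroup.eq_one_iff g).symm
    have hS' : IsPGroup 2 ((S : Subgroup G).map π) := S.2.map π
    set V := (h.X hFT S).map π
    have hVne : V ≠ ⊥ := fun e => hR₁ ((hmem e₁).2 (Subgroup.mem_bot.1 (e ▸ ⟨e₁, he₁, rfl⟩)))
    have hVS : V ≤ (S : Subgroup G).map π := Subgroup.map_mono fun a ha => ha.1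
    haveI hVn : (V.subgroupOf ((S : Subgroup G).map π)).Normal := by
      refine (Subgroup.normal_subgroupOf_iff_le_normalizer hVS).2 ?_
      rintro _ ⟨p, hp, rfl⟩
      refine Subgroup.le_normalizer_map π ⟨p, Subgroup.mem_normalizer_iff.2 fun a => ?_, rfl⟩
      exact ⟨fun ha => h.conj_mem_X hFT S (Subgroup.le_normalizer hp) ha, fun ha => by
        simpa [mul_assoc] using h.conj_mem_X hFT S (inv_mem (Subgroup.le_normalizer hp)) ha⟩
    obtain ⟨⟨⟨w, hwS⟩, hw⟩, hw1⟩ : ∃ w : (V.subgroupOf ((S : Subgroup G).map π) ⊓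
        Subgroup.center ((S : Subgroup G).map π) : Subgroup _), w ≠ 1 := by
      haveI : Nontrivial (V.subgroupOf ((S : Subgroup G).map π) ⊓
          Subgroup.center ((S : Subgroup G).map π) : Subgroup _) := by
        refine (Subgroup.nontrivial_iff_ne_bot _).2 ?_
        exact CfsgLib.OddCons.CyclicIntersections.normal_inf_center_ne_bot hS' fun e =>
          hVne (by
            rw [Subgroup.subgroupOf_eq_bot, disjoint_iff, inf_eq_left.2 hVS] at e
            exact e)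
      exact exists_ne 1
    obtain ⟨p, hp, hpw⟩ := hw.1
    have hpR : p ∉ R := fun h1 => hw1 (Subtype.ext (Subtype.ext (by
      show w = 1
      exact hpw.symm.trans ((hmem p).1 h1))))
    have hsp : cc s p ∈ R := by
      rw [hmem]
      simp only [cc, map_mul, map_inv]
      have h1 := congrArg Subtype.val (Subgroup.mem_center_iff.1 hw.2 ⟨π s, ⟨s, hs, rfl⟩⟩)
      rw [mul_inv_eq_one, mul_inv_eq_iff_eq_mul]
      show π s * π p = π p * π s
      rw [show π p = w from hpw]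
      exact h1
    obtain ⟨-, -, -, o, ho, hop⟩ := hred hp.1 hp.2.1 (h.isSq_of_mem_X hFT S hp) hpR
    have h1 := hFmul (hFconj o ho hsp) (hFinv (hFR _ hop))
    rwa [show o * p * o⁻¹ * (e₁⁻¹ * (o * p * o⁻¹))⁻¹ = e₁ by group] at h1
  have hFsq : ∀ {p : G}, p ∈ (S : Subgroup G) → p ∈ C → IsSq R (p * p) → cc s p ∈ R := by
    intro p hp hpC hsq
    by_cases hpR : p ∈ R
    · exact hFR p hpR
    obtain ⟨-, -, -, o, ho, hop⟩ := hred hp hpC hsq hpR
    have h1 := hFconj o⁻¹ (inv_mem ho) (hFmul hFe (hFR _ hop))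
    simpa [mul_assoc] using h1
  -- squares modulo squares
  by_cases hxsq : IsSq R (x * x)
  · exact hFsq hxS hxC hxsq
  have hysq : ¬ IsSq R (y * y) := fun hsq => by
    obtain ⟨-, -, -, o, ho, hop⟩ := hred hyS hyC hsq hyR
    refine hyX ?_
    rw [hyO o ho, mul_inv_cancel_right] at hop
    have := mul_mem he₁ (h.R_le_X hFT S hop)
    simpa using this
  have hxysq : IsSq R (x * y * (x * y)) := by
    have hc' : cc y x ∈ R := hcomm hxy
    obtain ⟨r, hr, hz, hzz⟩ := h.exists_r hFT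
    obtain ⟨q, hq, hq'⟩ : IsSq R (cc y x) := by
      by_cases hc1 : cc y x = 1
      · exact ⟨1, one_mem _, by rw [hc1, one_mul]⟩
      refine ⟨r, hr, eq_of_involutions (h.isCyclic hFT) (mul_mem hr hr) hc' hzz ?_ hz hc1⟩
      have h1 : y * y * x = x * (y * y) := Subgroup.mem_centralizer_iff.1 hxC _ hy2
      calc cc y x * cc y x = cc y x * (y * x * y⁻¹ * x⁻¹) := rfl
        _ = y * cc y x * x * y⁻¹ * x⁻¹ := by
            rw [← mul_assoc, ← mul_assoc, ← mul_assoc, Ctx.comm_centralizer hyC hc']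
        _ = (y * y * x) * (y * y)⁻¹ * x⁻¹ := by simp only [cc]; group
        _ = 1 := by rw [h1]; group
    haveI := h.isCyclic hFT
    obtain ⟨γ, hγ⟩ := IsCyclic.exists_generator (α := R)
    have hodd : ∀ {a : G}, a ∈ R → ¬ IsSq R a → ∃ i : ℤ, a = (γ : G) ^ (2 * i + 1) := by
      intro a ha hns
      obtain ⟨k, hk⟩ := Subgroup.mem_zpowers_iff.1 (hγ ⟨a, ha⟩)
      have hk' : (γ : G) ^ k = a := congrArg Subtype.val hk
      rcases Int.even_or_odd k with ⟨i, hi⟩ | ⟨i, hi⟩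
      · exact absurd ⟨(γ : G) ^ i, zpow_mem γ.2 i, by rw [← zpow_add, ← hi, hk']⟩ hns
      · exact ⟨i, by rw [← hi, hk']⟩
    obtain ⟨i, hi⟩ := hodd hx2 hxsq
    obtain ⟨j, hj⟩ := hodd hy2 hysq
    refine ⟨q * (γ : G) ^ (i + j + 1), mul_mem hq (zpow_mem γ.2 _), ?_⟩
    have hqγ : (γ : G) ^ (i + j + 1) * q = q * (γ : G) ^ (i + j + 1) :=
      Ctx.comm_centralizer (h.le_centralizer hFT (zpow_mem γ.2 _)) hq
    rw [show x * y * (x * y) = x * cc y x * x * (y * y) by simp only [cc]; group,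
      Ctx.comm_centralizer hxC hc', mul_assoc (cc y x) x x, ← hq', hi, hj]
    calc q * (γ : G) ^ (i + j + 1) * (q * (γ : G) ^ (i + j + 1))
        = q * ((γ : G) ^ (i + j + 1) * q) * (γ : G) ^ (i + j + 1) := by simp only [mul_assoc]
      _ = q * q * ((γ : G) ^ (i + j + 1) * (γ : G) ^ (i + j + 1)) := by
          rw [hqγ]; simp only [mul_assoc]
      _ = _ := by rw [← zpow_add, mul_assoc (q * q), ← zpow_add]; congr 2; ring
  have h1 := hFmul (hFsq (mul_mem hxS hyS) (mul_mem hxC hyC) hxysq) (hFinv hsy)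
  rwa [mul_inv_cancel_right] at h1

end Main

/-- **A normal 2-subgroup of a non-solvable group with cyclic Sylow intersections is central.** -/
theorem le_center (hFT : CfsgLib.OddStep.P0205.{u}) :
    ∀ (n : ℕ) (G : Type u) [Group G] [Finite G], Nat.card G = n → CycInt G → ¬ Group.IsSolvable G →
      ∀ R : Subgroup G, R.Normal → IsPGroup 2 R → R ≤ Subgroup.center G := by
  haveI : Fact (Nat.Prime 2) := ⟨Nat.prime_two⟩
  intro n
  induction n using Nat.strong_induction_on with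
  | _ n ih =>
  intro G _ _ hn hC hns R hR hR2
  haveI := hR
  by_cases hcore : ∃ N : Subgroup G, N.Normal ∧ Odd (Nat.card N) ∧ N ≠ ⊥
  · obtain ⟨N, hN, hNo, hN1⟩ := hcore
    haveI := hN
    haveI : Group.IsSolvable N := hFT hNo
    set π := QuotientGroup.mk' N
    have hns' : ¬ Group.IsSolvable (G ⧸ N) := fun h =>
      hns ((Group.isSolvable_iff_subgroup_quotient N).mpr ⟨‹_›, h⟩)
    have hlt : Nat.card (G ⧸ N) < n := by
      rw [← hn, Subgroup.card_eq_card_quotient_mul_card_subgroup N]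
      exact lt_mul_of_one_lt_right Nat.card_pos ((Subgroup.one_lt_card_iff_ne_bot N).2 hN1)
    have hcen := ih _ hlt (G ⧸ N) rfl (hC.quotient N) hns' (R.map π)
      (hR.map π (QuotientGroup.mk'_surjective N)) (hR2.map π)
    intro a ha
    refine Subgroup.mem_center_iff.2 fun g => ((cc_eq_one_iff a g).1 ?_).symm
    have h1 := Subgroup.mem_center_iff.1 (hcen ⟨a, ha, rfl⟩) (π g)
    have hN' : cc a g ∈ N := by
      rw [← QuotientGroup.eq_one_iff (N := N), show ((cc a g : G) : G ⧸ N) = π (cc a g) from rfl]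
      simp only [cc, map_mul, map_inv]
      rw [mul_inv_eq_one, mul_inv_eq_iff_eq_mul]
      exact h1.symm
    have hR' : cc a g ∈ R := by
      rw [show cc a g = a * (g * a⁻¹ * g⁻¹) by simp only [cc]; group]
      exact mul_mem ha (hR.conj_mem _ (inv_mem ha) g)
    obtain ⟨k, hk⟩ := hR2 ⟨_, hR'⟩
    exact orderOf_eq_one_iff.1 (Nat.eq_one_of_dvd_coprimes
      (Nat.Coprime.pow_right k (Nat.coprime_two_right.2 hNo))
      (Subgroup.orderOf_dvd_natCard _ hN') (orderOf_dvd_of_pow_eq_one (congrArg Subtype.val hk)))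
  push_neg at hcore
  obtain ⟨R₀, ⟨hR₀, hR₀2, hle⟩, hmax⟩ := Set.Finite.exists_maximal
    (Set.toFinite {W : Subgroup G | W.Normal ∧ IsPGroup 2 W ∧ R ≤ W}) ⟨R, hR, hR2, le_rfl⟩
  by_contra hnc
  haveI := hR₀
  refine Ctx.false hFT (R := R₀) ⟨hC, hns, hcore, hR₀, hR₀2, fun W hW hW2 => ?_,
    fun h => hnc (hle.trans h), fun H hH hHns W hWH hW2 hWn x hx w hw => ?_⟩
  · haveI := hW
    exact le_sup_right.trans (hmax ⟨Subgroup.sup_normal R₀ W,
      IsPGroup.to_sup_of_normal_right hR₀2 hW2, hle.trans le_sup_left⟩ le_sup_left)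
  · have hlt : Nat.card H < n := by
      rw [← hn]
      refine lt_of_le_of_ne (Subgroup.card_le_card_group H) fun he => hH ?_
      exact Subgroup.eq_top_of_card_eq H he
    have hcen := ih _ hlt H rfl (hC.subgroup H) hHns (W.subgroupOf H)
      ((Subgroup.normal_subgroupOf_iff_le_normalizer hWH).2 hWn)
      (hW2.comap_of_injective H.subtype H.subtype_injective)
    exact congrArg Subtype.val
      (Subgroup.mem_center_iff.1 (hcen (show (⟨w, hWH hw⟩ : H) ∈ W.subgroupOf H from hw)) ⟨x, hx⟩)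

/-- **A solvable normal subgroup is cyclic, a 2-group and central, modulo `O(G)`.** -/
theorem image_solvable_normal (hFT : CfsgLib.OddStep.P0205.{u}) (G : Type u) [Group G] [Finite G]
    (hns : ¬ Group.IsSolvable G) (hC : CycInt G)
    (hO : ∀ M : Subgroup G, M.Normal → Odd (Nat.card M) → M = ⊥)
    (N : Subgroup G) [N.Normal] (hN : Group.IsSolvable N) :
    IsCyclic N ∧ IsPGroup 2 N ∧ N ≤ Subgroup.center G := by
  haveI : Fact (Nat.Prime 2) := ⟨Nat.prime_two⟩
  haveI := hN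
  set Q := Cfsg.pCore 2 N with hQ
  have hQ2 : IsPGroup 2 Q := CfsgLib.Constrained.isPGroup_pCore
  have hF := le_center hFT _ G rfl hC hns (Q.map N.subtype) inferInstance (hQ2.map _)
  have hO' : Cfsg.pPrimeCore 2 N = ⊥ := by
    have h1 := hO ((Cfsg.pPrimeCore 2 N).map N.subtype) inferInstance (by
      rw [Subgroup.card_map_of_injective N.subtype_injective]
      exact Nat.coprime_two_right.1 CfsgLib.Constrained.pPrimeCore_coprime)
    exact (Subgroup.map_eq_bot_iff_of_injective _ N.subtype_injective).1 h1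
  have hcen : ∀ x : N, x ∈ Q := fun x =>
    (CfsgLib.Constrained.isPConstrained_iff_of_pPrimeCore_eq_bot hO').1
      CfsgLib.Constrained.isPConstrained_of_isSolvable (Subgroup.mem_centralizer_iff.2 fun q hq =>
        Subtype.ext (Subgroup.mem_center_iff.1 (hF ⟨q, hq, rfl⟩) x).symm)
  have hN2 : IsPGroup 2 N := fun x => by
    obtain ⟨k, hk⟩ := hQ2 ⟨x, hcen x⟩
    exact ⟨k, congrArg Subtype.val hk⟩
  refine ⟨?_, hN2, fun x hx => hF ⟨⟨x, hx⟩, hcen _, rfl⟩⟩
  let S : Sylow 2 G := default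
  obtain ⟨g, hg⟩ := exists_ne_sylow hFT hns S
  have hle : ∀ T : Sylow 2 G, N ≤ (T : Subgroup G) := fun T =>
    (T.is_maximal' (IsPGroup.to_sup_of_normal_right T.2 hN2) le_sup_left).le.trans' le_sup_right
  exact isCyclic_of_le
    (hC S (g • S) fun e => hg (Sylow.smul_eq_iff_mem_normalizer.1 e.symm)) (le_inf (hle _) (hle _))

/-- The previous theorem in the quotient by the odd core. -/
theorem map_solvable_normal (hFT : CfsgLib.OddStep.P0205.{u}) {G : Type u} [Group G] [Finite G]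
    (hns : ¬ Group.IsSolvable G) (hC : CycInt G) (N : Subgroup G) [N.Normal]
    (hN : Group.IsSolvable N) :
    IsCyclic (N.map (QuotientGroup.mk' (Cfsg.oddCore G))) ∧
      IsPGroup 2 (N.map (QuotientGroup.mk' (Cfsg.oddCore G))) ∧
      N.map (QuotientGroup.mk' (Cfsg.oddCore G)) ≤ Subgroup.center (G ⧸ Cfsg.oddCore G) := by
  haveI : Fact (Nat.Prime 2) := ⟨Nat.prime_two⟩
  set O := Cfsg.oddCore G
  set π := QuotientGroup.mk' O
  haveI : Group.IsSolvable O := hFT (Nat.coprime_two_right.1 CfsgLib.Constrained.pPrimeCore_coprime)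
  have hns' : ¬ Group.IsSolvable (G ⧸ O) := fun h =>
    hns ((Group.isSolvable_iff_subgroup_quotient O).mpr ⟨‹_›, h⟩)
  haveI : (N.map π).Normal := (inferInstance : N.Normal).map π (QuotientGroup.mk'_surjective O)
  refine image_solvable_normal hFT (G ⧸ O) hns' (hC.quotient O) (fun M hM hMo => ?_) (N.map π) ?_
  · rw [eq_bot_iff, ← CfsgLib.Constrained.pPrimeCore_quotient_pPrimeCore (G := G) (p := 2)]
    exact CfsgLib.Constrained.le_pPrimeCore hM (Nat.coprime_two_right.2 hMo)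
  · haveI := hN
    exact Group.isSolvable_of_surjective (f := π.subgroupMap N) (π.subgroupMap_surjective N)

end CfsgLib.OddCons.CyclicIntersections
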