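import Cfsg.Agent.OddCons.Basic
import Cfsg.Agent.Solvable.Hall
import Cfsg.Agent.CoprimeHall.Basic
import Cfsg.Agent.S4309
import Cfsg.Prelude.Def_HallClasses

/-!
# Hall subgroups of `π`-separable groups and extension closure of `C_π`

Everything takes the odd order theorem as a hypothesis.
-/

set_option autoImplicit false

open Cfsg

namespace CfsgLib.OddCons.Hall

open Subgroup

universe u

variable {G : Type u} [Group G] [Finite G] {π : Set ℕ}

/-- Existence of a Hall `π`-subgroup, and every `π`-subgroup lies in a conjugate of each. -/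
def DPi (π : Set ℕ) (G : Type u) [Group G] : Prop :=
  (∃ H : Subgroup G, Cfsg.IsPiHall π H) ∧
    ∀ H U : Subgroup G, Cfsg.IsPiHall π H → (∀ p : ℕ, p.Prime → p ∣ Nat.card U → p ∈ π) →
      ∃ g : G, U ≤ H.map (MulAut.conj g).toMonoidHom

omit [Finite G] in
theorem card_conj (H : Subgroup G) (g : G) :
    Nat.card (H.map (MulAut.conj g).toMonoidHom) = Nat.card H :=
  Nat.card_congr (H.equivMapOfInjective _ (MulAut.conj g).injective).symm.toEquiv

theorem isPiHall_conj {H : Subgroup G} (hH : Cfsg.IsPiHall π H) (g : G) :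
    Cfsg.IsPiHall π (H.map (MulAut.conj g).toMonoidHom) := by
  refine ⟨by rw [card_conj]; exact hH.1, ?_⟩
  rw [Subgroup.index_map_of_bijective (f := (MulAut.conj g).toMonoidHom) (MulAut.conj g).bijective H]
  exact hH.2

theorem card_hall_dvd {H K : Subgroup G} (hH : Cfsg.IsPiHall π H) (hK : Cfsg.IsPiHall π K) :
    Nat.card H ∣ Nat.card K := by
  have h : Nat.card H ∣ Nat.card K * K.index := by
    rw [Subgroup.card_mul_index]; exact Subgroup.card_subgroup_dvd_card H
  exact (Solvable.coprime_of_pi hH.1 hK.2).dvd_of_dvd_mul_right h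

theorem DPi.conj (hD : DPi π G) {H K : Subgroup G} (hH : Cfsg.IsPiHall π H)
    (hK : Cfsg.IsPiHall π K) : ∃ g : G, K = H.map (MulAut.conj g).toMonoidHom := by
  obtain ⟨g, hg⟩ := hD.2 H K hH hK.1
  exact ⟨g, Subgroup.eq_of_le_of_card_ge hg
    (Nat.le_of_dvd Nat.card_pos (by rw [card_conj]; exact card_hall_dvd hH hK))⟩

theorem dPi_of_pi_group (h : ∀ p : ℕ, p.Prime → p ∣ Nat.card G → p ∈ π) : DPi π G := by
  refine ⟨⟨⊤, by rwa [Subgroup.card_top], fun p hp _ hd => ?_⟩, fun H U hH _ => ⟨1, ?_⟩⟩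
  · rw [Subgroup.index_top, Nat.dvd_one] at hd
    exact hp.ne_one hd
  · have h1 : H.index = 1 := by
      by_contra h1
      obtain ⟨p, hp, hd⟩ := Nat.exists_prime_and_dvd h1
      exact hH.2 p hp (h p hp (hd.trans H.index_dvd_card)) hd
    intro x _
    simp [Subgroup.index_eq_one.1 h1]

theorem pi_sup_of_normal {H A : Subgroup G} [A.Normal]
    (hH : ∀ p : ℕ, p.Prime → p ∣ Nat.card H → p ∈ π)
    (hA : ∀ p : ℕ, p.Prime → p ∣ Nat.card A → p ∈ π) :
    ∀ p : ℕ, p.Prime → p ∣ Nat.card (H ⊔ A : Subgroup G) → p ∈ π := by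
  intro p hp hd
  have h1 := Solvable.card_map_mk'_mul A (le_sup_right : A ≤ H ⊔ A)
  rw [Subgroup.map_sup, QuotientGroup.map_mk'_self, sup_bot_eq] at h1
  rw [← h1] at hd
  rcases hp.dvd_mul.1 hd with h | h
  · exact hH p hp (h.trans (Subgroup.card_map_dvd H _))
  · exact hA p hp h

/-- Extension by a normal `π`-subgroup. -/
theorem dPi_of_normal_pi (A : Subgroup G) [A.Normal]
    (hA : ∀ p : ℕ, p.Prime → p ∣ Nat.card A → p ∈ π) (hQ : DPi π (G ⧸ A)) : DPi π G := by
  set f := QuotientGroup.mk' A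
  obtain ⟨K, hK⟩ := hQ.1
  have hidx : ∀ X : Subgroup (G ⧸ A), (X.comap f).index = X.index := fun X =>
    Subgroup.index_comap_of_surjective X (QuotientGroup.mk'_surjective A)
  refine ⟨⟨K.comap f, fun p hp hd => ?_, by rw [hidx]; exact hK.2⟩, fun H U hH hU => ?_⟩
  · have h1 := Solvable.card_map_mk'_mul A (QuotientGroup.le_comap_mk' A K)
    rw [Subgroup.map_comap_eq_self_of_surjective (QuotientGroup.mk'_surjective A)] at h1
    rw [← h1] at hd
    exact (hp.dvd_mul.1 hd).elim (hK.1 p hp) (hA p hp)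
  · -- `A ≤ H`
    have hAH : A ≤ H := by
      have h1 : Nat.card (H ⊔ A : Subgroup G) ∣ Nat.card H * H.index := by
        rw [Subgroup.card_mul_index]; exact Subgroup.card_subgroup_dvd_card _
      have h2 := (Solvable.coprime_of_pi (pi_sup_of_normal hH.1 hA) hH.2).dvd_of_dvd_mul_right h1
      rw [Subgroup.eq_of_le_of_card_ge (le_sup_left : H ≤ H ⊔ A) (Nat.le_of_dvd Nat.card_pos h2)]
      exact le_sup_right
    have hHq : Cfsg.IsPiHall π (H.map f) := (Cfsg.Agent.S4309.result π H A hH).2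
    obtain ⟨x, hx⟩ := hQ.2 (H.map f) (U.map f) hHq
      (fun p hp hd => hU p hp (hd.trans (Subgroup.card_map_dvd U f)))
    obtain ⟨g, rfl⟩ := QuotientGroup.mk'_surjective A x
    refine ⟨g, ?_⟩
    have he : (H.map f).map (MulAut.conj (f g)).toMonoidHom =
        (H.map (MulAut.conj g).toMonoidHom).map f := by
      rw [Subgroup.map_map, Subgroup.map_map]
      congr 1
    rw [he] at hx
    have h2 := Subgroup.map_le_iff_le_comap.1 hx
    rw [Subgroup.comap_map_eq, QuotientGroup.ker_mk'] at h2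
    refine h2.trans (sup_le le_rfl ?_)
    intro a ha
    exact ⟨g⁻¹ * a * g, hAH (by simpa using (‹A.Normal›).conj_mem a ha g⁻¹), by simp [mul_assoc]⟩

/-- Extension by a normal `π'`-subgroup. -/
theorem dPi_of_normal_pi' (hFT : CfsgLib.OddStep.P0205.{u}) (A : Subgroup G) [A.Normal]
    (hA : ∀ p : ℕ, p.Prime → p ∣ Nat.card A → p ∉ π) (hQ : DPi π (G ⧸ A)) : DPi π G := by
  set f := QuotientGroup.mk' A
  obtain ⟨K, hK⟩ := hQ.1
  refine ⟨?_, fun H U hH hU => ?_⟩
  · set L := K.comap f
    have hAL : A ≤ L := QuotientGroup.le_comap_mk' A K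
    have hLc := Solvable.card_map_mk'_mul A hAL
    rw [Subgroup.map_comap_eq_self_of_surjective (QuotientGroup.mk'_surjective A)] at hLc
    have hAc : Nat.card (A.subgroupOf L) = Nat.card A :=
      Nat.card_congr (Subgroup.subgroupOfEquivOfLe hAL).toEquiv
    have hi : (A.subgroupOf L).index = Nat.card K := by
      have h1 := (A.subgroupOf L).index_mul_card
      rw [hAc, ← hLc] at h1
      exact Nat.eq_of_mul_eq_mul_right Nat.card_pos h1
    obtain ⟨C, hC⟩ := Subgroup.exists_right_complement'_of_coprime (N := A.subgroupOf L)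
      (by rw [hAc, hi]; exact Nat.coprime_of_dvd fun p hp h h' => hA p hp h (hK.1 p hp h'))
    have hCc : Nat.card (C.map L.subtype) = Nat.card K := by
      rw [← hi, hC.symm.index_eq_card]
      exact Nat.card_congr (C.equivMapOfInjective _ L.subtype_injective).symm.toEquiv
    refine ⟨C.map L.subtype, by rw [hCc]; exact hK.1, fun p hp hpπ hd => ?_⟩
    rw [Subgroup.index_map_subtype, hC.index_eq_card, hAc] at hd
    rcases hp.dvd_mul.1 hd with h | h
    · exact hA p hp h hpπ
    · rw [show L.index = K.index from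
        Subgroup.index_comap_of_surjective K (QuotientGroup.mk'_surjective A)] at h
      exact hK.2 p hp hpπ h
  · have hHq : Cfsg.IsPiHall π (H.map f) := (Cfsg.Agent.S4309.result π H A hH).2
    obtain ⟨x, hx⟩ := hQ.2 (H.map f) (U.map f) hHq
      (fun p hp hd => hU p hp (hd.trans (Subgroup.card_map_dvd U f)))
    obtain ⟨g, rfl⟩ := QuotientGroup.mk'_surjective A x
    set H' := H.map (MulAut.conj g).toMonoidHom
    have he : (H.map f).map (MulAut.conj (f g)).toMonoidHom = H'.map f := by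
      rw [Subgroup.map_map, Subgroup.map_map]
      congr 1
    rw [he] at hx
    have h2 := Subgroup.map_le_iff_le_comap.1 hx
    rw [Subgroup.comap_map_eq, QuotientGroup.ker_mk'] at h2
    -- both `U` and `H' ⊓ (U ⊔ A)` complement `A` in `U ⊔ A`
    set M := U ⊔ A
    set C := H' ⊓ M
    have hCA : C ⊔ A = M := by
      refine le_antisymm (sup_le inf_le_right le_sup_right) ?_
      intro y hy
      have hy' : y ∈ H' ⊔ A := (sup_le h2 le_sup_right : M ≤ _) hy
      rw [← SetLike.mem_coe, Subgroup.mul_normal] at hy'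
      obtain ⟨a, ha, b, hb, rfl⟩ := Set.mem_mul.1 hy'
      refine Subgroup.mul_mem_sup ⟨ha, ?_⟩ hb
      simpa using mul_mem hy (inv_mem (Subgroup.mem_sup_right hb : b ∈ M))
    have hH'π : ∀ p : ℕ, p.Prime → p ∣ Nat.card C → p ∈ π := fun p hp hd =>
      hH.1 p hp ((hd.trans (Subgroup.card_dvd_of_le inf_le_left)).trans (card_conj H g).dvd)
    have hcompl : ∀ V : Subgroup G, V ⊔ A = M → (∀ p : ℕ, p.Prime → p ∣ Nat.card V → p ∈ π) →
        Subgroup.IsComplement' (A.subgroupOf M) (V.subgroupOf M) := by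
      intro V hV hVπ
      have hVM : V ≤ M := hV ▸ le_sup_left
      apply Subgroup.isComplement'_of_disjoint_and_mul_eq_univ
      · rw [disjoint_iff, eq_bot_iff]
        rintro y ⟨hy1, hy2⟩
        have h1 : orderOf (y : G) ∣ Nat.card A := by
          rw [← Subgroup.orderOf_mk (y : G) hy1]; exact orderOf_dvd_natCard _
        have h3 : orderOf (y : G) ∣ Nat.card V := by
          rw [← Subgroup.orderOf_mk (y : G) hy2]; exact orderOf_dvd_natCard _
        refine Subtype.ext (orderOf_eq_one_iff.1 (Nat.dvd_one.1 ?_))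
        rw [← Nat.Coprime.gcd_eq_one (Nat.coprime_of_dvd fun p hp hpa hpv =>
          hA p hp hpa (hVπ p hp hpv) : (Nat.card A).Coprime (Nat.card V))]
        exact Nat.dvd_gcd h1 h3
      · refine Set.eq_univ_of_forall fun y => ?_
        have hy : (y : G) ∈ A ⊔ V := by rw [sup_comm, hV]; exact y.2
        rw [← SetLike.mem_coe, Subgroup.normal_mul] at hy
        obtain ⟨a, ha, b, hb, hab⟩ := Set.mem_mul.1 hy
        exact Set.mem_mul.2 ⟨⟨a, Subgroup.mem_sup_right ha⟩, ha, ⟨b, hVM hb⟩, hb, Subtype.ext hab⟩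
    have hcU := hcompl U rfl hU
    have hcC := hcompl C hCA hH'π
    have hcopM : (Nat.card (A.subgroupOf M)).Coprime (A.subgroupOf M).index := by
      rw [hcU.symm.index_eq_card]
      refine Nat.coprime_of_dvd fun p hp h h' => ?_
      rw [Nat.card_congr (Subgroup.subgroupOfEquivOfLe (le_sup_right : A ≤ M)).toEquiv] at h
      rw [Nat.card_congr (Subgroup.subgroupOfEquivOfLe (le_sup_left : U ≤ M)).toEquiv] at h'
      exact hA p hp h (hU p hp h')
    obtain ⟨m, hm⟩ := Basic.complement_conj hFT (A.subgroupOf M) hcopM _ _ hcC hcU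
    refine ⟨(m : G) * g, fun y hy => ?_⟩
    have hy' : (⟨y, Subgroup.mem_sup_left hy⟩ : M) ∈ U.subgroupOf M := hy
    rw [← hm] at hy'
    obtain ⟨c, hc, hce⟩ := (Subgroup.mem_smul_pointwise_iff_exists _ _ _).1 hy'
    obtain ⟨h, hh, hhe⟩ := (hc : (c : G) ∈ C).1
    refine ⟨h, hh, ?_⟩
    have h3 : (m : G) * (c : G) * (m : G)⁻¹ = y := congrArg Subtype.val hce
    rw [← h3, show (c : G) = _ from hhe.symm]
    simp [mul_assoc]

theorem relIndex_map_dvd {G' : Type u} [Group G'] (f : G →* G') {H K : Subgroup G} (hle : H ≤ K) :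
    (H.map f).relIndex (K.map f) ∣ H.relIndex K := by
  rw [Subgroup.relIndex, Subgroup.relIndex]
  have h : (H.map f).subgroupOf (K.map f) = (H.subgroupOf K).map (f.subgroupMap K) := by
    ext y
    constructor
    · rintro ⟨h, hh, he⟩
      exact ⟨⟨h, hle hh⟩, hh, Subtype.ext he⟩
    · rintro ⟨k, hk, rfl⟩
      exact ⟨k, hk, rfl⟩
  rw [h]
  exact Subgroup.index_map_dvd _ (f.subgroupMap_surjective K)

/-- Hall's theorems for `π`-separable groups. -/
theorem dPi_of_separable (hFT : CfsgLib.OddStep.P0205.{u}) (n : ℕ) :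
    ∀ (G : Type u) [Group G] [Finite G] (H : Fin (n + 1) → Subgroup G), H 0 = ⊥ →
      H (Fin.last n) = ⊤ → Monotone H → (∀ i, (H i).Normal) →
      (∀ i : Fin n, (∀ q : ℕ, q.Prime → q ∣ (H i.castSucc).relIndex (H i.succ) → q ∈ π) ∨
        (∀ q : ℕ, q.Prime → q ∣ (H i.castSucc).relIndex (H i.succ) → q ∉ π)) → DPi π G := by
  induction n with
  | zero =>
    intro G _ _ H h0 h1 _ _ _
    refine dPi_of_pi_group fun p hp hd => ?_
    have hbt : (⊥ : Subgroup G) = ⊤ := by rw [← h0, ← h1]; rfl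
    rw [← Subgroup.card_top (G := G), ← hbt, Subgroup.card_bot, Nat.dvd_one] at hd
    exact absurd hd hp.ne_one
  | succ n ih =>
    intro G _ _ H h0 h1 hmono hn hstep
    haveI := hn 1
    set f := QuotientGroup.mk' (H 1)
    have hQ : DPi π (G ⧸ H 1) := by
      refine ih (G ⧸ H 1) (fun i => (H i.succ).map f) ?_ ?_ ?_
        (fun i => (hn _).map f (QuotientGroup.mk'_surjective _)) ?_
      · exact QuotientGroup.map_mk'_self (H 1)
      · show (H (Fin.last n).succ).map f = ⊤
        rw [Fin.succ_last, h1, Subgroup.map_top_of_surjective f (QuotientGroup.mk'_surjective _)]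
      · exact fun a b hab => Subgroup.map_mono (hmono (Fin.succ_le_succ_iff.2 hab))
      · intro i
        have hd := relIndex_map_dvd f (hmono (Fin.succ_le_succ_iff.2 (Fin.castSucc_le_succ i)))
        rcases hstep i.succ with h | h
        · exact Or.inl fun q hq hqd => h q hq (hqd.trans (by rw [← Fin.succ_castSucc]; exact hd))
        · exact Or.inr fun q hq hqd => h q hq (hqd.trans (by rw [← Fin.succ_castSucc]; exact hd))
    have hA : (H (0 : Fin (n + 1)).castSucc).relIndex (H (0 : Fin (n + 1)).succ) = Nat.card (H 1) := by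
      rw [Fin.castSucc_zero, h0, Subgroup.relIndex_bot_left]; rfl
    have h00 := hstep 0
    rw [hA] at h00
    rcases h00 with h | h
    · exact dPi_of_normal_pi (H 1) h hQ
    · exact dPi_of_normal_pi' hFT (H 1) h hQ

/-- S1908, from the odd order theorem. -/
theorem piSeparable_hall (hFT : CfsgLib.OddStep.P0205.{u}) (π : Set ℕ)
    (hsep : ∃ (n : ℕ) (H : Fin (n + 1) → Subgroup G), H 0 = ⊥ ∧ H (Fin.last n) = ⊤ ∧ Monotone H ∧
      (∀ i, (H i).Normal) ∧ ∀ i : Fin n,
        (∀ q : ℕ, q.Prime → q ∣ (H i.castSucc).relIndex (H i.succ) → q ∈ π) ∨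
        (∀ q : ℕ, q.Prime → q ∣ (H i.castSucc).relIndex (H i.succ) → q ∉ π)) :
    (∃ K : Subgroup G, Cfsg.IsPiHall π K) ∧
      (∀ K L : Subgroup G, Cfsg.IsPiHall π K → Cfsg.IsPiHall π L →
        ∃ g : G, L = K.map (MulAut.conj g).toMonoidHom) ∧
      ∀ U : Subgroup G, (∀ q : ℕ, q.Prime → q ∣ Nat.card U → q ∈ π) →
        ∃ K : Subgroup G, Cfsg.IsPiHall π K ∧ U ≤ K := by
  obtain ⟨n, H, h0, h1, hm, hn, hs⟩ := hsep
  have hD := dPi_of_separable hFT n G H h0 h1 hm hn hs
  refine ⟨hD.1, fun K L hK hL => hD.conj hK hL, fun U hU => ?_⟩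
  obtain ⟨K, hK⟩ := hD.1
  obtain ⟨g, hg⟩ := hD.2 K U hK hU
  exact ⟨_, isPiHall_conj hK g, hg⟩

/-- `π`-subgroup, `π'`-section, `π`-quotient. -/
theorem dPi_normalizer_setting (hFT : CfsgLib.OddStep.P0205.{u}) (B C : Subgroup G) [B.Normal]
    [C.Normal] (hBC : B ≤ C) (hB : ∀ p : ℕ, p.Prime → p ∣ Nat.card B → p ∈ π)
    (hC : ∀ p : ℕ, p.Prime → p ∣ B.relIndex C → p ∉ π)
    (hG : ∀ p : ℕ, p.Prime → p ∣ C.index → p ∈ π) : DPi π G := by
  refine dPi_of_separable hFT 3 G ![⊥, B, C, ⊤] rfl rfl ?_ ?_ ?_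
  · rw [Fin.monotone_iff_le_succ]
    intro i
    fin_cases i
    · exact bot_le
    · exact hBC
    · exact le_top
  · intro i
    fin_cases i
    · exact (inferInstance : (⊥ : Subgroup G).Normal)
    · exact ‹B.Normal›
    · exact ‹C.Normal›
    · exact (inferInstance : (⊤ : Subgroup G).Normal)
  · intro i
    fin_cases i
    · exact Or.inl fun q hq hd => hB q hq (by rwa [← Subgroup.relIndex_bot_left])
    · exact Or.inr hC
    · exact Or.inl fun q hq hd => hG q hq (by rwa [← Subgroup.relIndex_top_right])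

theorem relIndex_dvd_of_normal (A : Subgroup G) [A.Normal] {K L : Subgroup G} (h : K ≤ L) :
    A.relIndex K ∣ A.relIndex L := by
  have hA : (A.subgroupOf L).Normal := inferInstance
  have := Subgroup.relIndex_dvd_index_of_normal (A.subgroupOf L) (K.subgroupOf L)
  rwa [Subgroup.relIndex_subgroupOf h] at this

/-- In the normalizer of a Hall subgroup of `A`, inside the preimage of a `π`-subgroup of `G/A`. -/
theorem dPi_normalizer (hFT : CfsgLib.OddStep.P0205.{u}) (A B X : Subgroup G) [A.Normal]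
    (hBA : B ≤ A) (hAX : A ≤ X) (hB : Cfsg.IsPiHall π (B.subgroupOf A))
    (hX : ∀ p : ℕ, p.Prime → p ∣ A.relIndex X → p ∈ π) :
    DPi π ↥(X ⊓ Subgroup.normalizer (B : Set G)) := by
  set N := X ⊓ Subgroup.normalizer (B : Set G)
  have hBN : B ≤ N := le_inf (hBA.trans hAX) Subgroup.le_normalizer
  haveI : (B.subgroupOf N).Normal := Subgroup.normal_subgroupOf_of_le_normalizer inf_le_right
  refine dPi_normalizer_setting hFT (B.subgroupOf N) (A.subgroupOf N) ?_ ?_ ?_ ?_
  · intro y hy; exact hBA hy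
  · intro p hp hd
    rw [Nat.card_congr (Subgroup.subgroupOfEquivOfLe hBN).toEquiv,
      ← Nat.card_congr (Subgroup.subgroupOfEquivOfLe hBA).toEquiv] at hd
    exact hB.1 p hp hd
  · intro p hp hd hpπ
    refine hB.2 p hp hpπ (hd.trans ?_)
    have h1 : (B.subgroupOf N).relIndex (A.subgroupOf N) = B.relIndex (A ⊓ N) := by
      rw [← Subgroup.inf_subgroupOf_right A N, Subgroup.relIndex_subgroupOf inf_le_right]
    rw [h1]
    exact Dvd.intro _ (Subgroup.relIndex_mul_relIndex B (A ⊓ N) A (le_inf hBA hBN) inf_le_left)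
  · intro p hp hd
    exact hX p hp (hd.trans (relIndex_dvd_of_normal A inf_le_left))

/-- S4310, from the odd order theorem. -/
theorem isCPiGroup_extension (hFT : CfsgLib.OddStep.P0205.{u}) (π : Set ℕ) (A : Subgroup G)
    [A.Normal] (hA : Cfsg.IsCPiGroup π ↥A) (hQ : Cfsg.IsCPiGroup π (G ⧸ A)) :
    Cfsg.IsCPiGroup π G := by
  set f := QuotientGroup.mk' A
  obtain ⟨⟨B₀, hB₀⟩, hAconj⟩ := hA
  obtain ⟨⟨K, hK⟩, hQconj⟩ := hQ
  set B := B₀.map A.subtype
  have hBA : B ≤ A := Subgroup.map_subtype_le B₀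
  have hB : B.subgroupOf A = B₀ := Subgroup.comap_map_eq_self_of_injective A.subtype_injective B₀
  refine ⟨?_, fun H₁ H₂ h₁ h₂ => ?_⟩
  · set X := K.comap f
    have hAX : A ≤ X := QuotientGroup.le_comap_mk' A K
    have hrel : A.relIndex X = Nat.card K := by
      have h := Subgroup.relIndex_comap ⊥ f X
      rw [MonoidHom.comap_bot, QuotientGroup.ker_mk',
        Subgroup.map_comap_eq_self_of_surjective (QuotientGroup.mk'_surjective A),
        Subgroup.relIndex_bot_left] at h
      exact h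
    set N := X ⊓ Subgroup.normalizer (B : Set G)
    obtain ⟨⟨L, hL⟩, -⟩ := dPi_normalizer hFT A B X hBA hAX (hB ▸ hB₀) (hrel ▸ hK.1)
    refine ⟨L.map N.subtype, ?_, ?_⟩
    · rw [Nat.card_congr (L.equivMapOfInjective _ N.subtype_injective).symm.toEquiv]; exact hL.1
    · intro p hp hpπ hd
      rw [Subgroup.index_map_subtype] at hd
      rcases hp.dvd_mul.1 hd with h | h
      · exact hL.2 p hp hpπ h
      rw [← Subgroup.relIndex_mul_index (inf_le_left : N ≤ X)] at h
      rcases hp.dvd_mul.1 h with h | h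
      · -- Frattini: `|X : N|` divides `|A : B|`
        refine hB₀.2 p hp hpπ (h.trans ?_)
        have hXN : X = A ⊔ N := by
          refine le_antisymm (fun x hx => ?_) (sup_le hAX inf_le_left)
          have hBx : B.map (MulAut.conj x).toMonoidHom ≤ A := by
            rintro _ ⟨b, hb, rfl⟩
            exact (‹A.Normal›).conj_mem b (hBA hb) x
          have hhall : Cfsg.IsPiHall π ((B.map (MulAut.conj x).toMonoidHom).subgroupOf A) := by
            have hc : Nat.card ((B.map (MulAut.conj x).toMonoidHom).subgroupOf A) = Nat.card B₀ := by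
              rw [Nat.card_congr (Subgroup.subgroupOfEquivOfLe hBx).toEquiv, card_conj,
                Nat.card_congr (B₀.equivMapOfInjective _ A.subtype_injective).symm.toEquiv]
            refine ⟨hc ▸ hB₀.1, fun q hq hqπ hqd => hB₀.2 q hq hqπ ?_⟩
            have e1 := ((B.map (MulAut.conj x).toMonoidHom).subgroupOf A).card_mul_index
            rw [hc, ← B₀.card_mul_index] at e1
            rwa [Nat.eq_of_mul_eq_mul_left Nat.card_pos e1] at hqd
          obtain ⟨a, ha⟩ := hAconj _ _ hB₀ hhall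
          have hmem : (a : G)⁻¹ * x ∈ N := by
            refine Subgroup.mem_inf.2 ⟨mul_mem (inv_mem (hAX a.2)) hx, ?_⟩
            rw [Subgroup.mem_normalizer_iff_map_conj_eq]
            have e : B.map (MulAut.conj x).toMonoidHom = B.map (MulAut.conj (a : G)).toMonoidHom := by
              rw [← Subgroup.map_subgroupOf_eq_of_le hBx, ha, Subgroup.map_map, Subgroup.map_map]
              rfl
            calc B.map (MulAut.conj ((a : G)⁻¹ * x)).toMonoidHom
                = (B.map (MulAut.conj x).toMonoidHom).map (MulAut.conj (a : G)⁻¹).toMonoidHom := by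
                  simp only [B, Subgroup.map_map]; exact congrArg (fun φ => Subgroup.map φ B₀) (MonoidHom.ext fun y => by simp [mul_assoc])
              _ = B := by
                  rw [e, Subgroup.map_map]
                  conv_rhs => rw [← Subgroup.map_id B]
                  congr 1; ext y; simp [mul_assoc]
          have := Subgroup.mul_mem_sup a.2 hmem
          rwa [mul_inv_cancel_left] at this
        have h2 : N.relIndex X = N.relIndex A := by
          rw [hXN, sup_comm, CfsgLib.CoprimeHall.relIndex_sup_eq_left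
            (le_of_le_of_eq le_top (Subgroup.normalizer_eq_top A).symm)]
        rw [h2, ← hB]
        exact Subgroup.relIndex_dvd_of_le_left A (le_inf (hBA.trans hAX) Subgroup.le_normalizer)
      · rw [show X.index = K.index from
          Subgroup.index_comap_of_surjective K (QuotientGroup.mk'_surjective A)] at h
        exact hK.2 p hp hpπ h
  · -- conjugacy
    obtain ⟨x, hx⟩ := hQconj _ _ (Cfsg.Agent.S4309.result π H₁ A h₁).2
      (Cfsg.Agent.S4309.result π H₂ A h₂).2
    obtain ⟨g, rfl⟩ := QuotientGroup.mk'_surjective A x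
    set H₁' := H₁.map (MulAut.conj g).toMonoidHom
    have h₁' := isPiHall_conj h₁ g
    have hf : H₁'.map f = H₂.map f := by
      rw [hx, Subgroup.map_map, Subgroup.map_map]
      congr 1
    obtain ⟨a, ha⟩ := hAconj _ _ (Cfsg.Agent.S4309.result π H₁' A h₁').1
      (Cfsg.Agent.S4309.result π H₂ A h₂).1
    set H₁'' := H₁'.map (MulAut.conj (a : G)).toMonoidHom
    have h₁'' := isPiHall_conj h₁' (a : G)
    have hfa : H₁''.map f = H₂.map f := by
      rw [← hf, Subgroup.map_map]
      congr 1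
      ext y
      simp [f, (QuotientGroup.eq_one_iff (a : G)).2 a.2]
    have hinf : H₁'' ⊓ A = H₂ ⊓ A := by
      have e1 := congrArg (fun L : Subgroup A => L.map A.subtype) ha
      simp only [Subgroup.map_map] at e1
      rw [Subgroup.map_subgroupOf_eq_of_le inf_le_right] at e1
      rw [e1]
      ext y
      constructor
      · rintro ⟨⟨z, hz, rfl⟩, hy⟩
        have hzA : z ∈ A := by
          have := (‹A.Normal›).conj_mem _ hy (a : G)⁻¹
          simpa [mul_assoc] using this
        exact ⟨⟨z, hzA⟩, ⟨hz, hzA⟩, rfl⟩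
      · rintro ⟨⟨z, hzA⟩, hz, rfl⟩
        exact ⟨⟨z, hz.1, rfl⟩, (‹A.Normal›).conj_mem z hzA a⟩
    set X := (H₂.map f).comap f
    have hAX : A ≤ X := QuotientGroup.le_comap_mk' A _
    set B' := H₂ ⊓ A
    set N := X ⊓ Subgroup.normalizer (B' : Set G)
    have hin : ∀ H : Subgroup G, H.map f = H₂.map f → H ⊓ A = B' → H ≤ N := fun H e1 e2 =>
      le_inf (by rw [← Subgroup.map_le_iff_le_comap, e1]) (by
        rw [← e2]
        intro h (hh : h ∈ H)
        rw [Subgroup.mem_normalizer_iff]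
        intro y
        constructor
        · rintro ⟨hy1, hy2⟩
          exact ⟨H.mul_mem (H.mul_mem hh hy1) (H.inv_mem hh), (‹A.Normal›).conj_mem y hy2 h⟩
        · rintro ⟨hy1, hy2⟩
          refine Subgroup.mem_inf.2 ⟨?_, ?_⟩
          · simpa [mul_assoc] using H.mul_mem (H.mul_mem (H.inv_mem hh) hy1) hh
          · simpa [mul_assoc] using (‹A.Normal›).conj_mem _ hy2 h⁻¹)
    have hrel : A.relIndex X = Nat.card (H₂.map f) := by
      have h := Subgroup.relIndex_comap ⊥ f X
      rw [MonoidHom.comap_bot, QuotientGroup.ker_mk',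
        Subgroup.map_comap_eq_self_of_surjective (QuotientGroup.mk'_surjective A),
        Subgroup.relIndex_bot_left] at h
      exact h
    have hD : DPi π N := dPi_normalizer hFT A B' X inf_le_right hAX
      (Cfsg.Agent.S4309.result π H₂ A h₂).1 (hrel ▸ (Cfsg.Agent.S4309.result π H₂ A h₂).2.1)
    have hsub : ∀ H : Subgroup G, Cfsg.IsPiHall π H → H ≤ N → Cfsg.IsPiHall π (H.subgroupOf N) :=
      fun H hH hle => ⟨by
        rw [Nat.card_congr (Subgroup.subgroupOfEquivOfLe hle).toEquiv]; exact hH.1,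
        fun p hp hpπ hd => hH.2 p hp hpπ (hd.trans (Subgroup.relIndex_dvd_index_of_le hle))⟩
    have hle₁ := hin H₁'' hfa hinf
    have hle₂ := hin H₂ rfl rfl
    obtain ⟨n, hn⟩ := hD.conj (hsub _ h₁'' hle₁) (hsub _ h₂ hle₂)
    refine ⟨(n : G) * (a : G) * g, ?_⟩
    have e2 := congrArg (fun L : Subgroup N => L.map N.subtype) hn
    simp only [Subgroup.map_map] at e2
    rw [Subgroup.map_subgroupOf_eq_of_le hle₂] at e2
    rw [e2]
    ext y
    constructor
    · rintro ⟨z, hz, rfl⟩
      obtain ⟨v, hv, hve⟩ := Subgroup.mem_map.1 (Subgroup.mem_subgroupOf.1 hz)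
      refine ⟨v, hv, ?_⟩
      show _ = (n : G) * (z : G) * (n : G)⁻¹
      rw [← hve]
      simp [mul_assoc]
    · rintro ⟨v, hv, rfl⟩
      have hv' : (a : G) * (g * v * g⁻¹) * (a : G)⁻¹ ∈ H₁'' :=
        Subgroup.mem_map_of_mem _ (Subgroup.mem_map_of_mem _ hv)
      refine ⟨⟨_, hle₁ hv'⟩, Subgroup.mem_map.2 ⟨v, hv, ?_⟩, ?_⟩
      · simp [mul_assoc]
      · simp [mul_assoc]

end CfsgLib.OddCons.Hall
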