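import Cfsg.Agent.OddCons.Basic
import Cfsg.Agent.BaerSuzuki.Basic
import Cfsg.Agent.Constrained.Basic
import Cfsg.Agent.ClassSizes.ConjRange

/-!
# Inverted elements in non-solvable groups

A finite group without a `2`-element inverting an element of odd prime order is solvable, given
the odd order theorem.
-/

set_option autoImplicit false

open Cfsg

namespace CfsgLib.OddCons.Inverted

universe u

variable {G : Type u} [Group G] [Finite G]

/-- A finite non-solvable group has an element of odd prime order inverted by a `2`-element. -/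
theorem exists_inverted (hFT : CfsgLib.OddStep.P0205.{u}) (h : ¬ Group.IsSolvable G) :
    ∃ (p : ℕ) (x s : G), p.Prime ∧ p ≠ 2 ∧ orderOf x = p ∧ (∃ k : ℕ, orderOf s = 2 ^ k) ∧
      s * x * s⁻¹ = x⁻¹ := by
  haveI : Fact (Nat.Prime 2) := ⟨Nat.prime_two⟩
  have hOn : (pCore 2 G).Normal := Cfsg.pCore_normal 2 G
  have hOp : IsPGroup 2 (pCore 2 G) := CfsgLib.Constrained.isPGroup_pCore
  have hOs : Group.IsSolvable (pCore 2 G) := by
    haveI := hOp.isNilpotent
    infer_instance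
  have hQns : ¬ Group.IsSolvable (G ⧸ pCore 2 G) := fun hs =>
    h (Basic.isSolvable_of_normal _ hOs hs)
  obtain ⟨t, ht⟩ := Basic.exists_involution hFT hQns
  have htO : t ∉ pCore 2 (G ⧸ pCore 2 G) := by
    rw [CfsgLib.Constrained.pCore_quotient_pCore, Subgroup.mem_bot]
    intro h1
    rw [h1, orderOf_one] at ht
    norm_num at ht
  obtain ⟨y, hy1, hyodd, hty⟩ := BaerSuzuki.involution_inverts_odd ht htO
  obtain ⟨p, hp, hpd⟩ := Nat.exists_prime_and_dvd (fun h1 => hy1 (orderOf_eq_one_iff.1 h1))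
  haveI : Fact p.Prime := ⟨hp⟩
  have hp2 : p ≠ 2 := by
    rintro rfl
    exact Nat.not_even_iff_odd.2 hyodd (even_iff_two_dvd.2 hpd)
  set z := y ^ (orderOf y / p)
  have hz : orderOf z = p := orderOf_pow_orderOf_div (orderOf_pos y).ne' hpd
  have htz : t * z * t⁻¹ = z⁻¹ := by
    rw [← conj_pow, hty, inv_pow]
  set D := (Subgroup.zpowers z).comap (QuotientGroup.mk' (pCore 2 G)) with hD
  obtain ⟨t₀, rfl⟩ := QuotientGroup.mk'_surjective (pCore 2 G) t
  obtain ⟨z₀, hz₀⟩ := QuotientGroup.mk'_surjective (pCore 2 G) z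
  -- an element of order `p` above `z`
  have hpz : p ∣ orderOf z₀ := by
    rw [← hz, ← hz₀]
    exact orderOf_map_dvd _ z₀
  set n := orderOf z₀ / p
  have hx : orderOf (z₀ ^ n) = p := orderOf_pow_orderOf_div (orderOf_pos z₀).ne' hpz
  set x := z₀ ^ n
  have hxD : x ∈ D := ⟨(n : ℤ), show z ^ (n : ℤ) = _ by rw [zpow_natCast, ← hz₀, ← map_pow]⟩
  set X := (Subgroup.zpowers x).subgroupOf D
  have hker : (QuotientGroup.mk' (pCore 2 G)).ker ≤ D := by
    intro g hg
    show (QuotientGroup.mk' (pCore 2 G)) g ∈ Subgroup.zpowers z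
    rw [MonoidHom.mem_ker.1 hg]
    exact one_mem _
  have hDcard : Nat.card D = p * Nat.card (pCore 2 G) := by
    have h1 := Subgroup.relIndex_mul_relIndex ⊥ (pCore 2 G) D bot_le
      ((QuotientGroup.ker_mk' (pCore 2 G)).symm.le.trans hker)
    have h2 : (pCore 2 G).relIndex D = p := by
      have h3 := Subgroup.relIndex_comap ⊥ (QuotientGroup.mk' (pCore 2 G)) D
      rw [MonoidHom.comap_bot, QuotientGroup.ker_mk', hD,
        Subgroup.map_comap_eq_self_of_surjective (QuotientGroup.mk'_surjective _),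
        Subgroup.relIndex_bot_left, Nat.card_zpowers, hz] at h3
      exact h3
    rw [Subgroup.relIndex_bot_left, Subgroup.relIndex_bot_left, h2] at h1
    rw [← h1, mul_comm]
  have hXcard : Nat.card X = p := by
    rw [Nat.card_congr (Subgroup.subgroupOfEquivOfLe (Subgroup.zpowers_le.2 hxD)).toEquiv,
      Nat.card_zpowers, hx]
  have hXidx : ¬ p ∣ X.index := by
    have h1 := X.card_mul_index
    rw [hXcard, hDcard] at h1
    rw [Nat.eq_of_mul_eq_mul_left hp.pos h1]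
    intro hd
    obtain ⟨k, hk⟩ := IsPGroup.iff_card.1 hOp
    rw [hk] at hd
    exact hp2 ((Nat.prime_dvd_prime_iff_eq hp Nat.prime_two).1 (hp.dvd_of_dvd_pow hd))
  have hXp : IsPGroup p X := IsPGroup.of_card (n := 1) (by rw [hXcard, pow_one])
  set P : Sylow p D := hXp.toSylow hXidx
  -- conjugation by `t₀` moves `X` to another Sylow subgroup of `D`
  have htD : ∀ g ∈ D, t₀ * g * t₀⁻¹ ∈ D := by
    intro g hg
    obtain ⟨i, hi⟩ := Subgroup.mem_zpowers_iff.1 (show _ ∈ Subgroup.zpowers z from hg)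
    refine ⟨-i, show z ^ (-i) = _ from ?_⟩
    rw [map_mul, map_mul, map_inv, ← hi, ← conj_zpow, htz, inv_zpow, zpow_neg]
  set X' := (Subgroup.zpowers (t₀ * x * t₀⁻¹)).subgroupOf D
  have hx' : orderOf (t₀ * x * t₀⁻¹) = p := by
    simpa using (MulEquiv.orderOf_eq (MulAut.conj t₀) x).trans hx
  have hX'card : Nat.card X' = p := by
    rw [Nat.card_congr (Subgroup.subgroupOfEquivOfLe (Subgroup.zpowers_le.2 (htD x hxD))).toEquiv,
      Nat.card_zpowers, hx']
  have hX'idx : ¬ p ∣ X'.index := by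
    have h1 := X'.card_mul_index
    have h2 := X.card_mul_index
    rw [hXcard] at h2
    rw [hX'card, ← h2] at h1
    rw [Nat.eq_of_mul_eq_mul_left hp.pos h1]
    exact hXidx
  set Q : Sylow p D := (IsPGroup.of_card (n := 1) (by rw [hX'card, pow_one])).toSylow hX'idx
  obtain ⟨d, hd⟩ := MulAction.exists_smul_eq D Q P
  have hmem : ((d : G) * t₀) * x * ((d : G) * t₀)⁻¹ ∈ Subgroup.zpowers x := by
    have h1 : (⟨t₀ * x * t₀⁻¹, htD x hxD⟩ : D) ∈ (Q : Subgroup D) := Subgroup.mem_zpowers _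
    have h2 : d * ⟨t₀ * x * t₀⁻¹, htD x hxD⟩ * d⁻¹ ∈ ((d • Q : Sylow p D) : Subgroup D) :=
      Subgroup.smul_mem_pointwise_smul _ (MulAut.conj d) _ h1
    rw [hd] at h2
    have h3 : (d : G) * (t₀ * x * t₀⁻¹) * (d : G)⁻¹ ∈ Subgroup.zpowers x := h2
    simpa only [mul_inv_rev, mul_assoc] using h3
  obtain ⟨j, hj⟩ := Subgroup.mem_zpowers_iff.1 (show _ ∈ Subgroup.zpowers z from d.2)
  -- replace `d` by an element of `O_2(G)`
  set u := x ^ (-j) * (d : G) with hu
  have hmx : (QuotientGroup.mk' (pCore 2 G)) x = z ^ n := by rw [map_pow, hz₀]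
  have hcop : IsCoprime (n : ℤ) (p : ℤ) := by
    rw [Int.isCoprime_iff_gcd_eq_one, Int.gcd_natCast_natCast]
    refine (Nat.Coprime.symm ((Nat.Prime.coprime_iff_not_dvd hp).2 ?_)).gcd_eq_one
    intro hpn
    have h1 : (QuotientGroup.mk' (pCore 2 G)) x = 1 := by
      rw [hmx]
      exact orderOf_dvd_iff_pow_eq_one.1 (hz ▸ hpn)
    have h2 : x ∈ pCore 2 G := (QuotientGroup.eq_one_iff x).1 h1
    obtain ⟨k, hk⟩ := hOp ⟨x, h2⟩
    have h3 : orderOf x ∣ 2 ^ k := orderOf_dvd_of_pow_eq_one (congrArg Subtype.val hk)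
    rw [hx] at h3
    exact hp2 ((Nat.prime_dvd_prime_iff_eq hp Nat.prime_two).1 (hp.dvd_of_dvd_pow h3))
  obtain ⟨a, b, hab⟩ := hcop
  set i := a * j
  have hmi : (QuotientGroup.mk' (pCore 2 G)) (x ^ i) = z ^ j := by
    rw [map_zpow, hmx, ← zpow_natCast, ← zpow_mul]
    have : (n : ℤ) * i = j + (p : ℤ) * (-(b * j)) := by linear_combination j * hab
    rw [this, zpow_add, zpow_mul, zpow_natCast, ← hz, pow_orderOf_eq_one, one_zpow, mul_one]
  set s := x ^ (-i) * ((d : G) * t₀) with hs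
  have hms : (QuotientGroup.mk' (pCore 2 G)) s = QuotientGroup.mk' (pCore 2 G) t₀ := by
    rw [hs, map_mul, map_mul, zpow_neg, map_inv, hmi, ← hj, inv_mul_cancel_left]
  refine ⟨p, x, s, hp, hp2, hx, ?_, ?_⟩
  · have h2 : s ^ 2 ∈ pCore 2 G := by
      rw [← QuotientGroup.eq_one_iff, ← QuotientGroup.mk'_apply, map_pow, hms]
      exact orderOf_dvd_iff_pow_eq_one.1 (dvd_of_eq ht)
    obtain ⟨k, hk⟩ := hOp ⟨_, h2⟩
    have h3 : s ^ (2 ^ (k + 1)) = 1 := by
      rw [pow_succ', pow_mul]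
      exact congrArg Subtype.val hk
    obtain ⟨m, -, hm⟩ := (Nat.dvd_prime_pow Nat.prime_two).1 (orderOf_dvd_of_pow_eq_one h3)
    exact ⟨m, hm⟩
  · obtain ⟨e, he⟩ := Subgroup.mem_zpowers_iff.1 hmem
    have h1 : s * x * s⁻¹ = x ^ e := by
      rw [hs, mul_inv_rev]
      calc x ^ (-i) * ((d : G) * t₀) * x * (((d : G) * t₀)⁻¹ * (x ^ (-i))⁻¹)
          = x ^ (-i) * (((d : G) * t₀) * x * ((d : G) * t₀)⁻¹) * (x ^ (-i))⁻¹ := by group
        _ = x ^ (-i) * x ^ e * (x ^ (-i))⁻¹ := by rw [he]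
        _ = x ^ e := by group
    rw [h1]
    have h2 := congrArg (QuotientGroup.mk' (pCore 2 G)) h1
    rw [map_mul, map_mul, map_inv, hms, map_zpow, hmx, ← conj_pow, htz, inv_pow, ← zpow_natCast,
      ← zpow_neg, ← zpow_mul, zpow_eq_zpow_iff_modEq, hz] at h2
    rw [← zpow_neg_one, zpow_eq_zpow_iff_modEq, hx]
    rw [Int.modEq_iff_dvd] at h2 ⊢
    have h4 : (p : ℤ) ∣ (n : ℤ) * (e + 1) := by
      have : (n : ℤ) * e - -(n : ℤ) = (n : ℤ) * (e + 1) := by ring
      rwa [this] at h2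
    have h5 := (IsCoprime.symm ⟨a, b, hab⟩).dvd_of_dvd_mul_left h4
    have : (-1 : ℤ) - e = -(e + 1) := by ring
    rw [this]
    exact h5.neg_right

end CfsgLib.OddCons.Inverted
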