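import Cfsg.Agent.OddCons.Basic
import Cfsg.Agent.OddCons.ClassLemmas
import Cfsg.Agent.ClassSizes.PPrimeCentral
import Cfsg.Agent.BaerSuzuki.Classes
import Cfsg.Agent.PGroup.Normal
import Cfsg.Agent.S0215

/-!
# Groups without class sizes divisible by four

Given the odd order theorem such a group is solvable.
-/

set_option autoImplicit false

open scoped IsMulCommutative

namespace CfsgLib.OddCons.NoFour

universe u

variable {G : Type u} [Group G] [Finite G]

theorem exists_half_sylow (h : ∀ x : G, ¬ 4 ∣ (Subgroup.centralizer ({x} : Set G)).index) (y : G) :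
    ∃ (R : Sylow 2 G) (T : Subgroup G), T ≤ (R : Subgroup G) ∧
      T ≤ Subgroup.centralizer ({y} : Set G) ∧
      (T.relIndex (R : Subgroup G) = 1 ∨ T.relIndex (R : Subgroup G) = 2) := by
  haveI : Fact (Nat.Prime 2) := ⟨Nat.prime_two⟩
  obtain ⟨R, T, hTR, hTC, hrel⟩ := ClassLemmas.exists_sylow_centralizing (p := 2) y
  refine ⟨R, T, hTR, hTC, ?_⟩
  set a := (Subgroup.centralizer ({y} : Set G)).index.factorization 2
  rcases Nat.lt_or_ge a 2 with ha | ha
  · interval_cases a <;> simp [hrel]
  · exact absurd ((pow_dvd_pow 2 ha).trans (Nat.ordProj_dvd _ 2)) (by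
      norm_num; exact h y)

theorem sq_mem {R : Subgroup G} {T : Subgroup G} (hT : T.relIndex R = 1 ∨ T.relIndex R = 2)
    {x : G} (hx : x ∈ R) : x * x ∈ T := by
  rcases hT with h | h
  · exact mul_mem (Subgroup.relIndex_eq_one.1 h hx) (Subgroup.relIndex_eq_one.1 h hx)
  · have := Subgroup.mul_self_mem_of_index_two (H := T.subgroupOf R) h ⟨x, hx⟩
    exact this

theorem conj_cover_contra [IsSimpleGroup G] (hna : ¬ IsMulCommutative G) {z : G} (hz : z ≠ 1)
    (hcov : ∀ y : G, ∃ g : G, g * z * g⁻¹ ∈ Subgroup.centralizer ({y} : Set G)) : False := by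
  have htop : Subgroup.centralizer ({z} : Set G) = ⊤ := by
    refine CfsgLib.ClassSizes.eq_top_of_conj_cover _ fun y => ?_
    obtain ⟨g, hg⟩ := hcov y
    refine ⟨g, ?_⟩
    rw [Subgroup.mem_centralizer_singleton_iff] at hg ⊢
    calc g⁻¹ * y * g * z = g⁻¹ * (y * (g * z * g⁻¹)) * g := by group
      _ = g⁻¹ * (g * z * g⁻¹ * y) * g := by rw [hg]
      _ = z * (g⁻¹ * y * g) := by group
  have hzc : z ∈ Subgroup.center G := Subgroup.mem_center_iff.2 fun y =>
    Subgroup.mem_centralizer_singleton_iff.1 (htop ▸ Subgroup.mem_top y)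
  rcases IsSimpleGroup.eq_bot_or_eq_top_of_normal (Subgroup.center G) inferInstance with h | h
  · exact hz (Subgroup.mem_bot.1 (h ▸ hzc))
  · exact hna ⟨⟨fun a b => (Subgroup.mem_center_iff.1 (h ▸ Subgroup.mem_top b) a)⟩⟩

theorem false_of_not_elementary [IsSimpleGroup G] (hna : ¬ IsMulCommutative G)
    (h : ∀ x : G, ¬ 4 ∣ (Subgroup.centralizer ({x} : Set G)).index) (S : Sylow 2 G) {s : G}
    (hs : s ∈ (S : Subgroup G)) (hs2 : s * s ≠ 1) : False := by
  haveI : Fact (Nat.Prime 2) := ⟨Nat.prime_two⟩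
  set W := Subgroup.closure (Set.range fun a : (S : Subgroup G) => a * a) with hW
  haveI : W.Normal := by
    refine ⟨fun w hw g => ?_⟩
    induction hw using Subgroup.closure_induction with
    | mem a ha =>
      obtain ⟨b, rfl⟩ := ha
      exact Subgroup.subset_closure ⟨g * b * g⁻¹, by group⟩
    | one => rw [mul_one, mul_inv_cancel]; exact one_mem _
    | mul a b _ _ ha hb =>
      have : g * (a * b) * g⁻¹ = g * a * g⁻¹ * (g * b * g⁻¹) := by group
      rw [this]; exact mul_mem ha hb
    | inv a _ ha =>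
      rw [← conj_inv]; exact inv_mem ha
  have hWne : W ≠ ⊥ := by
    intro hb
    have hm : (⟨s, hs⟩ : (S : Subgroup G)) * ⟨s, hs⟩ ∈ W := Subgroup.subset_closure ⟨_, rfl⟩
    rw [hb, Subgroup.mem_bot] at hm
    exact hs2 (congrArg Subtype.val hm)
  obtain ⟨⟨z, hzS⟩, ⟨hzW, hzZ⟩, hz1⟩ := (Subgroup.bot_or_exists_ne_one _).resolve_left
    (CfsgLib.PGroup.inf_center_ne_bot S.isPGroup' W hWne)
  refine conj_cover_contra hna (z := z) (fun e => hz1 (Subtype.ext e)) fun y => ?_
  obtain ⟨R, T, hTR, hTC, hrel⟩ := exists_half_sylow h y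
  obtain ⟨g, hg⟩ := MulAction.exists_smul_eq G S R
  refine ⟨g, hTC ?_⟩
  have key : ∀ w ∈ W, g * (w : G) * g⁻¹ ∈ T := by
    intro w hw
    induction hw using Subgroup.closure_induction with
    | mem a ha =>
      obtain ⟨b, rfl⟩ := ha
      have hb : g * (b : G) * g⁻¹ ∈ (R : Subgroup G) := by
        rw [← hg]
        exact Subgroup.smul_mem_pointwise_smul _ (MulAut.conj g) _ b.2
      have := sq_mem hrel hb
      have e : g * ((b * b : (S : Subgroup G)) : G) * g⁻¹ = g * b * g⁻¹ * (g * b * g⁻¹) := by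
        push_cast; group
      rw [e]; exact this
    | one => simp
    | mul a b _ _ ha hb =>
      have e : g * ((a * b : (S : Subgroup G)) : G) * g⁻¹ = g * a * g⁻¹ * (g * b * g⁻¹) := by
        push_cast; group
      rw [e]; exact mul_mem ha hb
    | inv a _ ha =>
      have e : g * ((a⁻¹ : (S : Subgroup G)) : G) * g⁻¹ = (g * a * g⁻¹)⁻¹ := by
        push_cast; group
      rw [e]; exact inv_mem ha
  exact key _ hzW

theorem false_of_simple (hFT : CfsgLib.OddStep.P0205.{u}) [IsSimpleGroup G]
    (hna : ¬ IsMulCommutative G)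
    (h : ∀ x : G, ¬ 4 ∣ (Subgroup.centralizer ({x} : Set G)).index) : False := by
  haveI : Fact (Nat.Prime 2) := ⟨Nat.prime_two⟩
  have heven := Basic.even_card_of_simple hFT hna
  set S : Sylow 2 G := default
  by_cases hsq : ∃ s ∈ (S : Subgroup G), s * s ≠ 1
  · obtain ⟨s, hs, hs2⟩ := hsq
    exact false_of_not_elementary hna h S hs hs2
  push Not at hsq
  -- `S` is elementary abelian
  haveI hSc : IsMulCommutative (S : Subgroup G) := ⟨⟨fun a b => by
    have h2 : ∀ c : (S : Subgroup G), c⁻¹ = c := fun c =>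
      inv_eq_of_mul_eq_one_right (Subtype.ext (hsq c c.2))
    rw [← h2 (a * b), mul_inv_rev, h2, h2]⟩⟩
  obtain ⟨⟨v, hvS⟩, hv⟩ := exists_prime_orderOf_dvd_card' (G := (S : Subgroup G)) 2
    (S.dvd_card_of_dvd_card heven.two_dvd)
  rw [← Subgroup.orderOf_coe] at hv
  have hv1 : v ≠ 1 := by
    intro e
    simp [e] at hv
  set N := Subgroup.normalizer ((S : Subgroup G) : Set G)
  set S' := (S : Subgroup G).subgroupOf N
  haveI : Fintype (N ⧸ S') := Fintype.ofFinite _
  have hodd : Odd (Fintype.card (N ⧸ S')) := by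
    rw [← Nat.card_eq_fintype_card, ← Subgroup.index_eq_card]
    refine Nat.odd_iff.2 (Nat.two_dvd_ne_zero.1 fun hd => S.not_dvd_index ?_)
    exact hd.trans (Subgroup.relIndex_dvd_index_of_le Subgroup.le_normalizer)
  have hconj : ∀ n : N, (n : G) * v * (n : G)⁻¹ ∈ (S : Subgroup G) := fun n =>
    (Subgroup.mem_normalizer_iff.1 n.2 v).1 hvS
  let c : N ⧸ S' → (S : Subgroup G) := fun q => ⟨_, hconj q.out⟩
  set π := ∏ q, c q
  have hfix : ∀ n : N, (n : G) * (π : G) * (n : G)⁻¹ = π := by
    intro n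
    let f : (S : Subgroup G) →* (S : Subgroup G) :=
      MonoidHom.mk' (fun a => ⟨(n : G) * a * (n : G)⁻¹, (Subgroup.mem_normalizer_iff.1 n.2 a).1 a.2⟩)
        (fun a b => Subtype.ext (by push_cast; group))
    have hf : f π = π := by
      rw [map_prod]
      refine Fintype.prod_equiv (MulAction.toPerm n) _ _ fun q => Subtype.ext ?_
      show (n : G) * ((q.out : G) * v * (q.out : G)⁻¹) * (n : G)⁻¹ =
        ((n • q).out : G) * v * ((n • q).out : G)⁻¹
      have hs : (n * q.out)⁻¹ * (n • q).out ∈ S' := by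
        rw [← QuotientGroup.eq, QuotientGroup.out_eq']
        conv_rhs => rw [← QuotientGroup.out_eq' q]
        rfl
      obtain ⟨k, hk, hks⟩ : ∃ k : N, k ∈ S' ∧ (n • q).out = n * q.out * k :=
        ⟨_, hs, (mul_inv_cancel_left _ _).symm⟩
      rw [hks]
      have hcomm : (k : G) * v = v * (k : G) :=
        congrArg Subtype.val (mul_comm (⟨(k : G), hk⟩ : (S : Subgroup G)) ⟨v, hvS⟩)
      push_cast
      rw [mul_inv_rev, mul_inv_rev]
      calc (n : G) * ((q.out : G) * v * (q.out : G)⁻¹) * (n : G)⁻¹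
          = (n : G) * (q.out : G) * (v * (k : G)) * (k : G)⁻¹ * ((q.out : G)⁻¹ * (n : G)⁻¹) := by group
        _ = (n : G) * (q.out : G) * (k : G) * v * ((k : G)⁻¹ * ((q.out : G)⁻¹ * (n : G)⁻¹)) := by
          rw [← hcomm]; group
    exact congrArg Subtype.val hf
  have hπ1 : (π : G) = 1 := by
    by_contra hne
    have hord : orderOf (π : G) = 2 := orderOf_eq_prime (by rw [pow_two]; exact hsq _ π.2) hne
    obtain ⟨M, hM, hModd, hMc⟩ := Cfsg.Agent.S0215.result S (π : G) hord π.2 (fun g hg => by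
      obtain ⟨n, hn, he⟩ := S.conj_eq_normalizer_conj_of_mem (π : G) g⁻¹ π.2 (by rwa [inv_inv])
      rw [inv_inv] at he
      have := hfix ⟨n⁻¹, inv_mem hn⟩
      simp only [inv_inv] at this
      rw [he, this])
    rcases IsSimpleGroup.eq_bot_or_eq_top_of_normal M hM with h' | h'
    · refine conj_cover_contra hna hne fun y => ⟨1, ?_⟩
      have := hMc y
      rw [h', Subgroup.mem_bot, mul_inv_eq_one, mul_inv_eq_iff_eq_mul] at this
      rw [Subgroup.mem_centralizer_singleton_iff]
      simpa using this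
    · rw [h', Subgroup.card_top] at hModd
      exact Nat.not_even_iff_odd.2 hModd heven
  refine conj_cover_contra hna (z := v) hv1 fun y => ?_
  obtain ⟨R, T, hTR, hTC, hrel⟩ := exists_half_sylow h y
  obtain ⟨g, hg⟩ := MulAction.exists_smul_eq G S R
  by_contra hno
  push Not at hno
  have hgR : ∀ a : (S : Subgroup G), g * (a : G) * g⁻¹ ∈ (R : Subgroup G) := fun a => by
    rw [← hg]
    exact Subgroup.smul_mem_pointwise_smul _ (MulAut.conj g) _ a.2
  set T₀ := T.subgroupOf (R : Subgroup G)
  let e : (S : Subgroup G) →* (R : Subgroup G) :=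
    MonoidHom.mk' (fun a => ⟨g * a * g⁻¹, hgR a⟩) (fun a b => Subtype.ext (by push_cast; group))
  have hout : ∀ q, e (c q) ∉ T₀ := fun q hq => hno (g * (q.out : G)) (hTC (by
    have : g * (q.out : G) * v * (g * (q.out : G))⁻¹ = g * ((q.out : G) * v * (q.out : G)⁻¹) * g⁻¹ := by
      group
    rw [this]; exact hq))
  rcases hrel with hr | hr
  · obtain ⟨q⟩ := (inferInstance : Nonempty (N ⧸ S'))
    exact hout q (Subgroup.relIndex_eq_one.1 hr (e (c q)).2)
  · have hr' : T₀.index = 2 := hr
    have key : ∀ s : Finset (N ⧸ S'), (e (∏ q ∈ s, c q) ∈ T₀ ↔ Even s.card) := by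
      classical
      intro s
      induction s using Finset.induction with
      | empty => simp
      | insert q s hq ih =>
        rw [Finset.prod_insert hq, map_mul, Subgroup.mul_mem_iff_of_index_two hr', ih,
          Finset.card_insert_of_notMem hq, Nat.even_add_one]
        have := hout q
        tauto
    have h1 : e π ∈ T₀ := by
      rw [show π = 1 from Subtype.ext hπ1, map_one]; exact one_mem _
    exact Nat.not_even_iff_odd.2 hodd ((key Finset.univ).1 h1)

/-- S4167, from the odd order theorem. -/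
theorem isSolvable (hFT : CfsgLib.OddStep.P0205.{u}) {G : Type u} [Group G] [Finite G]
    (h : ∀ x : G, ¬ 4 ∣ (Subgroup.centralizer ({x} : Set G)).index) : Group.IsSolvable G := by
  have key := Basic.solvable_induction
    (fun H [Group H] => ∀ x : H, ¬ 4 ∣ (Subgroup.centralizer ({x} : Set H)).index)
    (fun H _ _ N hP hN x hd => hP x (hd.trans (by
      haveI := hN
      exact ClassLemmas.index_centralizer_subgroup_dvd N x)))
    (fun H _ _ N _ hP x hd => by
      obtain ⟨y, rfl⟩ := QuotientGroup.mk'_surjective N x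
      exact hP y (hd.trans (ClassLemmas.index_centralizer_quotient_dvd N y)))
    (fun H _ _ _ hP => by
      by_contra hns
      exact false_of_simple hFT (fun hc => hns (by
        exact Group.isSolvable_of_comm hc.is_comm.comm)) hP)
  exact key G h

end CfsgLib.OddCons.NoFour
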