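import Mathlib
import Cfsg.Prelude.Def_Transfer
import Cfsg.Agent.OddCons.Basic
import Cfsg.Agent.Eq.Def_Transfer
import Cfsg.Agent.Transfer.SmallElements
import Cfsg.Agent.Transfer.NormalPComplement
import Cfsg.Agent.ClassSizes.NotDvdIndex
import Cfsg.Agent.Involutions.RealElements

/-!
# Real classes with equal 2-parts (statement S4193)
-/

set_option autoImplicit false

open Cfsg

namespace CfsgLib.OddCons.RealClassTwoPart

universe u

variable {G : Type u} [Group G] [Finite G]

/-- Real elements of any Sylow 2-subgroup are central in it. -/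
theorem real_central (S : Sylow 2 G)
    (hS : ∀ s : ↥(S : Subgroup G), IsConj s s⁻¹ → s ∈ Subgroup.center ↥(S : Subgroup G))
    (S' : Sylow 2 G) {s y z : G} (hs : s ∈ S') (hy : y ∈ S') (hinv : y * s * y⁻¹ = s⁻¹)
    (hz : z ∈ S') : z * s = s * z := by
  haveI : Fact (Nat.Prime 2) := ⟨Nat.prime_two⟩
  obtain ⟨g, hg⟩ := MulAction.exists_smul_eq G S' S
  have hmem : ∀ a : G, a ∈ S' → g * a * g⁻¹ ∈ (S : Subgroup G) := by
    intro a ha
    rw [← hg, Sylow.coe_subgroup_smul]
    exact Subgroup.smul_mem_pointwise_smul a (MulAut.conj g) _ ha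
  have h1 : IsConj (⟨_, hmem s hs⟩ : ↥(S : Subgroup G)) ⟨_, hmem s hs⟩⁻¹ := by
    refine isConj_iff.mpr ⟨⟨_, hmem y hy⟩, Subtype.ext ?_⟩
    show g * y * g⁻¹ * (g * s * g⁻¹) * (g * y * g⁻¹)⁻¹ = (g * s * g⁻¹)⁻¹
    rw [show g * y * g⁻¹ * (g * s * g⁻¹) * (g * y * g⁻¹)⁻¹ = g * (y * s * y⁻¹) * g⁻¹ by group,
      hinv]
    group
  have h2 := congrArg Subtype.val (Subgroup.mem_center_iff.mp (hS _ h1) ⟨_, hmem z hz⟩)
  have h3 : g * (z * s) * g⁻¹ = g * (s * z) * g⁻¹ := by
    calc g * (z * s) * g⁻¹ = g * z * g⁻¹ * (g * s * g⁻¹) := by group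
      _ = g * s * g⁻¹ * (g * z * g⁻¹) := h2
      _ = g * (s * z) * g⁻¹ := by group
  exact mul_left_cancel (mul_right_cancel h3)

/-- S4193, from the odd order theorem. -/
theorem main (hFT : CfsgLib.OddStep.P0205.{u}) (a : ℕ)
    (h : ∀ x : G, IsConj x x⁻¹ → x ∉ Subgroup.center G →
      ((Subgroup.centralizer ({x} : Set G)).index).factorization 2 = a)
    (S : Sylow 2 G)
    (hS : ∀ s : ↥(S : Subgroup G), IsConj s s⁻¹ → s ∈ Subgroup.center ↥(S : Subgroup G)) :
    Group.IsSolvable G ∧
      Cfsg.HasNormalPComplement 2 ↥(Subgroup.closure {g : G | ∃ k : ℕ, orderOf g = 2 ^ k}) := by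
  haveI : Fact (Nat.Prime 2) := ⟨Nat.prime_two⟩
  have hRC := real_central S hS
  have hinv : ∀ t : G, t ^ 2 = 1 → t⁻¹ = t := fun t ht =>
    inv_eq_of_mul_eq_one_right (by rwa [← pow_two])
  have hpg : ∀ t : G, t ^ 2 = 1 → IsPGroup 2 (Subgroup.zpowers t) := fun t ht => by
    obtain ⟨k, -, hk⟩ := (Nat.dvd_prime_pow Nat.prime_two).1
      (show orderOf t ∣ 2 ^ 1 by simpa using orderOf_dvd_of_pow_eq_one ht)
    exact IsPGroup.of_card (n := k) (by rw [Nat.card_zpowers, hk])
  -- involutions commute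
  have hcomm : ∀ t u : G, t ^ 2 = 1 → u ^ 2 = 1 → t * u = u * t := by
    intro t u ht hu
    by_cases htc : t ∈ Subgroup.center G
    · exact (Subgroup.mem_center_iff.mp htc u).symm
    have ha : a = 0 := by
      rw [← h t (by rw [hinv t ht]) htc]
      obtain ⟨P, hP⟩ := (hpg t ht).exists_le_sylow
      refine Nat.factorization_eq_zero_of_not_dvd fun hd => P.not_dvd_index ?_
      refine hd.trans (Subgroup.index_dvd_of_le fun z hz => ?_)
      have hc := hRC P (y := 1) (hP (Subgroup.mem_zpowers t)) (one_mem _)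
        (by simp [hinv t ht]) hz
      exact Subgroup.mem_centralizer_singleton_iff.mpr hc
    have hxinv : t * (t * u) * t⁻¹ = (t * u)⁻¹ := by
      rw [mul_inv_rev, hinv t ht, hinv u hu, ← mul_assoc t t u,
        show t * t = 1 by rw [← pow_two, ht], one_mul]
    have hxreal : IsConj (t * u) (t * u)⁻¹ := isConj_iff.mpr ⟨t, hxinv⟩
    have hx2 : (t * u) ^ 2 = 1 := by
      by_cases hxc : t * u ∈ Subgroup.center G
      · have e : (t * u)⁻¹ = t * u := by
          rw [← hxinv, Subgroup.mem_center_iff.mp hxc t, mul_inv_cancel_right]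
        rw [pow_two]
        exact inv_eq_iff_mul_eq_one.mp e
      · have hv := h _ hxreal hxc
        rw [ha] at hv
        have hnd : ¬ 2 ∣ (Subgroup.centralizer ({t * u} : Set G)).index := fun hd => by
          have := (Nat.prime_two.dvd_iff_one_le_factorization
            Subgroup.index_ne_zero_of_finite).1 hd
          omega
        obtain ⟨Q, hQ⟩ := CfsgLib.ClassSizes.exists_sylow_le_of_not_dvd_index _ hnd
        refine CfsgLib.Involutions.sq_eq_one_of_real_of_centralizes_sylow_two Q ?_ hxreal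
        rw [Subgroup.mem_centralizer_iff]
        intro z hz
        exact Subgroup.mem_centralizer_singleton_iff.mp (hQ hz)
    have e := hinv _ hx2
    rw [mul_inv_rev, hinv t ht, hinv u hu] at e
    exact e.symm
  -- the 2-subgroup generated by the involutions
  let A : Subgroup G :=
    { carrier := {t | t ^ 2 = 1}
      one_mem' := one_pow 2
      mul_mem' := fun {x y} hx hy => by
        have hc : Commute x y := hcomm x y hx hy
        show (x * y) ^ 2 = 1
        rw [hc.mul_pow, hx, hy, one_mul]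
      inv_mem' := fun {x} hx => by
        show x⁻¹ ^ 2 = 1
        rw [inv_pow, hx, inv_one] }
  have hAmem : ∀ t, t ∈ A ↔ t ^ 2 = 1 := fun t => Iff.rfl
  haveI hAn : A.Normal := ⟨fun t ht g => by
    rw [hAmem] at ht ⊢
    rw [conj_pow, ht, mul_one, mul_inv_cancel]⟩
  have hApg : IsPGroup 2 A := fun t => ⟨1, Subtype.ext (by simpa using (hAmem _).1 t.2)⟩
  let C : Subgroup G := Subgroup.centralizer (A : Set G)
  haveI hCn : C.Normal := Subgroup.normal_centralizer
  have hPC : ∀ P : Sylow 2 G, (P : Subgroup G) ≤ C := by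
    intro P z hz
    rw [Subgroup.mem_centralizer_iff]
    intro t ht
    have htP : t ∈ P := hApg.le_sylow_of_normal P ht
    exact (hRC P (y := 1) htP (one_mem _) (by simp [hinv t ht]) hz).symm
  -- `C` has a normal 2-complement
  have hC : Cfsg.HasNormalPComplement 2 C := by
    refine CfsgLib.Transfer.hasNormalPComplement_of_pLocal_centralizes fun Q hQ g hg hgc => ?_
    refine CfsgLib.Transfer.mem_centralizer_of_fixes_real hQ hg hgc fun b hb hy => ?_
    obtain ⟨y, hy, hyb⟩ := hy
    obtain ⟨P, hP⟩ := (hQ.map C.subtype).exists_le_sylow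
    have hbP : (b : G) ∈ P := hP (Subgroup.mem_map_of_mem _ hb)
    have hyP : (y : G) ∈ P := hP (Subgroup.mem_map_of_mem _ hy)
    have hyb' : (y : G) * b * (y : G)⁻¹ = (b : G)⁻¹ := by exact_mod_cast congrArg Subtype.val hyb
    have h1 := hRC P hbP hyP hyb' hyP
    rw [h1, mul_inv_cancel_right] at hyb'
    have hb2 : (b : G) ∈ A := by
      rw [hAmem, pow_two]
      exact inv_eq_iff_mul_eq_one.mp hyb'.symm
    exact Subtype.ext ((Subgroup.mem_centralizer_iff.mp g.2 _ hb2).symm)
  refine ⟨?_, CfsgLib.Transfer.hasNormalPComplement_mono ?_ hC⟩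
  · obtain ⟨P, M, hM, hc⟩ := hC
    have hModd : Odd (Nat.card M) := by
      rw [← hc.index_eq_card]
      exact Nat.odd_iff.2 (Nat.two_dvd_ne_zero.1 P.not_dvd_index)
    refine Basic.isSolvable_of_normal C (Basic.isSolvable_of_normal M (hFT hModd) ?_) (hFT ?_)
    · haveI := P.isPGroup'.isNilpotent
      exact Group.isSolvable_of_surjective
        (f := (hc.symm.QuotientMulEquiv).symm.toMonoidHom)
        hc.symm.QuotientMulEquiv.symm.surjective
    · rw [← Subgroup.index_eq_card]
      refine Nat.odd_iff.2 (Nat.two_dvd_ne_zero.1 fun hd => S.not_dvd_index ?_)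
      exact hd.trans (Subgroup.index_dvd_of_le (hPC S))
  · rw [Subgroup.closure_le]
    rintro g ⟨k, hk⟩
    have hp : IsPGroup 2 (Subgroup.zpowers g) :=
      IsPGroup.of_card (n := k) (by rw [Nat.card_zpowers, hk])
    obtain ⟨P, hP⟩ := hp.exists_le_sylow
    exact hPC P (hP (Subgroup.mem_zpowers g))

end CfsgLib.OddCons.RealClassTwoPart
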