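import Cfsg.Agent.OddCons.NoFour
import Cfsg.Agent.SolvableStructure.Supersolvable
import Cfsg.Agent.Subnormal.SupersolvableTower
import Cfsg.Agent.Solvable.MinNormal
import Cfsg.Agent.Fitting.Join
import Cfsg.Agent.Constrained.Basic
import Cfsg.Agent.S3777
import Cfsg.Agent.Transfer.Frobenius
import Cfsg.Agent.ClassSizes.TwoSizes
import Cfsg.Agent.S0526

/-!
# Square-free class sizes

Given the odd order theorem, a group with square-free class sizes is supersolvable, its derived
subgroup is cyclic of square-free order, and the quotient by the Fitting subgroup too.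
-/

set_option autoImplicit false

open Cfsg
open scoped commutatorElement

namespace CfsgLib.OddCons.SquareFree

universe u

/-- All class sizes are square-free. -/
def SqClasses (G : Type u) [Group G] : Prop :=
  ∀ x : G, Squarefree (Subgroup.centralizer ({x} : Set G)).index

variable {G : Type u} [Group G] [Finite G]

theorem sqClasses_normal (h : SqClasses G) (N : Subgroup G) [N.Normal] : SqClasses N :=
  fun x => (h x).squarefree_of_dvd (ClassLemmas.index_centralizer_subgroup_dvd N x)

omit [Finite G] in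
theorem sqClasses_quotient (h : SqClasses G) (N : Subgroup G) [N.Normal] : SqClasses (G ⧸ N) := by
  intro x
  obtain ⟨y, rfl⟩ := QuotientGroup.mk'_surjective N x
  exact (h y).squarefree_of_dvd (ClassLemmas.index_centralizer_quotient_dvd N y)

omit [Finite G] in
theorem not_four_dvd (h : SqClasses G) (x : G) :
    ¬ 4 ∣ (Subgroup.centralizer ({x} : Set G)).index := fun hd => by
  have := Nat.isUnit_iff.1 (h x 2 ((show 2 * 2 ∣ 4 by norm_num).trans hd))
  omega

/-- The index of a centraliser inside a normal subgroup divides the class size. -/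
theorem relIndex_centralizer_dvd (N : Subgroup G) [N.Normal] (a : G) :
    (Subgroup.centralizer ({a} : Set G)).relIndex N ∣
      (Subgroup.centralizer ({a} : Set G)).index := by
  rw [← CfsgLib.CoprimeHall.relIndex_sup_eq_left
    (le_of_le_of_eq le_top (Subgroup.normalizer_eq_top N).symm)]
  exact Subgroup.relIndex_dvd_index_of_le le_sup_left

theorem isCyclic_of_minimal (h : SqClasses G) (N : Subgroup G) [N.Normal] (hne : N ≠ ⊥)
    (hmin : ∀ L : Subgroup G, L.Normal → L ≤ N → L = ⊥ ∨ L = N) {p k : ℕ} (hp : p.Prime)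
    (hc : Nat.card N = p ^ k) (hab : IsMulCommutative N)
    (hss : IsSupersolvable (G ⧸ N)) : IsCyclic N := by
  set C := Subgroup.centralizer (N : Set G) with hC
  by_cases hCtop : C = ⊤
  · obtain ⟨v, hv, hv1⟩ := (Subgroup.bot_or_exists_ne_one N).resolve_left hne
    have hvn : (Subgroup.zpowers v).Normal := ⟨fun w hw g => by
      have hwN : w ∈ N := (Subgroup.zpowers_le.2 hv) hw
      have hg : g ∈ C := hCtop ▸ Subgroup.mem_top g
      rw [hC, Subgroup.mem_centralizer_iff] at hg
      rw [← hg w hwN, mul_inv_cancel_right]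
      exact hw⟩
    rcases hmin _ hvn (Subgroup.zpowers_le.2 hv) with e | e
    · exact absurd (Subgroup.zpowers_eq_bot.1 e) hv1
    · rw [← e]
      infer_instance
  · haveI : C.Normal := inferInstance
    have hNC : N ≤ C := fun x hx => Subgroup.mem_centralizer_iff.2 fun y hy =>
      congrArg Subtype.val (hab.is_comm.comm (⟨y, hy⟩ : N) ⟨x, hx⟩)
    have hssC : IsSupersolvable (G ⧸ C) :=
      CfsgLib.Supersolvable.isSupersolvable_of_surjective hss
        (f := QuotientGroup.map N C (MonoidHom.id G) hNC) (fun x => by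
          obtain ⟨y, rfl⟩ := QuotientGroup.mk'_surjective C x
          exact ⟨QuotientGroup.mk' N y, rfl⟩)
    obtain ⟨n, H, h0, h1, hn, hstep, -⟩ := CfsgLib.Supersolvable.exists_primeChain hssC
    haveI : Nontrivial (G ⧸ C) := QuotientGroup.nontrivial_iff.2 hCtop
    rcases Nat.eq_zero_or_pos n with rfl | hnpos
    · exact absurd (show (⊥ : Subgroup (G ⧸ C)) = ⊤ by rw [← h0, ← h1]; rfl) bot_ne_top
    obtain ⟨hle, hpr⟩ := hstep ⟨0, hnpos⟩
    rw [show H (⟨0, hnpos⟩ : Fin n).castSucc = ⊥ from h0, Subgroup.relIndex_bot_left] at hpr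
    set A := H (⟨0, hnpos⟩ : Fin n).succ
    haveI hAn : A.Normal := hn _
    haveI : Fact (Nat.card A).Prime := ⟨hpr⟩
    haveI : IsCyclic A := isCyclic_of_prime_card rfl
    obtain ⟨⟨a', ha'⟩, hgen⟩ := IsCyclic.exists_generator (α := A)
    obtain ⟨a, rfl⟩ := QuotientGroup.mk'_surjective C a'
    set B := A.comap (QuotientGroup.mk' C)
    haveI : B.Normal := hAn.comap _
    have haB : a ∈ B := ha'
    set W := N ⊓ Subgroup.centralizer ({a} : Set G) with hW
    have hWeq : W = N ⊓ Subgroup.centralizer (B : Set G) := by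
      refine le_antisymm ?_ (inf_le_inf_left _ (Subgroup.centralizer_le (by simpa using haB)))
      rintro v ⟨hv, hva⟩
      refine ⟨hv, Subgroup.mem_centralizer_iff.2 fun b hb => ?_⟩
      obtain ⟨i, hi⟩ := Subgroup.mem_zpowers_iff.1 (hgen ⟨_, hb⟩)
      have hbc : (a ^ i)⁻¹ * b ∈ C := by
        rw [← QuotientGroup.eq_one_iff, ← QuotientGroup.mk'_apply, map_mul, map_inv, map_zpow,
          inv_mul_eq_one]
        exact congrArg Subtype.val hi
      have h2 : Commute v (a ^ i) := by
        have : Commute v a := (Subgroup.mem_centralizer_singleton_iff.1 hva)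
        exact this.zpow_right i
      have h3 : Commute v ((a ^ i)⁻¹ * b) := (Subgroup.mem_centralizer_iff.1 hbc v hv)
      have h4 := h2.mul_right h3
      rw [mul_inv_cancel_left] at h4
      exact h4.symm.eq
    have hWn : W.Normal := hWeq ▸ inferInstance
    rcases hmin W hWn inf_le_left with e | e
    · have hd := relIndex_centralizer_dvd N a
      rw [← Subgroup.inf_relIndex_right, inf_comm, ← hW, e, Subgroup.relIndex_bot_left, hc] at hd
      have hsq : Squarefree (p ^ k) := (h a).squarefree_of_dvd hd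
      rcases Nat.eq_zero_or_pos k with rfl | hk
      · rw [pow_zero] at hc
        exact absurd (Subgroup.card_eq_one.1 hc) hne
      · have hk1 : k = 1 := by
          by_contra hk1
          have := hsq p (by rw [← pow_two]; exact pow_dvd_pow p (by omega))
          exact hp.ne_one (Nat.isUnit_iff.1 this)
        haveI : Fact p.Prime := ⟨hp⟩
        exact isCyclic_of_prime_card (by rw [hc, hk1, pow_one])
    · exfalso
      -- `a` would centralise `N`
      have hNa : N ≤ Subgroup.centralizer ({a} : Set G) := e ▸ inf_le_right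
      have haC : a ∈ C := Subgroup.mem_centralizer_iff.2 fun v hv =>
        Subgroup.mem_centralizer_singleton_iff.1 (hNa hv)
      have hA1 : Nat.card A = 1 := by
        rw [Nat.card_eq_one_iff_unique]
        refine ⟨⟨fun x y => ?_⟩, inferInstance⟩
        obtain ⟨i, hi⟩ := Subgroup.mem_zpowers_iff.1 (hgen x)
        obtain ⟨j, hj⟩ := Subgroup.mem_zpowers_iff.1 (hgen y)
        have h1 : (⟨QuotientGroup.mk' C a, ha'⟩ : A) = 1 :=
          Subtype.ext ((QuotientGroup.eq_one_iff a).2 haC)
        rw [← hi, ← hj, h1, one_zpow, one_zpow]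
      exact hpr.ne_one hA1

theorem isSupersolvable (hFT : CfsgLib.OddStep.P0205.{u}) : ∀ (n : ℕ) (G : Type u) [Group G]
    [Finite G], Nat.card G ≤ n → SqClasses G → IsSupersolvable G := by
  intro n
  induction n with
  | zero =>
    intro G _ _ hc
    have : 0 < Nat.card G := Nat.card_pos
    omega
  | succ n ih =>
    intro G _ _ hc h
    rcases subsingleton_or_nontrivial G with hs | hs
    · exact ⟨0, fun _ => ⊥, rfl, Subsingleton.elim _ _, fun _ => inferInstance, fun i => i.elim0⟩
    haveI : Group.IsSolvable G := NoFour.isSolvable hFT (not_four_dvd h)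
    obtain ⟨M, p, k, hMn, hM, hmin, hab, hp, -, hMc, -⟩ :=
      CfsgLib.Solvable.exists_minimal_normal_of_solvable (G := G)
    haveI := hMn
    have hlt := CfsgLib.Solvable.card_quotient_lt M hM
    have hss := ih (G ⧸ M) (by omega) (sqClasses_quotient h M)
    haveI := isCyclic_of_minimal h M hM hmin hp hMc hab hss
    exact CfsgLib.Supersolvable.isSupersolvable_of_cyclic_normal M hss

section local_part

variable {p : ℕ} [hp : Fact p.Prime] (P : Sylow p G) [(P : Subgroup G).Normal]

/-- The index in `P` of a centraliser is at most `p`. -/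
theorem relIndex_le (h : SqClasses G) (g : G) :
    (Subgroup.centralizer ({g} : Set G)).relIndex (P : Subgroup G) = 1 ∨
      (Subgroup.centralizer ({g} : Set G)).relIndex (P : Subgroup G) = p := by
  have hd := relIndex_centralizer_dvd (P : Subgroup G) g
  obtain ⟨k, hk⟩ := IsPGroup.iff_card.1 P.isPGroup'
  obtain ⟨j, -, hj⟩ := (Nat.dvd_prime_pow hp.out).1
    (hk ▸ (Subgroup.relIndex_dvd_card (H := Subgroup.centralizer ({g} : Set G)) (K := (P : Subgroup G))))
  have hsq := (h g).squarefree_of_dvd hd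
  rw [hj] at hsq ⊢
  rcases Nat.lt_or_ge j 2 with hj2 | hj2
  · interval_cases j <;> simp
  · exact absurd (hsq p (by rw [← pow_two]; exact pow_dvd_pow p hj2))
      (by rw [Nat.isUnit_iff]; exact hp.out.ne_one)

omit [(P : Subgroup G).Normal] in
theorem eq_one_of_coprime {k : G} (hk : k ∈ (P : Subgroup G)) {m : G} (hc : (orderOf m).Coprime p)
    (hcomm : Commute k m) (ho : orderOf (k * m) = orderOf m) : k = 1 := by
  obtain ⟨j, hj⟩ := IsPGroup.iff_orderOf.1 P.isPGroup' ⟨k, hk⟩
  rw [Subgroup.orderOf_mk] at hj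
  rcases Nat.eq_zero_or_pos j with rfl | hj0
  · simpa using hj
  have h1 : orderOf (k * m) = orderOf k * orderOf m :=
    hcomm.orderOf_mul_eq_mul_orderOf_of_coprime (hj ▸ hc.symm.pow_left j)
  rw [ho] at h1
  have h2 : orderOf k = 1 := by
    have hpos := orderOf_pos m
    nlinarith [orderOf_pos k]
  exact orderOf_eq_one_iff.1 h2

/-- The structure of `P` under a `p'`-element moving it. -/
theorem abelian_and_range (h : SqClasses G) {g : G} (hg : (orderOf g).Coprime p)
    (hne : (Subgroup.centralizer ({g} : Set G)).relIndex (P : Subgroup G) ≠ 1) :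
    IsMulCommutative (P : Subgroup G) := by
  set C := (P : Subgroup G) ⊓ Subgroup.centralizer ({g} : Set G) with hC
  have hidx : C.relIndex (P : Subgroup G) = p := by
    rw [hC, inf_comm, Subgroup.inf_relIndex_right]
    exact (relIndex_le P h g).resolve_left hne
  set C' := C.subgroupOf (P : Subgroup G)
  have hC'i : C'.index = p := hidx
  haveI hC'n : C'.Normal := by
    refine Subgroup.normal_of_index_eq_minFac_card (G := ↥(P : Subgroup G)) ?_
    rw [hC'i]
    obtain ⟨k, hk⟩ := IsPGroup.iff_card.1 P.isPGroup'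
    rcases Nat.eq_zero_or_pos k with rfl | hk0
    · have hdd := C'.index_dvd_card
      rw [hC'i, hk, pow_zero, Nat.dvd_one] at hdd
      exact absurd hdd hp.out.ne_one
    · rw [hk, Nat.pow_minFac hk0.ne', hp.out.minFac_eq]
  have hgP : ∀ y ∈ (P : Subgroup G), g * y * g⁻¹ ∈ (P : Subgroup G) := fun y hy =>
    (inferInstance : (P : Subgroup G).Normal).conj_mem y hy g
  let κ : G → G := fun y => y * g * y⁻¹ * g⁻¹
  have hκP : ∀ y ∈ (P : Subgroup G), κ y ∈ (P : Subgroup G) := fun y hy => by
    show y * g * y⁻¹ * g⁻¹ ∈ _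
    have : y * g * y⁻¹ * g⁻¹ = y * (g * y⁻¹ * g⁻¹) := by group
    rw [this]
    exact mul_mem hy (hgP _ (inv_mem hy))
  have hCg : ∀ c ∈ C, c * g = g * c := fun c hc =>
    Subgroup.mem_centralizer_singleton_iff.1 (Subgroup.mem_inf.1 hc).2
  -- `C` fixes every commutator
  have hfix : ∀ y ∈ (P : Subgroup G), ∀ c ∈ C, c * κ y * c⁻¹ = κ y := by
    intro y hy c hc
    have hc' : y⁻¹ * c * y ∈ C := by
      have := hC'n.conj_mem ⟨c, (Subgroup.mem_inf.1 hc).1⟩ hc ⟨y⁻¹, inv_mem hy⟩
      simpa [C', Subgroup.mem_subgroupOf] using this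
    calc c * κ y * c⁻¹ = (c * y) * g * (c * y)⁻¹ * (c * g⁻¹ * c⁻¹) := by simp only [κ]; group
      _ = (c * y) * g * (c * y)⁻¹ * g⁻¹ := by
        have e : c * g⁻¹ * c⁻¹ = g⁻¹ := by
          rw [← conj_inv, hCg c hc, mul_inv_cancel_right]
        rw [e]
      _ = y * ((y⁻¹ * c * y) * g * (y⁻¹ * c * y)⁻¹) * y⁻¹ * g⁻¹ := by group
      _ = κ y := by rw [hCg _ hc', mul_inv_cancel_right]
  set D := Subgroup.closure (κ '' ((P : Subgroup G) : Set G)) with hD
  have hDP : D ≤ (P : Subgroup G) := (Subgroup.closure_le _).2 (by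
    rintro _ ⟨y, hy, rfl⟩; exact hκP y hy)
  have hDC : ∀ d ∈ D, ∀ c ∈ C, Commute c d := by
    intro d hd c hc
    induction hd using Subgroup.closure_induction with
    | mem x hx =>
      obtain ⟨y, hy, rfl⟩ := hx
      show c * κ y = κ y * c
      conv_rhs => rw [← hfix y hy c hc]
      group
    | one => exact Commute.one_right c
    | mul a b _ _ ha hb => exact ha.mul_right hb
    | inv a _ ha => exact ha.inv_right
  -- some commutator lies outside `C`
  obtain ⟨y₀, hy₀, hk₀⟩ : ∃ y ∈ (P : Subgroup G), κ y ∉ C := by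
    by_contra hno
    push Not at hno
    refine hne (Subgroup.relIndex_eq_one.2 fun y hy => ?_)
    have hk := hCg _ (hno y hy)
    have ho : orderOf (κ y * g) = orderOf g := by
      rw [show κ y * g = MulAut.conj y g by simp only [κ, MulAut.conj_apply]; group]
      exact MulEquiv.orderOf_eq _ _
    have h1 := eq_one_of_coprime P (hκP y hy) hg hk ho
    rw [Subgroup.mem_centralizer_singleton_iff]
    exact mul_inv_eq_iff_eq_mul.1 (mul_inv_eq_one.1 h1)
  have hsup : ∀ x ∈ (P : Subgroup G), ∃ d ∈ D, ∃ c ∈ C, x = d * c := by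
    intro x hx
    set k₀ : ↥(P : Subgroup G) := ⟨κ y₀, hκP y₀ hy₀⟩
    have hgen : ∃ i : ℤ, (k₀ ^ i)⁻¹ * ⟨x, hx⟩ ∈ C' := by
      haveI : Fact (Nat.card (↥(P : Subgroup G) ⧸ C')).Prime :=
        ⟨by rw [← Subgroup.index_eq_card, hC'i]; exact hp.out⟩
      have hne0 : (QuotientGroup.mk' C' k₀) ≠ 1 := fun e => hk₀ ((QuotientGroup.eq_one_iff k₀).1 e)
      obtain ⟨i, hi⟩ := Subgroup.mem_zpowers_iff.1 (mem_zpowers_of_prime_card
        (p := Nat.card (↥(P : Subgroup G) ⧸ C')) rfl hne0 (g' := QuotientGroup.mk' C' ⟨x, hx⟩))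
      exact ⟨i, QuotientGroup.eq.1 (by rw [← QuotientGroup.mk'_apply, map_zpow, hi]; rfl)⟩
    obtain ⟨i, hi⟩ := hgen
    refine ⟨(k₀ : G) ^ i, zpow_mem (Subgroup.subset_closure ⟨y₀, hy₀, rfl⟩ : (k₀ : G) ∈ D) i,
      ((k₀ : G) ^ i)⁻¹ * x, ?_, (mul_inv_cancel_left ((k₀ : G) ^ i) x).symm⟩
    simpa [C', Subgroup.mem_subgroupOf] using hi
  -- elements of `D` commute with each other
  have hDD : ∀ d ∈ D, ∀ d' ∈ D, Commute d d' := by
    intro d hd d' hd'
    have key : ∀ e ∈ D, Commute (κ y₀) e := by
      intro e he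
      obtain ⟨d₁, hd₁, c, hc, he'⟩ := hsup e (hDP he)
      have hd₁' : ∃ i : ℤ, e = κ y₀ ^ i * ((κ y₀ ^ i)⁻¹ * e) ∧ (κ y₀ ^ i)⁻¹ * e ∈ C := by
        set k₀ : ↥(P : Subgroup G) := ⟨κ y₀, hκP y₀ hy₀⟩
        haveI : Fact (Nat.card (↥(P : Subgroup G) ⧸ C')).Prime :=
          ⟨by rw [← Subgroup.index_eq_card, hC'i]; exact hp.out⟩
        have hne0 : (QuotientGroup.mk' C' k₀) ≠ 1 := fun e' => hk₀ ((QuotientGroup.eq_one_iff k₀).1 e')
        obtain ⟨i, hi⟩ := Subgroup.mem_zpowers_iff.1 (mem_zpowers_of_prime_card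
          (p := Nat.card (↥(P : Subgroup G) ⧸ C')) rfl hne0 (g' := QuotientGroup.mk' C' ⟨e, hDP he⟩))
        refine ⟨i, (mul_inv_cancel_left _ _).symm, ?_⟩
        have : (k₀ ^ i)⁻¹ * ⟨e, hDP he⟩ ∈ C' :=
          QuotientGroup.eq.1 (by rw [← QuotientGroup.mk'_apply, map_zpow, hi]; rfl)
        simpa [C', k₀, Subgroup.mem_subgroupOf] using this
      obtain ⟨i, hei, hci⟩ := hd₁'
      rw [hei]
      exact ((Commute.refl _).zpow_right i).mul_right
        ((hDC _ (Subgroup.subset_closure ⟨y₀, hy₀, rfl⟩) _ hci).symm)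
    obtain ⟨d₁, hd₁, c, hc, hde⟩ := hsup d (hDP hd)
    induction hd' using Subgroup.closure_induction with
    | mem x hx =>
      -- both sides are powers of one element up to elements fixed by `D`
      have hxD : x ∈ D := Subgroup.subset_closure hx
      obtain ⟨i, hi, hci⟩ : ∃ i : ℤ, d = κ y₀ ^ i * ((κ y₀ ^ i)⁻¹ * d) ∧ (κ y₀ ^ i)⁻¹ * d ∈ C := by
        set k₀ : ↥(P : Subgroup G) := ⟨κ y₀, hκP y₀ hy₀⟩
        haveI : Fact (Nat.card (↥(P : Subgroup G) ⧸ C')).Prime :=
          ⟨by rw [← Subgroup.index_eq_card, hC'i]; exact hp.out⟩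
        have hne0 : (QuotientGroup.mk' C' k₀) ≠ 1 := fun e' => hk₀ ((QuotientGroup.eq_one_iff k₀).1 e')
        obtain ⟨i, hi⟩ := Subgroup.mem_zpowers_iff.1 (mem_zpowers_of_prime_card
          (p := Nat.card (↥(P : Subgroup G) ⧸ C')) rfl hne0 (g' := QuotientGroup.mk' C' ⟨d, hDP hd⟩))
        refine ⟨i, (mul_inv_cancel_left _ _).symm, ?_⟩
        have : (k₀ ^ i)⁻¹ * ⟨d, hDP hd⟩ ∈ C' :=
          QuotientGroup.eq.1 (by rw [← QuotientGroup.mk'_apply, map_zpow, hi]; rfl)
        simpa [C', k₀, Subgroup.mem_subgroupOf] using this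
      rw [hi]
      exact ((key x hxD).zpow_left i).mul_left (hDC x hxD _ hci)
    | one => exact Commute.one_right d
    | mul a b _ _ ha hb => exact ha.mul_right hb
    | inv a _ ha => exact ha.inv_right
  -- `C` is commutative by a mixed element
  have hCC : ∀ c ∈ C, ∀ c' ∈ C, Commute c c' := by
    intro c hc c' hc'
    have hcP : c ∈ (P : Subgroup G) := (Subgroup.mem_inf.1 hc).1
    have hcop : (orderOf c).Coprime (orderOf g) := by
      obtain ⟨j, hj⟩ := IsPGroup.iff_orderOf.1 P.isPGroup' ⟨c, hcP⟩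
      rw [Subgroup.orderOf_mk] at hj
      rw [hj]
      exact hg.symm.pow_left j
    have hcg : Commute c g := hCg c hc
    have h1 : Subgroup.centralizer ({c * g} : Set G) ≤ Subgroup.centralizer ({c} : Set G) :=
      CfsgLib.TwoSizes.cen_mul_le hcg hcop
    have h2 : Subgroup.centralizer ({c * g} : Set G) ≤ Subgroup.centralizer ({g} : Set G) := by
      rw [hcg.eq]; exact CfsgLib.TwoSizes.cen_mul_le hcg.symm hcop.symm
    set E := Subgroup.centralizer ({c * g} : Set G) ⊓ (P : Subgroup G) with hE
    have hEC : E ≤ C := le_inf inf_le_right (inf_le_left.trans h2)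
    have hEi : E.relIndex (P : Subgroup G) = E.relIndex C * p := by
      have e1 := Subgroup.relIndex_mul_relIndex E C (P : Subgroup G) hEC inf_le_left
      rw [hidx] at e1
      exact e1.symm
    have hEp : E.relIndex (P : Subgroup G) =
        (Subgroup.centralizer ({c * g} : Set G)).relIndex (P : Subgroup G) :=
      Subgroup.inf_relIndex_right _ _
    have hEeq : E.relIndex C = 1 := by
      rcases relIndex_le P h (c * g) with e | e <;> rw [hEp, e] at hEi
      · exact absurd (Nat.eq_one_of_mul_eq_one_left hEi.symm) hp.out.ne_one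
      · exact Nat.eq_of_mul_eq_mul_right hp.out.pos (by rw [one_mul]; exact hEi.symm)
    exact (Subgroup.mem_centralizer_singleton_iff.1
      (h1 (Subgroup.mem_inf.1 (Subgroup.relIndex_eq_one.1 hEeq hc')).1)).symm
  refine ⟨⟨fun a b => Subtype.ext ?_⟩⟩
  obtain ⟨d, hd, c, hc, ha⟩ := hsup a a.2
  obtain ⟨d', hd', c', hc', hb⟩ := hsup b b.2
  show (a : G) * (b : G) = (b : G) * (a : G)
  rw [ha, hb]
  exact (((hDD d hd d' hd').mul_right (hDC d hd c' hc').symm).mul_left
    ((hDC d' hd' c hc).mul_right (hCC c hc c' hc'))).eq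

/-- The commutator map of `g` on an abelian normal `P`. -/
def comHom (hP : IsMulCommutative (P : Subgroup G)) (g : G) : ↥(P : Subgroup G) →* G where
  toFun y := (y : G) * g * (y : G)⁻¹ * g⁻¹
  map_one' := by simp
  map_mul' a b := by
    have hb : g * (b : G)⁻¹ * g⁻¹ ∈ (P : Subgroup G) :=
      (inferInstance : (P : Subgroup G).Normal).conj_mem _ (inv_mem b.2) g
    have ha : g * (a : G)⁻¹ * g⁻¹ ∈ (P : Subgroup G) :=
      (inferInstance : (P : Subgroup G).Normal).conj_mem _ (inv_mem a.2) g
    have h1 : ∀ x y : G, x ∈ (P : Subgroup G) → y ∈ (P : Subgroup G) → x * y = y * x :=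
      fun x y hx hy => congrArg Subtype.val (hP.is_comm.comm (⟨x, hx⟩ : ↥(P : Subgroup G)) ⟨y, hy⟩)
    push_cast
    calc (a : G) * b * g * ((a : G) * b)⁻¹ * g⁻¹
        = (a : G) * ((b * (g * (b : G)⁻¹ * g⁻¹)) * (g * (a : G)⁻¹ * g⁻¹)) := by group
      _ = (a : G) * ((g * (a : G)⁻¹ * g⁻¹) * (b * (g * (b : G)⁻¹ * g⁻¹))) := by
        rw [h1 _ _ (mul_mem b.2 hb) ha]
      _ = (a : G) * g * (a : G)⁻¹ * g⁻¹ * ((b : G) * g * (b : G)⁻¹ * g⁻¹) := by group

omit hp in
theorem comHom_mem (hP : IsMulCommutative (P : Subgroup G)) (g : G) (y : ↥(P : Subgroup G)) :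
    comHom P hP g y ∈ (P : Subgroup G) := by
  show (y : G) * g * (y : G)⁻¹ * g⁻¹ ∈ _
  have : (y : G) * g * (y : G)⁻¹ * g⁻¹ = (y : G) * (g * (y : G)⁻¹ * g⁻¹) := by group
  rw [this]
  exact mul_mem y.2 ((inferInstance : (P : Subgroup G).Normal).conj_mem _ (inv_mem y.2) g)

theorem card_comHom_range (h : SqClasses G) (hP : IsMulCommutative (P : Subgroup G)) (g : G) :
    Nat.card (comHom P hP g).range ≤ p := by
  rw [← Subgroup.index_ker,
    show (comHom P hP g).ker = (Subgroup.centralizer ({g} : Set G)).subgroupOf (P : Subgroup G) from ?_]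
  · rcases relIndex_le P h g with e | e
    · exact e.le.trans hp.out.one_lt.le
    · exact e.le
  · ext y
    rw [MonoidHom.mem_ker, Subgroup.mem_subgroupOf, Subgroup.mem_centralizer_singleton_iff]
    show (y : G) * g * (y : G)⁻¹ * g⁻¹ = 1 ↔ _
    rw [mul_inv_eq_one, mul_inv_eq_iff_eq_mul]

theorem exists_prime_bound (h : SqClasses G) (hcore : Cfsg.pPrimeCore p G = ⊥)
    (hGP : commutator G ≤ (P : Subgroup G)) : Nat.card (commutator G) ≤ p := by
  obtain ⟨H, hH⟩ := Subgroup.exists_right_complement'_of_coprime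
    (N := (P : Subgroup G)) P.card_coprime_index
  have hHc : ∀ k ∈ H, (orderOf k).Coprime p := fun k hk =>
    ((hp.out.coprime_iff_not_dvd.2 P.not_dvd_index).symm.coprime_dvd_left
      (hH.symm.index_eq_card ▸ H.orderOf_dvd_natCard hk))
  have hHab : ∀ a ∈ H, ∀ b ∈ H, a * b = b * a := by
    intro a ha b hb
    have h1 : ⁅a, b⁆ ∈ (P : Subgroup G) ⊓ H :=
      Subgroup.mem_inf.2 ⟨hGP (Subgroup.commutator_mem_commutator (Subgroup.mem_top a) (Subgroup.mem_top b)),
        mul_mem (mul_mem (mul_mem ha hb) (inv_mem ha)) (inv_mem hb)⟩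
    rw [hH.disjoint.eq_bot, Subgroup.mem_bot] at h1
    exact commutatorElement_eq_one_iff_mul_comm.1 h1
  by_cases hH1 : H = ⊥
  · have hPtop : (P : Subgroup G) = ⊤ := by simpa [hH1] using hH.sup_eq_top
    have hG : IsPGroup p G := (P.isPGroup'.of_equiv (MulEquiv.subgroupCongr hPtop)).of_equiv Subgroup.topEquiv
    have := Cfsg.Agent.S3777.result hG 1 (fun x => ?_)
    · simpa using this
    · have e := relIndex_le P h x
      rw [hPtop, Subgroup.relIndex_top_right] at e
      rcases e with e | e <;> rw [e, pow_one]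
      exact hp.out.one_lt.le
  · obtain ⟨g, hgH, hg1⟩ := (Subgroup.bot_or_exists_ne_one H).resolve_left hH1
    have hgen : ∀ x : G, ∃ y ∈ (P : Subgroup G), ∃ k ∈ H, x = y * k := fun x => by
      have hx : x ∈ (P : Subgroup G) ⊔ H := hH.sup_eq_top ▸ Subgroup.mem_top x
      rw [← SetLike.mem_coe, Subgroup.normal_mul] at hx
      obtain ⟨y, hy, k, hk, rfl⟩ := Set.mem_mul.1 hx
      exact ⟨y, hy, k, hk, rfl⟩
    have hne : (Subgroup.centralizer ({g} : Set G)).relIndex (P : Subgroup G) ≠ 1 := by
      intro e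
      have hPc := Subgroup.relIndex_eq_one.1 e
      have hgz : g ∈ Subgroup.center G := by
        rw [Subgroup.mem_center_iff]
        intro x
        obtain ⟨y, hy, k, hk, rfl⟩ := hgen x
        have h1 : Commute y g := Subgroup.mem_centralizer_singleton_iff.1 (hPc hy)
        have h2 : Commute k g := hHab k hk g hgH
        exact (h1.mul_left h2).eq
      haveI : (Subgroup.zpowers g).Normal := ⟨fun z hz x => by
        have hzc : z ∈ Subgroup.center G := Subgroup.zpowers_le.2 hgz hz
        rwa [Subgroup.mem_center_iff.1 hzc x, mul_inv_cancel_right]⟩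
      have := CfsgLib.Constrained.le_pPrimeCore (p := p) (N := Subgroup.zpowers g) inferInstance
        (by rw [Nat.card_zpowers]; exact hHc g hgH)
      rw [hcore, le_bot_iff, Subgroup.zpowers_eq_bot] at this
      exact hg1 this
    have hP := abelian_and_range P h (hHc g hgH) hne
    set D := (comHom P hP g).range with hD
    have hDcard : Nat.card D = p := by
      refine le_antisymm (card_comHom_range P h hP g) ?_
      have hd : Nat.card D ∣ Nat.card ↥(P : Subgroup G) :=
        (Subgroup.card_range_dvd (comHom P hP g))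
      obtain ⟨k, hk⟩ := IsPGroup.iff_card.1 P.isPGroup'
      obtain ⟨j, -, hj⟩ := (Nat.dvd_prime_pow hp.out).1 (hk ▸ hd)
      rcases Nat.eq_zero_or_pos j with rfl | hj0
      · exfalso
        refine hne (Subgroup.relIndex_eq_one.2 fun y hy => ?_)
        rw [pow_zero] at hj
        have h1 : comHom P hP g ⟨y, hy⟩ ∈ D := ⟨_, rfl⟩
        rw [Subgroup.card_eq_one.1 hj, Subgroup.mem_bot] at h1
        rw [Subgroup.mem_centralizer_singleton_iff]
        exact mul_inv_eq_iff_eq_mul.1 (mul_inv_eq_one.1 h1)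
      · exact hj ▸ Nat.le_self_pow hj0.ne' p
    have hDP : D ≤ (P : Subgroup G) := by
      rintro _ ⟨y, rfl⟩; exact comHom_mem P hP g y
    haveI : Fact (Nat.card D).Prime := ⟨hDcard.symm ▸ hp.out⟩
    have hall : ∀ k ∈ H, (comHom P hP k).range ≤ D := by
      intro k hk
      set R := (comHom P hP k).range
      by_contra hle
      have hRP : R ≤ (P : Subgroup G) := by
        rintro _ ⟨y, rfl⟩; exact comHom_mem P hP k y
      have hdisj : R ⊓ D = ⊥ := by
        have hd : Nat.card (R ⊓ D : Subgroup G) ∣ p := hDcard ▸ Subgroup.card_dvd_of_le inf_le_right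
        rcases (Nat.dvd_prime hp.out).1 hd with e | e
        · exact Subgroup.card_eq_one.1 e
        · exfalso
          have hDR : D ≤ R := by
            rw [← Subgroup.eq_of_le_of_card_ge (inf_le_right : R ⊓ D ≤ D) (by rw [e, hDcard])]
            exact inf_le_left
          exact hle (Subgroup.eq_of_le_of_card_ge hDR
            ((card_comHom_range P h hP k).trans hDcard.ge)).ge
      -- each of `g`, `k` commutes with the commutators of the other
      have hfix : ∀ a b : G, a ∈ H → b ∈ H → (comHom P hP a).range ⊓ (comHom P hP b).range = ⊥ →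
          ∀ z ∈ (comHom P hP b).range, a * z * a⁻¹ = z := by
        intro a b ha hb hab z hz
        obtain ⟨y, rfl⟩ := hz
        have h1 : a * comHom P hP b y * a⁻¹ ∈ (comHom P hP b).range := by
          refine ⟨⟨a * y * a⁻¹, (inferInstance : (P : Subgroup G).Normal).conj_mem y y.2 a⟩, ?_⟩
          show a * (y : G) * a⁻¹ * b * (a * (y : G) * a⁻¹)⁻¹ * b⁻¹ =
            a * ((y : G) * b * (y : G)⁻¹ * b⁻¹) * a⁻¹
          have e1 : a⁻¹ * b = b * a⁻¹ := (Commute.inv_left (hHab a ha b hb)).eq
          calc a * (y : G) * a⁻¹ * b * (a * (y : G) * a⁻¹)⁻¹ * b⁻¹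
              = a * (y : G) * (a⁻¹ * b) * a * (y : G)⁻¹ * (a⁻¹ * b⁻¹) := by group
            _ = a * (y : G) * b * (y : G)⁻¹ * (a⁻¹ * b⁻¹) := by rw [e1]; group
            _ = _ := by rw [(Commute.inv_left (hHab a ha b hb)).inv_right.eq]; group
        have h0 : comHom P hP b y ∈ (comHom P hP b).range := ⟨y, rfl⟩
        have h2 : comHom P hP b y * (a * comHom P hP b y * a⁻¹)⁻¹ ∈
            (comHom P hP a).range ⊓ (comHom P hP b).range :=
          Subgroup.mem_inf.2 ⟨⟨⟨_, comHom_mem P hP b y⟩, by
            show comHom P hP b y * a * (comHom P hP b y)⁻¹ * a⁻¹ = _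
            group⟩, mul_mem h0 (inv_mem h1)⟩
        rw [hab, Subgroup.mem_bot, mul_inv_eq_one] at h2
        exact h2.symm
      -- the commutators of `g * k` contain both
      have hsub : D ⊔ R ≤ (comHom P hP (g * k)).range := by
        refine sup_le ?_ ?_
        · intro z hz
          -- `z` is the commutator of an element of `D`
          let ψ : ↥D →* ↥D := MonoidHom.mk' (fun d => ⟨comHom P hP g ⟨d, hDP d.2⟩, ⟨_, rfl⟩⟩)
            (fun a b => Subtype.ext (map_mul (comHom P hP g) ⟨a, hDP a.2⟩ ⟨b, hDP b.2⟩))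
          have hψ : Function.Injective ψ := by
            rw [injective_iff_map_eq_one]
            intro d hd
            have hd1 : (d : G) * g * (d : G)⁻¹ * g⁻¹ = 1 := congrArg Subtype.val hd
            obtain ⟨y, hy⟩ := d.2
            have hc : Commute (d : G) g := mul_inv_eq_iff_eq_mul.1 (mul_inv_eq_one.1 hd1)
            refine Subtype.ext (eq_one_of_coprime P (hDP d.2) (hHc g hgH) hc ?_)
            rw [← hy]
            show orderOf ((y : G) * g * (y : G)⁻¹ * g⁻¹ * g) = orderOf g
            rw [inv_mul_cancel_right]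
            exact MulEquiv.orderOf_eq (MulAut.conj (y : G)) g
          obtain ⟨d, hd⟩ := (Finite.injective_iff_surjective.1 hψ) ⟨z, hz⟩
          refine ⟨⟨d, hDP d.2⟩, ?_⟩
          have hk' : k * (d : G)⁻¹ * k⁻¹ = (d : G)⁻¹ := by
            rw [← conj_inv, hfix k g hk hgH hdisj (d : G) d.2]
          rw [← show (d : G) * g * (d : G)⁻¹ * g⁻¹ = z from congrArg Subtype.val hd]
          show (d : G) * (g * k) * (d : G)⁻¹ * (g * k)⁻¹ = _
          calc (d : G) * (g * k) * (d : G)⁻¹ * (g * k)⁻¹
              = (d : G) * g * (k * (d : G)⁻¹ * k⁻¹) * g⁻¹ := by group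
            _ = _ := by rw [hk']
        · intro z hz
          let ψ : ↥R →* ↥R := MonoidHom.mk' (fun d => ⟨comHom P hP k ⟨d, hRP d.2⟩, ⟨_, rfl⟩⟩)
            (fun a b => Subtype.ext (map_mul (comHom P hP k) ⟨a, hRP a.2⟩ ⟨b, hRP b.2⟩))
          have hψ : Function.Injective ψ := by
            rw [injective_iff_map_eq_one]
            intro d hd
            have hd1 : (d : G) * k * (d : G)⁻¹ * k⁻¹ = 1 := congrArg Subtype.val hd
            obtain ⟨y, hy⟩ := d.2
            have hc : Commute (d : G) k := mul_inv_eq_iff_eq_mul.1 (mul_inv_eq_one.1 hd1)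
            refine Subtype.ext (eq_one_of_coprime P (hRP d.2) (hHc k hk) hc ?_)
            rw [← hy]
            show orderOf ((y : G) * k * (y : G)⁻¹ * k⁻¹ * k) = orderOf k
            rw [inv_mul_cancel_right]
            exact MulEquiv.orderOf_eq (MulAut.conj (y : G)) k
          obtain ⟨d, hd⟩ := (Finite.injective_iff_surjective.1 hψ) ⟨z, hz⟩
          refine ⟨⟨d, hRP d.2⟩, ?_⟩
          have hz' : g * z * g⁻¹ = z :=
            hfix g k hgH hk (by rw [inf_comm]; exact hdisj) z hz
          have hg' : g * (d : G) * g⁻¹ = d := hfix g k hgH hk (by rw [inf_comm]; exact hdisj) d d.2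
          show (d : G) * (g * k) * (d : G)⁻¹ * (g * k)⁻¹ = z
          calc (d : G) * (g * k) * (d : G)⁻¹ * (g * k)⁻¹
              = (d : G) * (g * (d : G) * g⁻¹)⁻¹ * (g * ((d : G) * k * (d : G)⁻¹ * k⁻¹) * g⁻¹) := by group
            _ = z := by
              rw [hg', mul_inv_cancel, one_mul,
                show (d : G) * k * (d : G)⁻¹ * k⁻¹ = z from congrArg Subtype.val hd, hz']
      have h1 := (Nat.le_of_dvd Nat.card_pos (Subgroup.card_dvd_of_le hsub)).trans
        (card_comHom_range P h hP (g * k))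
      have hlt : D < D ⊔ R :=
        lt_of_le_of_ne le_sup_left fun e => hle (e.symm ▸ (le_sup_right : R ≤ D ⊔ R))
      have h2 : Nat.card D < Nat.card (D ⊔ R : Subgroup G) := by
        rcases lt_or_eq_of_le (Nat.le_of_dvd Nat.card_pos (Subgroup.card_dvd_of_le hlt.le)) with h' | h'
        · exact h'
        · exact absurd (Subgroup.eq_of_le_of_card_ge hlt.le h'.ge) hlt.ne
      omega
    -- `G / D` is commutative
    haveI hDn : D.Normal := ⟨fun z hz x => by
      obtain ⟨y, hy, k, hk, rfl⟩ := hgen x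
      obtain ⟨w, rfl⟩ := hz
      have hkz : k * comHom P hP g w * k⁻¹ ∈ D := by
        refine ⟨⟨k * w * k⁻¹, (inferInstance : (P : Subgroup G).Normal).conj_mem w w.2 k⟩, ?_⟩
        show k * (w : G) * k⁻¹ * g * (k * (w : G) * k⁻¹)⁻¹ * g⁻¹ =
          k * ((w : G) * g * (w : G)⁻¹ * g⁻¹) * k⁻¹
        calc k * (w : G) * k⁻¹ * g * (k * (w : G) * k⁻¹)⁻¹ * g⁻¹
            = k * (w : G) * (k⁻¹ * g) * k * (w : G)⁻¹ * (k⁻¹ * g⁻¹) := by group
          _ = _ := by
            rw [(Commute.inv_left (hHab k hk g hgH)).eq,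
              (Commute.inv_left (hHab k hk g hgH)).inv_right.eq]
            group
      have e : y * k * comHom P hP g w * (y * k)⁻¹ = y * (k * comHom P hP g w * k⁻¹) * y⁻¹ := by group
      rw [e, show y * (k * comHom P hP g w * k⁻¹) = (k * comHom P hP g w * k⁻¹) * y from
        congrArg Subtype.val (hP.is_comm.comm (⟨y, hy⟩ : ↥(P : Subgroup G)) ⟨_, hDP hkz⟩),
        mul_inv_cancel_right]
      exact hkz⟩
    have hcomm : commutator G ≤ D := by
      rw [commutator_def, Subgroup.commutator_le]
      intro a _ b _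
      rw [← QuotientGroup.eq_one_iff, ← QuotientGroup.mk'_apply, map_commutatorElement,
        commutatorElement_eq_one_iff_mul_comm]
      set f := QuotientGroup.mk' D
      have hyk : ∀ y ∈ (P : Subgroup G), ∀ k ∈ H, Commute (f y) (f k) := by
        intro y hy k hk
        refine commutatorElement_eq_one_iff_mul_comm.1 ?_
        rw [← map_commutatorElement, QuotientGroup.mk'_apply, QuotientGroup.eq_one_iff]
        exact hall k hk ⟨⟨y, hy⟩, rfl⟩
      obtain ⟨y, hy, k, hk, rfl⟩ := hgen a
      obtain ⟨y', hy', k', hk', rfl⟩ := hgen b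
      rw [map_mul, map_mul]
      have h1 : Commute (f y) (f y') :=
        (show Commute y y' from congrArg Subtype.val
          (hP.is_comm.comm (⟨y, hy⟩ : ↥(P : Subgroup G)) ⟨y', hy'⟩)).map f
      have h2 : Commute (f k) (f k') := (show Commute k k' from hHab k hk k' hk').map f
      exact ((h1.mul_right (hyk y hy k' hk')).mul_left ((hyk y' hy' k hk).symm.mul_right h2)).eq
    exact (Nat.le_of_dvd Nat.card_pos (Subgroup.card_dvd_of_le hcomm)).trans hDcard.le

end local_part

theorem commutator_squarefree (hFT : CfsgLib.OddStep.P0205.{u}) (h : SqClasses G) :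
    Squarefree (Nat.card (commutator G)) := by
  rw [Nat.squarefree_iff_prime_squarefree]
  intro p hp hd
  haveI : Fact p.Prime := ⟨hp⟩
  set N := Cfsg.pPrimeCore p G
  haveI hNn : N.Normal := CfsgLib.Constrained.instNormalPPrimeCore p
  set f := QuotientGroup.mk' N
  have hQ := sqClasses_quotient h N
  have hcore : Cfsg.pPrimeCore p (G ⧸ N) = ⊥ := CfsgLib.Constrained.pPrimeCore_quotient_pPrimeCore
  have hQs : IsSupersolvable (G ⧸ N) := isSupersolvable hFT _ _ le_rfl hQ
  haveI hnil : Group.IsNilpotent (commutator (G ⧸ N)) := Cfsg.Agent.S0526.result hQs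
  -- the derived subgroup of the quotient is a `p`-group
  have hpg : IsPGroup p (commutator (G ⧸ N)) := by
    have hq : ∀ q : ℕ, q.Prime → q ∣ Nat.card (commutator (G ⧸ N)) → q = p := by
      intro q hq hqd
      by_contra hqp
      haveI : Fact q.Prime := ⟨hq⟩
      set T : Sylow q (commutator (G ⧸ N)) := default
      haveI : (T : Subgroup (commutator (G ⧸ N))).Characteristic :=
        T.characteristic_of_normal inferInstance
      set T' := (T : Subgroup (commutator (G ⧸ N))).map (commutator (G ⧸ N)).subtype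
      have hT' := CfsgLib.Constrained.le_pPrimeCore (p := p) (N := T') inferInstance (by
        rw [Subgroup.card_map_of_injective (commutator (G ⧸ N)).subtype_injective,
          T.card_eq_multiplicity]
        exact ((Nat.coprime_primes hq hp).2 hqp).pow_left _)
      rw [hcore, le_bot_iff, Subgroup.map_eq_bot_iff_of_injective _
        (commutator (G ⧸ N)).subtype_injective] at hT'
      have h1 := T.dvd_card_of_dvd_card hqd
      rw [hT', Subgroup.card_bot] at h1
      exact hq.ne_one (Nat.dvd_one.1 h1)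
    exact IsPGroup.of_card (Nat.eq_prime_pow_of_unique_prime_dvd Nat.card_pos.ne'
      fun {q} hq' hqd => hq q hq' hqd)
  set P : Sylow p (G ⧸ N) := default
  obtain ⟨T, hT⟩ := hpg.exists_le_sylow
  obtain ⟨x, hx⟩ := MulAction.exists_smul_eq (G ⧸ N) T P
  have hle : commutator (G ⧸ N) ≤ (P : Subgroup (G ⧸ N)) := by
    intro c hc
    rw [← hx]
    have hc' : x⁻¹ * c * x ∈ commutator (G ⧸ N) := by
      simpa using (inferInstance : (commutator (G ⧸ N)).Normal).conj_mem c hc x⁻¹
    refine Subgroup.mem_pointwise_smul_iff_inv_smul_mem.2 ?_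
    have := hT hc'
    simpa [MulAut.inv_apply, MulAut.conj_symm_apply] using this
  haveI : (P : Subgroup (G ⧸ N)).Normal := ⟨fun y hy g => by
    have h1 : g * y * g⁻¹ = ⁅g, y⁆ * y := by rw [commutatorElement_def]; group
    rw [h1]
    exact mul_mem (hle (Subgroup.commutator_mem_commutator (Subgroup.mem_top g) (Subgroup.mem_top y))) hy⟩
  have hle' := exists_prime_bound P hQ hcore hle
  -- compare
  have hmap : (commutator G).map f = commutator (G ⧸ N) := by
    rw [commutator_def, commutator_def, Subgroup.map_commutator,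
      Subgroup.map_top_of_surjective f (QuotientGroup.mk'_surjective N)]
  have hc : Nat.card (commutator G) =
      Nat.card (commutator (G ⧸ N)) * N.relIndex (⊥ : Subgroup G) *
        Nat.card (N ⊓ commutator G : Subgroup G) := by
    rw [Subgroup.relIndex_bot_right, mul_one, ← hmap]
    have h1 := Subgroup.relIndex_mul_relIndex ⊥ (N ⊓ commutator G) (commutator G) bot_le inf_le_right
    rw [Subgroup.relIndex_bot_left, Subgroup.relIndex_bot_left, Subgroup.inf_relIndex_right] at h1
    have h2 : Nat.card ((commutator G).map f) = N.relIndex (commutator G) := by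
      rw [← Subgroup.relIndex_bot_left, ← Subgroup.relIndex_comap, MonoidHom.comap_bot,
        QuotientGroup.ker_mk']
    rw [h2, ← h1, mul_comm]
  rw [Subgroup.relIndex_bot_right, mul_one] at hc
  rw [hc] at hd
  have hndvd : ¬ p ∣ Nat.card (N ⊓ commutator G : Subgroup G) := fun h' =>
    CfsgLib.Constrained.pPrimeCore_not_dvd (h'.trans (Subgroup.card_dvd_of_le inf_le_left))
  have hd' : p * p ∣ Nat.card (commutator (G ⧸ N)) :=
    Nat.Coprime.dvd_of_dvd_mul_right
      (((hp.coprime_iff_not_dvd.2 hndvd).mul_left (hp.coprime_iff_not_dvd.2 hndvd))) hd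
  have := (Nat.le_of_dvd Nat.card_pos hd').trans hle'
  exact absurd this (not_le.2 (lt_mul_of_one_lt_left hp.pos hp.one_lt))

/-- A normal subgroup of prime order of a nilpotent group is central. -/
theorem le_center_of_prime {F : Type*} [Group F] [Finite F] [Group.IsNilpotent F] (A : Subgroup F)
    [A.Normal] (hA : (Nat.card A).Prime) : A ≤ Subgroup.center F := by
  by_contra hle
  have hbot : A ⊓ Subgroup.center F = ⊥ := by
    rcases (Nat.dvd_prime hA).1 (Subgroup.card_dvd_of_le (inf_le_left : A ⊓ Subgroup.center F ≤ A))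
      with e | e
    · exact Subgroup.card_eq_one.1 e
    · exfalso
      have := Subgroup.eq_of_le_of_card_ge (inf_le_left : A ⊓ Subgroup.center F ≤ A) e.ge
      exact hle (this ▸ inf_le_right)
  have hall : ∀ n, A ⊓ Subgroup.upperCentralSeries F n = ⊥ := by
    intro n
    induction n with
    | zero => simp
    | succ n ih =>
      rw [eq_bot_iff]
      intro a ha
      have hac : a ∈ Subgroup.center F := by
        rw [Subgroup.mem_center_iff]
        intro y
        have h1 : a * y * a⁻¹ * y⁻¹ ∈ A ⊓ Subgroup.upperCentralSeries F n := by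
          refine ⟨?_, Subgroup.mem_upperCentralSeries_succ_iff.1 ha.2 y⟩
          have : a * y * a⁻¹ * y⁻¹ = a * (y * a⁻¹ * y⁻¹) := by group
          rw [this]
          exact mul_mem ha.1 ((inferInstance : A.Normal).conj_mem _ (inv_mem ha.1) y)
        rw [ih, Subgroup.mem_bot, mul_inv_eq_one, mul_inv_eq_iff_eq_mul] at h1
        exact h1.symm
      exact hbot ▸ (⟨ha.1, hac⟩ : a ∈ A ⊓ Subgroup.center F)
  obtain ⟨n, hn⟩ := (Group.IsNilpotent.nilpotent F)
  have := hall n
  rw [hn, inf_top_eq] at this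
  rw [this, Subgroup.card_bot] at hA
  exact Nat.not_prime_one hA

/-- In a nilpotent normal subgroup, elements of the cyclic square-free derived subgroup are central. -/
theorem central_of_mem_commutator [IsCyclic (commutator G)] (hsq : Squarefree (Nat.card (commutator G)))
    {F : Subgroup G} [F.Normal] [Group.IsNilpotent F] {c : G} (hc : c ∈ commutator G) (hcF : c ∈ F) :
    (⟨c, hcF⟩ : F) ∈ Subgroup.center F := by
  set M := (commutator G).subgroupOf F with hM
  -- a finite nilpotent group is the product of its Sylow subgroups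
  rw [Subgroup.mem_center_iff]
  intro w
  have key : ∀ (q : ℕ) [Fact q.Prime] (m : F), m ∈ M → orderOf m = q → w * m = m * w := by
    intro q _ m hm ho
    have hcm : IsCyclic M := isCyclic_of_injective
      ((F.subtype.comp M.subtype).codRestrict (commutator G) fun x => x.2)
      (fun a b e => by
        apply Subtype.ext; apply Subtype.ext
        exact congrArg (fun v : commutator G => (v : G)) e)
    haveI := hcm
    haveI : (Subgroup.zpowers m).Normal := by
      refine ⟨fun z hz v => ?_⟩
      have hMn : M.Normal := inferInstance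
      have hzM : z ∈ M := Subgroup.zpowers_le.2 hm hz
      have h1 : (⟨v * m * v⁻¹, hMn.conj_mem m hm v⟩ : M) ∈ Subgroup.zpowers (⟨m, hm⟩ : M) := by
        classical
        haveI := Fintype.ofFinite M
        set m' : M := ⟨m, hm⟩
        have hq0 : 0 < q := (Fact.out : q.Prime).pos
        have hmq : orderOf m' = q := by rw [Subgroup.orderOf_mk, ho]
        have hvq : orderOf (⟨v * m * v⁻¹, hMn.conj_mem m hm v⟩ : M) = q := by
          rw [Subgroup.orderOf_mk, ← ho]
          simpa using MulEquiv.orderOf_eq (MulAut.conj v) m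
        set A := Finset.univ.filter fun a : M => a ^ q = 1
        have hsub : Finset.univ.filter (fun a : M => a ∈ Subgroup.zpowers m') ⊆ A := by
          intro a ha
          simp only [A, Finset.mem_filter, Finset.mem_univ, true_and] at ha ⊢
          obtain ⟨i, rfl⟩ := Subgroup.mem_zpowers_iff.1 ha
          rw [← zpow_natCast, ← zpow_mul, mul_comm, zpow_mul, zpow_natCast, ← hmq, pow_orderOf_eq_one,
            one_zpow]
        have heq := Finset.eq_of_subset_of_card_le hsub (by
          refine (IsCyclic.card_pow_eq_one_le (α := M) hq0).trans (le_of_eq ?_)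
          rw [← Fintype.card_subtype, ← Nat.card_eq_fintype_card]
          exact (hmq ▸ (Nat.card_zpowers m').symm))
        have hin : (⟨v * m * v⁻¹, hMn.conj_mem m hm v⟩ : M) ∈ A := by
          simp only [A, Finset.mem_filter, Finset.mem_univ, true_and]
          rw [← hvq, pow_orderOf_eq_one]
        rw [← heq] at hin
        exact (Finset.mem_filter.1 hin).2
      obtain ⟨i, hi⟩ := Subgroup.mem_zpowers_iff.1 h1
      obtain ⟨j, rfl⟩ := Subgroup.mem_zpowers_iff.1 hz
      refine ⟨i * j, ?_⟩
      show m ^ (i * j) = v * m ^ j * v⁻¹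
      rw [zpow_mul, show m ^ i = v * m * v⁻¹ from congrArg Subtype.val hi, conj_zpow]
    have hmc := CfsgLib.OddCons.SquareFree.le_center_of_prime (Subgroup.zpowers m)
      (by rw [Nat.card_zpowers, ho]; exact Fact.out)
    exact Subgroup.mem_center_iff.1 (hmc (Subgroup.mem_zpowers m)) w
  -- `c` is a product of elements of prime order
  have hcM : (⟨c, hcF⟩ : F) ∈ M := hc
  have hsq' : Squarefree (orderOf (⟨c, hcF⟩ : F)) :=
    hsq.squarefree_of_dvd (((Subgroup.orderOf_mk c hcF).dvd).trans
      (Subgroup.orderOf_dvd_natCard _ hc))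
  refine CfsgLib.Transfer.mem_of_primePow_parts (Subgroup.centralizer ({w} : Set F)) _ _ rfl
    (fun a ha q k hq hak => ?_) |> fun h => (Subgroup.mem_centralizer_singleton_iff.1 h).symm
  rw [Subgroup.mem_centralizer_singleton_iff]
  rcases Nat.eq_zero_or_pos k with rfl | hk
  · rw [pow_zero, orderOf_eq_one_iff] at hak
    rw [hak, one_mul, mul_one]
  have hk1 : k = 1 := by
    by_contra hne
    have := hsq' q (by
      rw [← pow_two]
      exact (pow_dvd_pow q (by omega : 2 ≤ k)).trans (hak ▸ orderOf_dvd_of_mem_zpowers ha))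
    exact hq.ne_one (Nat.isUnit_iff.1 this)
  rw [hk1, pow_one] at hak
  haveI : Fact q.Prime := ⟨hq⟩
  exact (key q a (Subgroup.zpowers_le.2 hcM ha) hak).symm

/-- S4130, from the odd order theorem. -/
theorem structure_squarefree (hFT : CfsgLib.OddStep.P0205.{u}) (h : SqClasses G) :
    Cfsg.IsSupersolvable G ∧ (Cfsg.fittingSubgroup G).Normal ∧
    (∀ _h : (Cfsg.fittingSubgroup G).Normal,
      IsCyclic (G ⧸ Cfsg.fittingSubgroup G) ∧ Squarefree (Cfsg.fittingSubgroup G).index) ∧
    IsCyclic (commutator G) ∧ Squarefree (Nat.card (commutator G)) ∧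
    Subgroup.upperCentralSeries ↥(Cfsg.fittingSubgroup G) 2 = ⊤ ∧
    commutator ↥(commutator G) = ⊥ := by
  have hss : IsSupersolvable G := isSupersolvable hFT _ _ le_rfl h
  have hsq := commutator_squarefree hFT h
  haveI hnil : Group.IsNilpotent (commutator G) := Cfsg.Agent.S0526.result hss
  haveI : IsZGroup (commutator G) := IsZGroup.of_squarefree hsq
  haveI hcyc : IsCyclic (commutator G) := inferInstance
  obtain ⟨⟨z, hz⟩, hgen⟩ := IsCyclic.exists_generator (α := commutator G)
  have hzgen : ∀ c ∈ commutator G, ∃ i : ℤ, z ^ i = c := fun c hc => by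
    obtain ⟨i, hi⟩ := Subgroup.mem_zpowers_iff.1 (hgen ⟨c, hc⟩)
    exact ⟨i, congrArg Subtype.val hi⟩
  set C := Subgroup.centralizer ((commutator G : Subgroup G) : Set G) with hC
  have hCz : C = Subgroup.centralizer ({z} : Set G) := by
    refine le_antisymm (Subgroup.centralizer_le (Set.singleton_subset_iff.2 hz)) ?_
    intro x hx
    rw [hC, Subgroup.mem_centralizer_iff]
    intro c hc
    obtain ⟨i, rfl⟩ := hzgen c hc
    exact ((show Commute x z from Subgroup.mem_centralizer_singleton_iff.1 hx).zpow_right i).symm.eq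
  haveI hCn : C.Normal := inferInstance
  have hGC : commutator G ≤ C := fun x hx => by
    rw [hCz, Subgroup.mem_centralizer_singleton_iff]
    exact congrArg Subtype.val
      ((IsCyclic.commGroup (α := commutator G)).mul_comm ⟨x, hx⟩ ⟨z, hz⟩)
  have hCnil : Group.IsNilpotent C := by
    refine ⟨⟨2, ?_⟩⟩
    rw [eq_top_iff]
    intro x _
    rw [Subgroup.mem_upperCentralSeries_succ_iff]
    intro y
    rw [Subgroup.upperCentralSeries_one, Subgroup.mem_center_iff]
    intro w
    apply Subtype.ext
    exact ((Subgroup.mem_centralizer_iff.1 w.2) _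
      (Subgroup.commutator_mem_commutator (Subgroup.mem_top (x : G)) (Subgroup.mem_top (y : G)))).symm
  have hCF : C ≤ Cfsg.fittingSubgroup G := CfsgLib.Fitting.le_fittingSubgroup hCn hCnil
  have hFn := CfsgLib.Fitting.fittingSubgroup_normal G
  refine ⟨hss, hFn, fun _ => ?_, hcyc, hsq, ?_, ?_⟩
  · have hCi : Squarefree C.index := hCz ▸ h z
    have hsqF : Squarefree (Cfsg.fittingSubgroup G).index :=
      hCi.squarefree_of_dvd (Subgroup.index_dvd_of_le hCF)
    refine ⟨?_, hsqF⟩
    haveI : IsZGroup (G ⧸ Cfsg.fittingSubgroup G) :=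
      IsZGroup.of_squarefree (by rw [← Subgroup.index_eq_card]; exact hsqF)
    haveI : Group.IsNilpotent (G ⧸ Cfsg.fittingSubgroup G) := by
      suffices hab : ∀ a b : G ⧸ Cfsg.fittingSubgroup G, a * b = b * a by
        letI : CommGroup (G ⧸ Cfsg.fittingSubgroup G) := { (inferInstance : Group (G ⧸ Cfsg.fittingSubgroup G)) with mul_comm := hab }
        infer_instance
      intro a b
      obtain ⟨x, rfl⟩ := QuotientGroup.mk'_surjective _ a
      obtain ⟨y, rfl⟩ := QuotientGroup.mk'_surjective _ b
      rw [← commutatorElement_eq_one_iff_mul_comm, ← map_commutatorElement, QuotientGroup.mk'_apply,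
        QuotientGroup.eq_one_iff]
      exact (hGC.trans hCF)
        (Subgroup.commutator_mem_commutator (Subgroup.mem_top x) (Subgroup.mem_top y))
    infer_instance
  · -- commutators of `F` are central in `F`
    set F := Cfsg.fittingSubgroup G
    haveI hFnil : Group.IsNilpotent F := CfsgLib.Fitting.fittingSubgroup_isNilpotent G
    rw [eq_top_iff]
    intro x _
    rw [Subgroup.mem_upperCentralSeries_succ_iff]
    intro y
    rw [Subgroup.upperCentralSeries_one]
    have hmem : ((x * y * x⁻¹ * y⁻¹ : F) : G) ∈ commutator G :=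
      Subgroup.commutator_mem_commutator (Subgroup.mem_top (x : G)) (Subgroup.mem_top (y : G))
    exact central_of_mem_commutator hsq (by
      show ⁅(x : G), (y : G)⁆ ∈ _
      exact hmem) (x * y * x⁻¹ * y⁻¹).2
  · rw [commutator_def (G := ↥(commutator G)), Subgroup.commutator_eq_bot_iff_le_centralizer]
    intro a _
    rw [Subgroup.mem_centralizer_iff]
    intro b _
    exact (IsCyclic.commGroup (α := commutator G)).mul_comm b a

end CfsgLib.OddCons.SquareFree
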