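import Cfsg.Agent.OddStep.Interface
import Cfsg.Agent.LBalance.SylowFix
import Cfsg.Agent.Transfer.NormalPComplement
import Cfsg.Agent.Chars.Apps.Burnside
import Cfsg.Prelude.Def_KGroupFacts

/-!
# Automorphisms fixing a Sylow 2-subgroup pointwise

In a group without non-trivial odd normal subgroup the automorphisms fixing a Sylow 2-subgroup
pointwise form a group with derived subgroup of odd order (Glauberman); with the odd order theorem
this group is solvable, and so is the outer automorphism group of a simple group whenever the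
automorphisms of a Sylow 2-subgroup are solvable.
-/

set_option autoImplicit false

open Cfsg

namespace CfsgLib.OddCons.SylowFixer

universe u

/-- **The derived group of a group of automorphisms fixing a Sylow 2-subgroup has odd order.** -/
theorem odd_commutator (A : Type u) [Group A] [Finite A] :
    ∀ (n : ℕ) (G : Type u) [Group G] [Finite G], Nat.card G = n → pPrimeCore 2 G = ⊥ →
    ∀ (S : Sylow 2 G) (ρ : A →* MulAut G), Function.Injective ρ →
    (∀ (a : A), ∀ s ∈ (S : Subgroup G), ρ a s = s) → Odd (Nat.card (commutator A)) := by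
  haveI : Fact (Nat.Prime 2) := ⟨Nat.prime_two⟩
  intro n
  induction n using Nat.strong_induction_on with
  | _ n ih =>
    intro G _ _ hn hO S ρ hρ hfix
    by_cases hZ : Subgroup.center G = ⊥
    · rw [← Nat.not_even_iff_odd]
      intro he
      obtain ⟨a, ha⟩ := exists_prime_orderOf_dvd_card' 2 he.two_dvd
      refine CfsgLib.SylowFix.orderOf_ne_two hO hZ S ρ hfix a.2 ?_
      rw [orderOf_injective ρ hρ, Subgroup.orderOf_coe, ha]
    set Z := Subgroup.center G with hZdef
    have hZ2 : IsPGroup 2 Z := by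
      refine IsPGroup.of_card (n := (Nat.card Z).primeFactorsList.length)
        (Nat.eq_prime_pow_of_unique_prime_dvd Nat.card_pos.ne' fun {r} hr hrd => ?_)
      by_contra hr2
      haveI := Fact.mk hr
      obtain ⟨z, hz⟩ := exists_prime_orderOf_dvd_card' r hrd
      have hn' : (Subgroup.zpowers (z : G)).Normal := ⟨fun x hx g => by
        have hc : Subgroup.zpowers (z : G) ≤ Z := Subgroup.zpowers_le.2 z.2
        rwa [Subgroup.mem_center_iff.1 (hc hx) g, mul_inv_cancel_right]⟩
      have hle := Constrained.le_pPrimeCore_of_not_dvd (p := 2) hn' (by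
        rw [Nat.card_zpowers, Subgroup.orderOf_coe, hz]
        exact fun h => hr2 ((Nat.prime_dvd_prime_iff_eq Nat.prime_two hr).1 h).symm)
      rw [hO] at hle
      have hz1 : (z : G) = 1 := Subgroup.mem_bot.1 (hle (Subgroup.mem_zpowers _))
      rw [show z = 1 from Subtype.ext hz1, orderOf_one] at hz
      exact hr.one_lt.ne hz
    have hZS : Z ≤ (S : Subgroup G) :=
      le_sup_left.trans (S.3 (hZ2.to_sup_of_normal_left S.2) le_sup_right).le
    set π := QuotientGroup.mk' Z
    have hπ : Function.Surjective π := QuotientGroup.mk'_surjective Z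
    have hlt : Nat.card (G ⧸ Z) < n := by
      rw [← hn, Subgroup.card_eq_card_quotient_mul_card_subgroup Z]
      exact lt_mul_of_one_lt_right Nat.card_pos ((Subgroup.one_lt_card_iff_ne_bot Z).2 hZ)
    -- the odd core of the quotient is trivial
    have hO' : pPrimeCore 2 (G ⧸ Z) = ⊥ := by
      set L := (pPrimeCore 2 (G ⧸ Z)).comap π
      have hZL : Z ≤ L := fun x hx => by
        show π x ∈ pPrimeCore 2 (G ⧸ Z)
        rw [show π x = 1 from (QuotientGroup.eq_one_iff x).2 hx]
        exact Subgroup.one_mem _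
      have hidx : ¬ 2 ∣ (Z.subgroupOf L).index := by
        show ¬ 2 ∣ Z.relIndex L
        rw [Constrained.relIndex_eq_card_map, Subgroup.map_comap_eq_self_of_surjective hπ]
        exact Constrained.pPrimeCore_not_dvd
      haveI : L.Normal := (inferInstance : (pPrimeCore 2 (G ⧸ Z)).Normal).comap π
      have h1 := Constrained.central_sup_pPrimeCore_eq_top (Z.subgroupOf L)
        (fun z hz => Subgroup.mem_center_iff.2 fun g =>
          Subtype.ext (Subgroup.mem_center_iff.1 (show (z : G) ∈ Z from hz) g))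
        (hZ2.comap_of_injective L.subtype L.subtype_injective) hidx
      have h2 : (pPrimeCore 2 L).map L.subtype ≤ ⊥ :=
        hO ▸ Constrained.map_pPrimeCore_subgroup_le L
      rw [le_bot_iff, Subgroup.map_eq_bot_iff_of_injective _ L.subtype_injective] at h2
      rw [h2, sup_bot_eq, Subgroup.subgroupOf_eq_top] at h1
      rw [← Subgroup.map_comap_eq_self_of_surjective hπ (pPrimeCore 2 (G ⧸ Z)),
        Subgroup.map_eq_bot_iff, QuotientGroup.ker_mk']
      exact h1
    -- the induced automorphisms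
    have hmap : ∀ a : A, Z.map (ρ a : G ≃* G).toMonoidHom = Z := fun a =>
      Subgroup.characteristic_iff_map_eq.1 inferInstance (ρ a)
    let ρ' : A →* MulAut (G ⧸ Z) := MonoidHom.mk'
      (fun a => QuotientGroup.congr Z Z (ρ a) (hmap a))
      (fun a b => MulEquiv.ext fun x => by
        obtain ⟨g, rfl⟩ := QuotientGroup.mk'_surjective Z x
        show ((ρ (a * b) g : G) : G ⧸ Z) = ((ρ a (ρ b g) : G) : G ⧸ Z)
        rw [map_mul, MulAut.mul_apply])
    refine ih _ hlt (G ⧸ Z) rfl hO' (S.mapSurjective hπ) ρ' ?_ ?_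
    · -- faithfulness
      rw [← MonoidHom.ker_eq_bot_iff, eq_bot_iff]
      intro a ha
      rw [MonoidHom.mem_ker] at ha
      rw [Subgroup.mem_bot]
      refine hρ ?_
      rw [map_one]
      have hmem : ∀ g : G, g⁻¹ * ρ a g ∈ Z := fun g => by
        refine (QuotientGroup.eq (s := Z)).1 ?_
        have h := DFunLike.congr_fun ha (g : G ⧸ Z)
        exact h.symm
      let f : G →* Z := MonoidHom.mk' (fun g => ⟨g⁻¹ * ρ a g, hmem g⟩) fun g h => Subtype.ext (by
        show (g * h)⁻¹ * ρ a (g * h) = g⁻¹ * ρ a g * (h⁻¹ * ρ a h)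
        rw [map_mul, mul_inv_rev, ← mul_assoc (g⁻¹ * ρ a g), ← Subgroup.mem_center_iff.1 (hmem g) h⁻¹]
        group)
      have hker : (S : Subgroup G) ≤ f.ker := fun s hs =>
        Subtype.ext (show s⁻¹ * ρ a s = 1 by rw [hfix a s hs, inv_mul_cancel])
      have hf : f.ker = ⊤ := by
        rw [← Subgroup.index_eq_one, Subgroup.index_ker]
        obtain ⟨k, hk⟩ := IsPGroup.iff_card.1 hZ2
        obtain ⟨j, -, hj⟩ := (Nat.dvd_prime_pow Nat.prime_two).1
          (hk ▸ Subgroup.card_subgroup_dvd_card f.range)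
        rcases Nat.eq_zero_or_pos j with rfl | hj0
        · simpa using hj
        · refine absurd ?_ S.not_dvd_index
          exact (hj ▸ dvd_pow_self 2 hj0.ne').trans
            ((Subgroup.index_ker f) ▸ Subgroup.index_dvd_of_le hker)
      refine MulEquiv.ext fun g => ?_
      have hg : f g = 1 := (hf ▸ Subgroup.mem_top g : g ∈ f.ker)
      exact (inv_mul_eq_one.1 (congrArg Subtype.val hg)).symm
    · rintro a _ ⟨s, hs, rfl⟩
      show ((ρ a s : G) : G ⧸ Z) = (s : G ⧸ Z)
      rw [hfix a s hs]

/-- Abelian Sylow 2-subgroups and a normal complement. -/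
theorem sylow_commutative_and_complement {C : Type u} [Group C] [Finite C]
    (hC : Odd (Nat.card (commutator C))) :
    ∀ T : Sylow 2 C, (∀ a b : T, a * b = b * a) ∧
      ∃ N : Subgroup C, N.Normal ∧ Subgroup.IsComplement' N (T : Subgroup C) := by
  haveI : Fact (Nat.Prime 2) := ⟨Nat.prime_two⟩
  intro T
  refine ⟨fun a b => ?_, ?_⟩
  · have hc : ((a * b * a⁻¹ * b⁻¹ : T) : C) ∈ (T : Subgroup C) ⊓ commutator C :=
      ⟨(a * b * a⁻¹ * b⁻¹ : T).2, by
        rw [commutator_def]
        exact Subgroup.commutator_mem_commutator (Subgroup.mem_top (a : C)) (Subgroup.mem_top (b : C))⟩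
    rw [Constrained.disjoint_of_isPGroup_of_not_dvd T.2
      (fun h => (Nat.not_even_iff_odd.2 hC) (even_iff_two_dvd.2 h)), Subgroup.mem_bot] at hc
    exact mul_inv_eq_iff_eq_mul.1 (mul_inv_eq_one.1 (Subtype.ext hc))
  · refine CfsgLib.Transfer.exists_isComplement' ?_ T
    refine CfsgLib.Transfer.hasNormalPComplement_of_quotient (commutator C)
      (CfsgLib.Transfer.coprime_of_not_dvd fun h => (Nat.not_even_iff_odd.2 hC) (even_iff_two_dvd.2 h)) ?_
    obtain ⟨P⟩ : Nonempty (Sylow 2 (C ⧸ commutator C)) := inferInstance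
    refine CfsgLib.Transfer.hasNormalPComplement_of_normalizer_le_centralizer P fun g _ => ?_
    refine Subgroup.mem_centralizer_iff.2 fun h _ => ?_
    obtain ⟨x, rfl⟩ := QuotientGroup.mk_surjective g
    obtain ⟨y, rfl⟩ := QuotientGroup.mk_surjective h
    refine (QuotientGroup.eq).2 ?_
    rw [commutator_def, show (y * x)⁻¹ * (x * y) = x⁻¹ * y⁻¹ * x⁻¹⁻¹ * y⁻¹⁻¹ by group]
    exact Subgroup.commutator_mem_commutator (Subgroup.mem_top x⁻¹) (Subgroup.mem_top y⁻¹)

/-- A group with derived subgroup of odd order is solvable, given the odd order theorem. -/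
theorem isSolvable_of_odd_commutator (hFT : CfsgLib.OddStep.P0205.{u}) {C : Type u} [Group C]
    [Finite C] (hC : Odd (Nat.card (commutator C))) : Group.IsSolvable C := by
  haveI := hFT hC
  haveI : Group.IsSolvable (C ⧸ commutator C) := Group.isSolvable_of_comm fun a b => by
    obtain ⟨x, rfl⟩ := QuotientGroup.mk_surjective a
    obtain ⟨y, rfl⟩ := QuotientGroup.mk_surjective b
    refine (QuotientGroup.eq).2 ?_
    rw [commutator_def, show (x * y)⁻¹ * (y * x) = y⁻¹ * x⁻¹ * y⁻¹⁻¹ * x⁻¹⁻¹ by group]
    exact Subgroup.commutator_mem_commutator (Subgroup.mem_top y⁻¹) (Subgroup.mem_top x⁻¹)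
  exact (Group.isSolvable_iff_subgroup_quotient (commutator C)).mpr ⟨‹_›, ‹_›⟩

/-- **Glauberman: automorphisms fixing a Sylow 2-subgroup pointwise.** -/
theorem automorphisms_fixing_sylow (hFT : CfsgLib.OddStep.P0205.{u}) {G : Type u} [Group G]
    [Finite G] (hO : ∀ N : Subgroup G, N.Normal → Odd (Nat.card N) → N = ⊥) (S : Sylow 2 G)
    (C : Subgroup (MulAut G)) (hC : ∀ φ : MulAut G, φ ∈ C ↔ ∀ s : G, s ∈ S → φ s = s) :
    (∀ T : Sylow 2 C, (∀ a b : T, a * b = b * a) ∧
      ∃ N : Subgroup C, N.Normal ∧ Subgroup.IsComplement' N (T : Subgroup C)) ∧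
      Group.IsSolvable C := by
  haveI : Fact (Nat.Prime 2) := ⟨Nat.prime_two⟩
  have hcore : pPrimeCore 2 G = ⊥ := hO _ inferInstance (Nat.not_even_iff_odd.1 fun h =>
    Constrained.pPrimeCore_not_dvd h.two_dvd)
  have h := odd_commutator C _ G rfl hcore S C.subtype C.subtype_injective
    fun a s hs => (hC a).1 a.2 s hs
  exact ⟨sylow_commutative_and_complement h, isSolvable_of_odd_commutator hFT h⟩

/-! ### Outer automorphisms of simple groups -/

section Simple

variable {G : Type u} [Group G] (S : Subgroup G)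

/-- The automorphisms leaving `S` invariant. -/
def stab : Subgroup (MulAut G) where
  carrier := {φ | ∀ x, φ x ∈ S ↔ x ∈ S}
  one_mem' := fun _ => Iff.rfl
  mul_mem' := fun {a b} ha hb x => (ha (b x)).trans (hb x)
  inv_mem' := fun {a} ha x => by
    rw [← ha (a⁻¹ x), MulAut.apply_inv_self]

/-- Restriction to `S`. -/
def res : stab S →* MulAut S where
  toFun φ :=
    { toFun := fun x => ⟨(φ : MulAut G) x, (φ.2 x).2 x.2⟩
      invFun := fun x => ⟨(φ : MulAut G)⁻¹ x, ((inv_mem φ.2 : (φ : MulAut G)⁻¹ ∈ stab S) x).2 x.2⟩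
      left_inv := fun x => Subtype.ext (MulAut.inv_apply_self G (φ : MulAut G) x)
      right_inv := fun x => Subtype.ext (MulAut.apply_inv_self G (φ : MulAut G) x)
      map_mul' := fun x y => Subtype.ext (map_mul (φ : MulAut G) (x : G) y) }
  map_one' := MulEquiv.ext fun _ => Subtype.ext rfl
  map_mul' _ _ := MulEquiv.ext fun _ => Subtype.ext rfl

@[simp] theorem res_apply (φ : stab S) (x : S) : (res S φ x : G) = (φ : MulAut G) x := rfl

/-- Inner automorphisms by elements of the normalizer. -/
theorem conj_mem_stab {g : G} (hg : g ∈ Subgroup.normalizer (S : Set G)) :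
    MulAut.conj g ∈ stab S := fun x => ((Subgroup.mem_normalizer_iff.1 hg) x).symm

end Simple

/-- The odd core of a non-abelian simple group with non-trivial Sylow 2-subgroup is trivial. -/
theorem oddNormal_eq_bot {G : Type u} [Group G] [Finite G] [IsSimpleGroup G] (S : Sylow 2 G)
    (hS1 : (S : Subgroup G) ≠ ⊥) (N : Subgroup G) (hN : N.Normal) (ho : Odd (Nat.card N)) : N = ⊥ := by
  haveI : Fact (Nat.Prime 2) := ⟨Nat.prime_two⟩
  refine (hN.eq_bot_or_eq_top).resolve_right fun e => ?_
  rw [e, Subgroup.card_top] at ho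
  obtain ⟨k, hk⟩ := IsPGroup.iff_card.1 S.2
  rcases Nat.eq_zero_or_pos k with rfl | hk0
  · exact hS1 (Subgroup.card_eq_one.1 (by simpa using hk))
  · exact Nat.not_even_iff_odd.2 ho (even_iff_two_dvd.2
      ((hk ▸ dvd_pow_self 2 hk0.ne').trans (Subgroup.card_subgroup_dvd_card _)))

/-- `Out(G)` is solvable when the automorphisms induced on a Sylow 2-subgroup are solvable. -/
theorem out_isSolvable (hFT : CfsgLib.OddStep.P0205.{u}) {G : Type u} [Group G] [Finite G]
    [IsSimpleGroup G] (S : Sylow 2 G) (hS1 : (S : Subgroup G) ≠ ⊥)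
    (h : Group.IsSolvable (res (S : Subgroup G)).range) : Group.IsSolvable (Cfsg.Out G) := by
  haveI : Fact (Nat.Prime 2) := ⟨Nat.prime_two⟩
  let C : Subgroup (MulAut G) :=
    { carrier := {φ | ∀ s : G, s ∈ S → φ s = s}
      one_mem' := fun _ _ => rfl
      mul_mem' := fun {a b} ha hb s hs => by rw [MulAut.mul_apply, hb s hs, ha s hs]
      inv_mem' := fun {a} ha s hs => by
        conv_lhs => rw [← ha s hs]
        exact MulAut.inv_apply_self G a s }
  have hC : Group.IsSolvable C := (automorphisms_fixing_sylow hFT (oddNormal_eq_bot S hS1) S C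
    fun _ => Iff.rfl).2
  set St := stab (S : Subgroup G)
  haveI : Group.IsSolvable St := by
    set r := res (S : Subgroup G)
    haveI : Group.IsSolvable r.ker := by
      haveI := hC
      let f : r.ker →* C :=
        { toFun := fun φ => ⟨(φ : St).1, fun s hs => by
            have := DFunLike.congr_fun (MonoidHom.mem_ker.1 φ.2) (⟨s, hs⟩ : (S : Subgroup G))
            exact congrArg Subtype.val this⟩
          map_one' := rfl
          map_mul' := fun _ _ => rfl }
      exact Group.isSolvable_of_isSolvable_injective (f := f) fun a b e =>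
        Subtype.ext (Subtype.ext (congrArg (fun c : C => (c : MulAut G)) e))
    haveI := h
    exact Group.isSolvable_of_ker_le_range r.ker.subtype r.rangeRestrict
      (by rw [MonoidHom.ker_rangeRestrict, Subgroup.range_subtype])
  refine Group.isSolvable_of_surjective (f := (QuotientGroup.mk' (Cfsg.Inn G)).comp St.subtype)
    fun x => ?_
  obtain ⟨φ, rfl⟩ := QuotientGroup.mk'_surjective _ x
  obtain ⟨g, hg⟩ := MulAction.exists_smul_eq G (S.mapSurjective (f := φ.toMonoidHom) φ.surjective) S
  have hgS : ∀ y, y ∈ (S : Subgroup G) ↔ MulAut.conj g (φ y) ∈ (S : Subgroup G) := by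
    intro y
    constructor
    · intro hy
      rw [← hg]
      exact ⟨φ y, ⟨y, hy, rfl⟩, rfl⟩
    · intro hy
      conv at hy => rw [← hg]
      obtain ⟨z, ⟨w, hw, rfl⟩, hz⟩ := hy
      have hwy : w = y := φ.injective ((MulAut.conj g).injective hz)
      exact hwy ▸ hw
  refine ⟨⟨MulAut.conj g * φ, fun y => (hgS y).symm⟩, ?_⟩
  show QuotientGroup.mk' (Cfsg.Inn G) (MulAut.conj g * φ) = QuotientGroup.mk' (Cfsg.Inn G) φ
  rw [map_mul, show QuotientGroup.mk' (Cfsg.Inn G) (MulAut.conj g) = 1 from
    (QuotientGroup.eq_one_iff _).2 ⟨g, rfl⟩, one_mul]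

/-- `Out(G)` is solvable when `Aut(S)` is. -/
theorem out_isSolvable_of_mulAut (hFT : CfsgLib.OddStep.P0205.{u}) {G : Type u} [Group G] [Finite G]
    [IsSimpleGroup G] (S : Sylow 2 G) (hS1 : (S : Subgroup G) ≠ ⊥)
    (hS : Group.IsSolvable (MulAut (S : Subgroup G))) : Group.IsSolvable (Cfsg.Out G) := by
  haveI := hS
  exact out_isSolvable hFT S hS1 inferInstance

end CfsgLib.OddCons.SylowFixer
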